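import Mathlib

/-!
# Transfer formulas with the extension by one. Owner: helper70.
-/

set_option autoImplicit false

namespace Cfsg.Agent.H70

open Subgroup MonoidHom MulAction

variable {G : Type*} [Group G] {A : Type*} [CommGroup A]

open Classical in
/-- extension by one of a homomorphism on a subgroup -/
noncomputable def hext (H : Subgroup G) (φ : H →* A) (g : G) : A :=
  if h : g ∈ H then φ ⟨g, h⟩ else 1

theorem hext_of_mem {H : Subgroup G} (φ : H →* A) {g : G} (h : g ∈ H) : hext H φ g = φ ⟨g, h⟩ :=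
  dif_pos h

theorem hext_of_notMem {H : Subgroup G} (φ : H →* A) {g : G} (h : g ∉ H) : hext H φ g = 1 :=
  dif_neg h

theorem hext_conj {H : Subgroup G} (φ : H →* A) (g : G) {h : G} (hh : h ∈ H) :
    hext H φ (h⁻¹ * g * h) = hext H φ g := by
  by_cases hg : g ∈ H
  · have h1 : h⁻¹ * g * h ∈ H := mul_mem (mul_mem (inv_mem hh) hg) hh
    rw [hext_of_mem φ hg, hext_of_mem φ h1]
    have e : (⟨h⁻¹ * g * h, h1⟩ : H) = ⟨h, hh⟩⁻¹ * ⟨g, hg⟩ * ⟨h, hh⟩ := rfl
    rw [e, map_mul, map_mul, map_inv, mul_comm, mul_inv_cancel_left]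
  · have h1 : h⁻¹ * g * h ∉ H := by
      intro h1
      apply hg
      have := mul_mem (mul_mem hh h1) (inv_mem hh)
      have e : h * (h⁻¹ * g * h) * h⁻¹ = g := by group
      rwa [e] at this
    rw [hext_of_notMem φ hg, hext_of_notMem φ h1]

/-- a function on `G` which is constant on the left cosets of `H` -/
theorem hext_conj_eq {H : Subgroup G} (φ : H →* A) (g : G) {x y : G}
    (h : (x : G ⧸ H) = (y : G ⧸ H)) :
    hext H φ (x⁻¹ * g * x) = hext H φ (y⁻¹ * g * y) := by
  rw [QuotientGroup.eq] at h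
  have := hext_conj φ (x⁻¹ * g * x) h
  rw [← this]
  congr 1
  group

/-- **Transfer** when the powers of `u` do not contribute. -/
theorem transfer_eq_prod [Finite G] (H : Subgroup G) [Fintype (G ⧸ H)] (φ : H →* A) (u : G)
    (h : ∀ x : G, ∀ m : ℕ, 1 < m → m ∣ orderOf u → x⁻¹ * u * x ∉ H →
      hext H φ (x⁻¹ * u ^ m * x) = 1) :
    MonoidHom.transfer φ u = ∏ y : G ⧸ H, hext H φ (y.out⁻¹ * u * y.out) := by
  classical
  let _ : Fintype (Quotient (orbitRel (zpowers u) (G ⧸ H))) := Fintype.ofFinite _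
  let _ : ∀ ω : Quotient (orbitRel (zpowers u) (G ⧸ H)), Fintype (orbit (zpowers u) ω.out) :=
    fun ω => Fintype.ofFinite _
  rw [transfer_eq_prod_quotient_orbitRel_zpowers_quot]
  rw [Fintype.prod_equiv (selfEquivSigmaOrbits (zpowers u) (G ⧸ H)).symm.symm
    (fun y : G ⧸ H => hext H φ (y.out⁻¹ * u * y.out))
    (fun s => hext H φ (((s.2 : G ⧸ H)).out⁻¹ * u * (s.2 : G ⧸ H).out)) (fun y => rfl)]
  rw [Fintype.prod_sigma]
  refine Fintype.prod_congr _ _ fun ω => ?_
  have hfix : ∀ y : G ⧸ H, y.out⁻¹ * u * y.out ∈ H ↔ u • y = y := by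
    intro y
    rw [← QuotientGroup.out_eq' y, MulAction.Quotient.smul_mk, QuotientGroup.eq, smul_eq_mul]
    simp only [QuotientGroup.out_eq']
    rw [← inv_mem_iff]
    have e : ((y.out)⁻¹ * u * y.out)⁻¹ = (u * y.out)⁻¹ * y.out := by group
    rw [e]
  by_cases hω : u • ω.out = ω.out
  · have hper : Function.minimalPeriod (u • ·) ω.out = 1 :=
      Function.minimalPeriod_eq_one_iff_isFixedPt.2 hω
    have huniq : ∀ y : orbit (zpowers u) ω.out, (y : G ⧸ H) = ω.out := by
      rintro ⟨_, ⟨⟨v, hv⟩, rfl⟩⟩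
      obtain ⟨k, rfl⟩ := mem_zpowers_iff.1 hv
      have hmem : u ∈ stabilizer G ω.out := hω
      exact (zpow_mem hmem k : u ^ k ∈ stabilizer G ω.out)
    have hs : ∀ y : orbit (zpowers u) ω.out, y = ⟨ω.out, mem_orbit_self _⟩ := fun y =>
      Subtype.ext (huniq y)
    rw [Fintype.prod_eq_single (⟨ω.out, mem_orbit_self _⟩ : orbit (zpowers u) ω.out)
      (fun y hy => absurd (hs y) hy)]
    rw [hext_of_mem φ ((hfix _).2 hω)]
    congr 1
    apply Subtype.ext
    change ω.out.out⁻¹ * u ^ Function.minimalPeriod (u • ·) ω.out * ω.out.out = _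
    rw [hper, pow_one]
  · have hnot : ∀ y : orbit (zpowers u) ω.out, u • (y : G ⧸ H) ≠ y := by
      rintro ⟨_, ⟨⟨v, hv⟩, rfl⟩⟩ hy
      obtain ⟨k, rfl⟩ := mem_zpowers_iff.1 hv
      apply hω
      change u • ((u ^ k) • ω.out) = (u ^ k) • ω.out at hy
      rw [← mul_smul, (Commute.refl u).zpow_right k |>.eq, mul_smul] at hy
      exact smul_left_cancel _ hy
    rw [Fintype.prod_eq_one _ (fun y => hext_of_notMem φ (fun hc => hnot y ((hfix _).1 hc)))]
    have hm1 : Function.minimalPeriod (u • ·) ω.out ≠ 1 := fun hc =>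
      hω (Function.minimalPeriod_eq_one_iff_isFixedPt.1 hc)
    have hmd : Function.minimalPeriod (u • ·) ω.out ∣ orderOf u := by
      apply Function.IsPeriodicPt.minimalPeriod_dvd
      rw [Function.IsPeriodicPt, Function.IsFixedPt, smul_iterate]
      change u ^ orderOf u • ω.out = ω.out
      rw [pow_orderOf_eq_one, one_smul]
    have hm0 : 0 < Function.minimalPeriod (u • ·) ω.out :=
      Nat.pos_of_dvd_of_pos hmd (orderOf_pos u)
    have h2 := h ω.out.out (Function.minimalPeriod (u • ·) ω.out) (by omega) hmd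
      (fun hc => hω ((hfix _).1 hc))
    rw [← h2]
    exact (hext_of_mem φ (QuotientGroup.out_conj_pow_minimalPeriod_mem H u ω.out)).symm

end Cfsg.Agent.H70
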