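import Mathlib.GroupTheory.GroupAction.CardCommute
import Mathlib.GroupTheory.QuotientGroup.Basic
import Mathlib.GroupTheory.Index
import Mathlib.Tactic.Group

set_option autoImplicit false

namespace Cfsg.Agent.H70

/-- The number of commuting pairs between `A` and `B` as a sum of relative centralizers. -/
theorem card_commuting_eq_sum {X : Type*} [Group X] [Fintype X] :
    Nat.card (ConjClasses X) * Nat.card X =
      ∑ x : X, Nat.card {y : X // Commute x y} := by
  classical
  rw [← card_comm_eq_card_conjClasses_mul_card,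
    Nat.card_congr (Equiv.subtypeProdEquivSigmaSubtype (fun a b : X => Commute a b)),
    Nat.card_sigma]

/-- The relative index as the size of an orbit on cosets. -/
theorem relIndex_eq_ncard_orbit {X : Type*} [Group X] (Y C : Subgroup X) :
    Y.relIndex C = (MulAction.orbit C ((1 : X) : X ⧸ Y)).ncard := by
  rw [← MulAction.index_stabilizer, Subgroup.relIndex]
  congr 1
  ext ⟨c, hc⟩
  simp only [Subgroup.mem_subgroupOf, MulAction.mem_stabilizer_iff]
  change c ∈ Y ↔ (((c * 1 : X)) : X ⧸ Y) = ((1 : X) : X ⧸ Y)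
  rw [QuotientGroup.eq]
  simp

theorem relIndex_le_index' {X : Type*} [Group X] [Finite X] (Y C : Subgroup X) :
    Y.relIndex C ≤ Y.index := by
  rw [relIndex_eq_ncard_orbit, Subgroup.index_eq_card]
  exact le_trans (Set.ncard_le_ncard (Set.subset_univ _)) (by rw [Set.ncard_univ])

theorem exists_of_relIndex_eq_index {X : Type*} [Group X] [Finite X] (Y C : Subgroup X)
    (h : Y.relIndex C = Y.index) (g : X) : ∃ c ∈ C, ∃ y ∈ Y, g = c * y := by
  rw [relIndex_eq_ncard_orbit, Subgroup.index_eq_card, ← Set.ncard_univ] at h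
  have h2 := Set.eq_of_subset_of_ncard_le (Set.subset_univ _) h.ge
  have h3 : (g : X ⧸ Y) ∈ MulAction.orbit C ((1 : X) : X ⧸ Y) := by rw [h2]; trivial
  obtain ⟨⟨c, hc⟩, hcg⟩ := h3
  change (((c * 1 : X)) : X ⧸ Y) = (g : X ⧸ Y) at hcg
  rw [QuotientGroup.eq] at hcg
  exact ⟨c, hc, _, hcg, by group⟩

end Cfsg.Agent.H70
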