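import Mathlib
import Cfsg.Agent.H70.Enum

/-!
Counting subgroups of given order in a finite group modulo `p ^ 2`.  Owner: helper70.
-/

set_option autoImplicit false

namespace Cfsg.Agent.H70

open Subgroup
open scoped Pointwise

theorem card_conj_smul {G : Type*} [Group G] (g : G) (H : Subgroup G) :
    Nat.card (MulAut.conj g • H : Subgroup G) = Nat.card H :=
  Nat.card_congr (Subgroup.equivSMul (MulAut.conj g) H).symm.toEquiv

theorem mem_conj_smul_iff {G : Type*} [Group G] (x z : G) (L : Subgroup G) :
    z ∈ (MulAut.conj x • L : Subgroup G) ↔ x⁻¹ * z * x ∈ L := by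
  rw [Subgroup.mem_smul_pointwise_iff_exists]
  constructor
  · rintro ⟨s, hs, rfl⟩
    change x⁻¹ * (x * s * x⁻¹) * x ∈ L
    have : x⁻¹ * (x * s * x⁻¹) * x = s := by group
    rwa [this]
  · intro hz
    refine ⟨_, hz, ?_⟩
    change x * (x⁻¹ * z * x) * x⁻¹ = z
    group

theorem card_inf_mul_relIndex {G : Type*} [Group G] (Q P : Subgroup G) :
    Nat.card (Q ⊓ P : Subgroup G) * Q.relIndex P = Nat.card P := by
  rw [← Subgroup.inf_relIndex_right, ← Subgroup.relIndex_bot_left (Q ⊓ P),
    ← Subgroup.relIndex_bot_left P]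
  exact Subgroup.relIndex_mul_relIndex _ _ _ bot_le inf_le_right

theorem normalizer_conj_smul {G : Type*} [Group G] (g : G) (H : Subgroup G) :
    normalizer ((MulAut.conj g • H : Subgroup G) : Set G) =
      MulAut.conj g • normalizer (H : Set G) := by
  ext x
  rw [mem_conj_smul_iff, Subgroup.mem_normalizer_iff, Subgroup.mem_normalizer_iff]
  constructor
  · intro h y
    have h1 := h (g * y * g⁻¹)
    rw [mem_conj_smul_iff, mem_conj_smul_iff] at h1
    have e1 : g⁻¹ * (g * y * g⁻¹) * g = y := by group
    have e2 : g⁻¹ * (x * (g * y * g⁻¹) * x⁻¹) * g = g⁻¹ * x * g * y * (g⁻¹ * x * g)⁻¹ := by group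
    rw [e1, e2] at h1
    exact h1
  · intro h y
    rw [mem_conj_smul_iff, mem_conj_smul_iff]
    have h1 := h (g⁻¹ * y * g)
    have e2 : g⁻¹ * x * g * (g⁻¹ * y * g) * (g⁻¹ * x * g)⁻¹ = g⁻¹ * (x * y * x⁻¹) * g := by group
    rw [e2] at h1
    exact h1

/-- weighted orbit counting for the conjugation action of `Q` on the subgroups of `G` -/
theorem dvd_sum_conj {G : Type*} [Group G] [Finite G] [Fintype (Subgroup G)] (Q : Subgroup G)
    (w : Subgroup G → ℕ) (hw : ∀ g ∈ Q, ∀ H : Subgroup G, w (MulAut.conj g • H) = w H) (N : ℕ)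
    (h : ∀ H : Subgroup G, N ∣ (normalizer (H : Set G)).relIndex Q * w H) :
    N ∣ ∑ H : Subgroup G, w H := by
  classical
  let inst : MulAction Q (Subgroup G) :=
    MulAction.compHom (Subgroup G) ((MulAut.conj : G →* MulAut G).comp Q.subtype)
  have hsmul : ∀ (g : Q) (H : Subgroup G), g • H = MulAut.conj (g : G) • H := fun g H => rfl
  have hcard : ∀ H : Subgroup G, Nat.card (MulAction.orbit Q H) =
      (normalizer (H : Set G)).relIndex Q := by
    intro H
    have h1 : MulAction.stabilizer Q H = (normalizer (H : Set G)).subgroupOf Q := by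
      ext g
      rw [MulAction.mem_stabilizer_iff, hsmul, Subgroup.mem_subgroupOf,
        Subgroup.mem_normalizer_iff]
      constructor
      · intro h2 x
        constructor
        · intro hx
          rw [← h2]
          exact ⟨x, hx, rfl⟩
        · intro hx
          rw [← h2] at hx
          obtain ⟨y, hy, hxy⟩ := hx
          have : y = x := (MulAut.conj (g : G)).injective hxy
          rwa [← this]
      · intro h2
        ext x
        rw [Subgroup.mem_smul_pointwise_iff_exists]
        constructor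
        · rintro ⟨y, hy, rfl⟩
          exact (h2 y).mp hy
        · intro hx
          refine ⟨(g : G)⁻¹ * x * g, ?_, ?_⟩
          · rw [h2]
            have : (g : G) * ((g : G)⁻¹ * x * g) * (g : G)⁻¹ = x := by group
            rwa [this]
          · change (g : G) * ((g : G)⁻¹ * x * g) * (g : G)⁻¹ = x
            group
    rw [Nat.card_coe_set_eq, ← MulAction.index_stabilizer, h1]
    rfl
  have e := MulAction.selfEquivSigmaOrbits Q (Subgroup G)
  have : Fintype (MulAction.orbitRel.Quotient Q (Subgroup G)) := Fintype.ofFinite _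
  have f2 : ∀ ω : MulAction.orbitRel.Quotient Q (Subgroup G),
      Fintype (MulAction.orbit Q ω.out) := fun ω => Fintype.ofFinite _
  have h1 : ∑ H : Subgroup G, w H = ∑ x : (Σ ω : MulAction.orbitRel.Quotient Q (Subgroup G),
      MulAction.orbit Q ω.out), w (x.2 : Subgroup G) := by
    refine Fintype.sum_equiv (MulAction.selfEquivSigmaOrbits Q (Subgroup G)) _ _ (fun H => ?_)
    rfl
  rw [h1, Fintype.sum_sigma]
  apply Finset.dvd_sum
  intro ω _
  have h2 : ∑ x : MulAction.orbit Q ω.out, w (x : Subgroup G) =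
      ∑ _x : MulAction.orbit Q ω.out, w ω.out := by
    refine Finset.sum_congr rfl (fun x _ => ?_)
    obtain ⟨g, hg⟩ := x.2
    have h3 : (x : Subgroup G) = MulAut.conj (g : G) • ω.out := hg.symm
    rw [h3, hw g g.2]
  rw [h2, Finset.sum_const, Finset.card_univ, smul_eq_mul, ← Nat.card_eq_fintype_card, hcard]
  exact h _

/-- the number of subgroups with an invariant property is congruent modulo `p` to the number of
those normalized by the `p`-group `Q` -/
theorem card_modEq_normalized {G : Type*} [Group G] [Finite G] {p : ℕ} [hp : Fact p.Prime]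
    (Q : Subgroup G) (hQ : IsPGroup p Q) (X : Subgroup G → Prop)
    (hX : ∀ g ∈ Q, ∀ H : Subgroup G, X (MulAut.conj g • H) ↔ X H) :
    Nat.card {H : Subgroup G // X H} ≡
      Nat.card {H : Subgroup G // X H ∧ Q ≤ normalizer (H : Set G)} [MOD p] := by
  classical
  have : Fintype (Subgroup G) := Fintype.ofFinite _
  have hnorm : ∀ g ∈ Q, ∀ H : Subgroup G,
      Q ≤ normalizer ((MulAut.conj g • H : Subgroup G) : Set G) ↔ Q ≤ normalizer (H : Set G) := by
    intro g hg H
    have h1 : ∀ x ∈ Q, ∀ K : Subgroup G, Q ≤ normalizer (K : Set G) →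
        Q ≤ normalizer ((MulAut.conj x • K : Subgroup G) : Set G) := by
      intro x hx K hK
      have h2 : (MulAut.conj x • K : Subgroup G) = K := by
        apply Subgroup.eq_of_le_of_card_ge
        · rintro _ ⟨y, hy, rfl⟩
          exact (Subgroup.mem_normalizer_iff.mp (hK hx) y).mp hy
        · rw [card_conj_smul]
      rw [h2]; exact hK
    constructor
    · intro h2
      have h3 := h1 g⁻¹ (Q.inv_mem hg) _ h2
      rwa [← mul_smul, ← map_mul, inv_mul_cancel, map_one, one_smul] at h3
    · exact h1 g hg H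
  let w : Subgroup G → ℕ := fun H => if X H ∧ ¬ Q ≤ normalizer (H : Set G) then 1 else 0
  have h1 : p ∣ ∑ H : Subgroup G, w H := by
    apply dvd_sum_conj Q
    · intro g hg H
      simp only [w, hX g hg H, hnorm g hg H]
    · intro H
      by_cases hH : X H ∧ ¬ Q ≤ normalizer (H : Set G)
      · apply dvd_mul_of_dvd_left
        obtain ⟨n, hn⟩ := IsPGroup.iff_card.mp hQ
        have h2 : (normalizer (H : Set G)).relIndex Q ∣ p ^ n := by
          rw [← hn]; exact Subgroup.relIndex_dvd_card _ _
        obtain ⟨k, hk, hk2⟩ := (Nat.dvd_prime_pow hp.out).mp h2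
        rw [hk2]
        apply dvd_pow_self
        rintro rfl
        rw [pow_zero, Subgroup.relIndex_eq_one] at hk2
        exact hH.2 hk2
      · simp only [w, if_neg hH, mul_zero]
        exact dvd_zero p
  have h2 : Nat.card {H : Subgroup G // X H} =
      Nat.card {H : Subgroup G // X H ∧ Q ≤ normalizer (H : Set G)} + ∑ H : Subgroup G, w H := by
    have h3 : ∑ H : Subgroup G, w H =
        Nat.card {H : Subgroup G // X H ∧ ¬ Q ≤ normalizer (H : Set G)} := by
      simp only [w]
      rw [← Finset.card_filter, Nat.card_eq_fintype_card, Fintype.card_subtype]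
    rw [h3, Nat.card_eq_fintype_card, Nat.card_eq_fintype_card, Nat.card_eq_fintype_card,
      Fintype.card_subtype, Fintype.card_subtype, Fintype.card_subtype]
    rw [← Finset.card_filter_add_card_filter_not (s := Finset.univ.filter X)
      (fun H : Subgroup G => Q ≤ normalizer (H : Set G)), Finset.filter_filter, Finset.filter_filter]
  rw [h2]
  have h3 : ∑ H : Subgroup G, w H ≡ 0 [MOD p] := (Nat.modEq_zero_iff_dvd).mpr h1
  exact (Nat.ModEq.add_left _ h3).trans (by rw [add_zero])

theorem ns_subgroup' {G : Type*} [Group G] (p a : ℕ) (M : Subgroup G) :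
    ns p a M = Nat.card {H : Subgroup G // H ≤ M ∧ Nat.card H = p ^ a} := by
  rw [ns_subgroup]
  exact Nat.card_congr
    { toFun := fun H => ⟨H.1.1, H.2, H.1.2⟩
      invFun := fun H => ⟨⟨H.1, H.2.2⟩, H.2.1⟩
      left_inv := fun x => rfl
      right_inv := fun x => rfl }

theorem conj_smul_le_iff {G : Type*} [Group G] (g : G) (H K : Subgroup G)
    (hg : g ∈ normalizer (K : Set G)) : MulAut.conj g • H ≤ K ↔ H ≤ K := by
  rw [Subgroup.mem_normalizer_iff] at hg
  constructor
  · intro h x hx
    rw [hg]
    exact h ⟨x, hx, rfl⟩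
  · rintro h _ ⟨x, hx, rfl⟩
    exact (hg x).mp (h hx)

/-- the number of subgroups of order `p ^ a`, normal in the Sylow subgroup `P'` and not contained in
`M` is divisible by `p` -/
theorem dvd_card_normal {G : Type*} [Group G] [Finite G] {p : ℕ} [hp : Fact p.Prime]
    (P' M : Subgroup G) (hP' : IsPGroup p P') (hMP : M ≤ P') (hM : P' ≤ normalizer (M : Set G))
    (a : ℕ) (ha : p ^ a ∣ Nat.card M) :
    p ∣ Nat.card {H : Subgroup G // (H ≤ P' ∧ Nat.card H = p ^ a ∧
      P' ≤ normalizer (H : Set G)) ∧ ¬ H ≤ M} := by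
  classical
  have : Fintype (Subgroup G) := Fintype.ofFinite _
  have hcardsmul : ∀ (g : G) (H : Subgroup G),
      Nat.card (MulAut.conj g • H : Subgroup G) = p ^ a ↔ Nat.card H = p ^ a := by
    intro g H
    rw [card_conj_smul]
  have h1 := card_modEq_normalized P' hP' (fun H => H ≤ P' ∧ Nat.card H = p ^ a) (by
    intro g hg H
    rw [hcardsmul, conj_smul_le_iff g H P' (le_normalizer hg)])
  have h2 := card_modEq_normalized P' hP' (fun H => H ≤ M ∧ Nat.card H = p ^ a) (by
    intro g hg H
    rw [hcardsmul, conj_smul_le_iff g H M (hM hg)])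
  rw [← ns_subgroup'] at h1 h2
  have h3 : ns p a P' ≡ 1 [MOD p] :=
    S3975.result p a hp.out (ha.trans (Subgroup.card_dvd_of_le hMP))
  have h4 : ns p a M ≡ 1 [MOD p] := S3975.result p a hp.out ha
  have h5 : Nat.card {H : Subgroup G // (H ≤ P' ∧ Nat.card H = p ^ a) ∧
      P' ≤ normalizer (H : Set G)} =
      Nat.card {H : Subgroup G // (H ≤ M ∧ Nat.card H = p ^ a) ∧ P' ≤ normalizer (H : Set G)} +
      Nat.card {H : Subgroup G // (H ≤ P' ∧ Nat.card H = p ^ a ∧
        P' ≤ normalizer (H : Set G)) ∧ ¬ H ≤ M} := by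
    rw [Nat.card_eq_fintype_card, Nat.card_eq_fintype_card, Nat.card_eq_fintype_card,
      Fintype.card_subtype, Fintype.card_subtype, Fintype.card_subtype]
    rw [← Finset.card_filter_add_card_filter_not (s := Finset.univ.filter
      (fun H : Subgroup G => (H ≤ P' ∧ Nat.card H = p ^ a) ∧ P' ≤ normalizer (H : Set G)))
      (fun H : Subgroup G => H ≤ M), Finset.filter_filter, Finset.filter_filter]
    congr 2
    · ext H
      simp only [Finset.mem_filter, Finset.mem_univ, true_and]
      constructor
      · rintro ⟨⟨⟨_, h2⟩, h3⟩, h4⟩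
        exact ⟨⟨h4, h2⟩, h3⟩
      · rintro ⟨⟨h1, h2⟩, h3⟩
        exact ⟨⟨⟨h1.trans hMP, h2⟩, h3⟩, h1⟩
    · ext H
      simp only [Finset.mem_filter, Finset.mem_univ, true_and]
      constructor
      · rintro ⟨⟨⟨h1, h2⟩, h3⟩, h4⟩
        exact ⟨⟨h1, h2, h3⟩, h4⟩
      · rintro ⟨⟨h1, h2, h3⟩, h4⟩
        exact ⟨⟨⟨h1, h2⟩, h3⟩, h4⟩
  rw [h5] at h1
  have h6 := (h1.symm.trans h3)
  have h7 := (h2.symm.trans h4)
  have h8 : 1 + Nat.card {H : Subgroup G // (H ≤ P' ∧ Nat.card H = p ^ a ∧
        P' ≤ normalizer (H : Set G)) ∧ ¬ H ≤ M} ≡ 1 + 0 [MOD p] :=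
    (Nat.ModEq.add_right _ h7.symm).trans h6
  exact Nat.modEq_zero_iff_dvd.mp (Nat.ModEq.add_left_cancel' 1 h8)

theorem smul_normalizer_iff {G : Type*} [Group G] (g : G) (H K : Subgroup G)
    (hg : g ∈ normalizer (K : Set G)) :
    K ≤ normalizer ((MulAut.conj g • H : Subgroup G) : Set G) ↔ K ≤ normalizer (H : Set G) := by
  have key : ∀ (x : G) (L : Subgroup G), x ∈ normalizer (K : Set G) →
      K ≤ normalizer (L : Set G) → K ≤ normalizer ((MulAut.conj x • L : Subgroup G) : Set G) := by
    intro x L hx hL k hk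
    have hx' : x⁻¹ * k * x ∈ K := by
      have := (Subgroup.mem_normalizer_iff.mp (inv_mem hx) k).mp hk
      rwa [inv_inv] at this
    have h1 := Subgroup.mem_normalizer_iff.mp (hL hx')
    rw [Subgroup.mem_normalizer_iff]
    intro y
    have h2 : ∀ z, z ∈ (MulAut.conj x • L : Subgroup G) ↔ x⁻¹ * z * x ∈ L := by
      intro z
      rw [Subgroup.mem_smul_pointwise_iff_exists]
      constructor
      · rintro ⟨s, hs, rfl⟩
        change x⁻¹ * (x * s * x⁻¹) * x ∈ L
        have : x⁻¹ * (x * s * x⁻¹) * x = s := by group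
        rwa [this]
      · intro hz
        refine ⟨_, hz, ?_⟩
        change x * (x⁻¹ * z * x) * x⁻¹ = z
        group
    rw [h2, h2, h1]
    have : x⁻¹ * k * x * (x⁻¹ * y * x) * (x⁻¹ * k * x)⁻¹ = x⁻¹ * (k * y * k⁻¹) * x := by group
    rw [this]
  constructor
  · intro h
    have := key g⁻¹ _ (inv_mem hg) h
    rwa [← mul_smul, ← map_mul, inv_mul_cancel, map_one, one_smul] at this
  · exact key g H hg

/-- the number of subgroups of order `p ^ a` of `G` is congruent modulo `p ^ 2` to that of a Sylow
subgroup, if `p ^ a` is a proper divisor of the `p`-part. -/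
theorem ns_modEq_sylow {G : Type*} [Group G] [Finite G] {p : ℕ} [hp : Fact p.Prime]
    (P : Sylow p G) (a n : ℕ) (hn : Nat.card P = p ^ n) (ha : a < n) :
    ns p a G ≡ ns p a P [MOD p ^ 2] := by
  classical
  have : Fintype (Subgroup G) := Fintype.ofFinite _
  have hPp : IsPGroup p P := P.isPGroup'
  -- a `p`-subgroup has order at most `p ^ n`
  have hle : ∀ K : Subgroup G, IsPGroup p K → Nat.card K ∣ p ^ n := by
    intro K hK
    obtain ⟨Q, hQ⟩ := hK.exists_le_sylow
    have h1 : Nat.card Q = Nat.card P := Nat.card_congr (Sylow.equiv Q P).toEquiv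
    rw [← hn, ← h1]
    exact Subgroup.card_dvd_of_le hQ
  -- conjugation invariance
  have hcP : ∀ g ∈ (P : Subgroup G), ∀ H : Subgroup G, MulAut.conj g • H ≤ (P : Subgroup G) ↔
      H ≤ (P : Subgroup G) := fun g hg H => conj_smul_le_iff g H _ (le_normalizer hg)
  have hrel : ∀ g ∈ (P : Subgroup G), ∀ H : Subgroup G,
      (MulAut.conj g • H : Subgroup G).relIndex P = H.relIndex P := by
    intro g hg H
    have h1 : MulAut.conj g • (P : Subgroup G) = (P : Subgroup G) := by
      apply Subgroup.eq_of_le_of_card_ge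
      · exact (hcP g hg _).mpr le_rfl
      · rw [card_conj_smul]
    have h2 := Subgroup.relIndex_pointwise_smul (MulAut.conj g) H (P : Subgroup G)
    rwa [h1] at h2
  -- first part: big orbits
  let Y : Subgroup G → Prop := fun H => Nat.card H = p ^ a ∧ ¬ H ≤ (P : Subgroup G)
  have hYinv : ∀ g ∈ (P : Subgroup G), ∀ H : Subgroup G, Y (MulAut.conj g • H) ↔ Y H := by
    intro g hg H
    simp only [Y, card_conj_smul, hcP g hg H]
  have hfix : ∀ H : Subgroup G, IsPGroup p H → (normalizer (H : Set G)).relIndex P = 1 →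
      H ≤ (P : Subgroup G) := by
    intro H hHp h1
    rw [Subgroup.relIndex_eq_one] at h1
    have h2 : IsPGroup p (H ⊔ (P : Subgroup G) : Subgroup G) := hHp.to_sup_of_normal_left' hPp h1
    have h3 := P.is_maximal' h2 le_sup_right
    rw [← h3]
    exact le_sup_left
  have hYfix : ∀ H : Subgroup G, Y H → (normalizer (H : Set G)).relIndex P ≠ 1 := by
    rintro H ⟨hH1, hH2⟩ h1
    exact hH2 (hfix H (IsPGroup.of_card hH1) h1)
  have hpow : ∀ H : Subgroup G, ∃ k, (normalizer (H : Set G)).relIndex P = p ^ k := by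
    intro H
    have h1 : (normalizer (H : Set G)).relIndex P ∣ p ^ n := hn ▸ Subgroup.relIndex_dvd_card _ _
    obtain ⟨k, -, hk⟩ := (Nat.dvd_prime_pow hp.out).mp h1
    exact ⟨k, hk⟩
  have hA : p ^ 2 ∣ ∑ H : Subgroup G,
      (if Y H ∧ (normalizer (H : Set G)).relIndex P ≠ p then 1 else 0) := by
    apply dvd_sum_conj (P : Subgroup G)
    · intro g hg H
      rw [normalizer_conj_smul, hrel g hg]
      simp only [hYinv g hg H]
    · intro H
      by_cases hH : Y H ∧ (normalizer (H : Set G)).relIndex P ≠ p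
      · apply dvd_mul_of_dvd_left
        obtain ⟨k, hk⟩ := hpow H
        have h1 := hYfix H hH.1
        have h2 := hH.2
        rw [hk] at h1 h2 ⊢
        apply pow_dvd_pow
        by_contra hlt
        have : k = 0 ∨ k = 1 := by omega
        rcases this with rfl | rfl
        · exact h1 (pow_zero p)
        · exact h2 (pow_one p)
      · rw [if_neg hH, mul_zero]
        exact dvd_zero _
  -- second part: the pairs
  let S : Subgroup G → Prop := fun Q => Nat.card Q = p ^ n ∧ Q.relIndex P = p
  let R : Subgroup G → Subgroup G → Prop := fun H Q => H ≤ Q ∧ Q ≤ normalizer (H : Set G)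
  have hn1 : 1 ≤ n := by omega
  have hpn : p ^ n = p ^ (n - 1) * p := by rw [← pow_succ]; congr 1; omega
  have hcardinf : ∀ K : Subgroup G, K.relIndex P = p →
      Nat.card (K ⊓ (P : Subgroup G) : Subgroup G) = p ^ (n - 1) := by
    intro K hK
    have h1 := card_inf_mul_relIndex K (P : Subgroup G)
    rw [hK] at h1
    have h2 : Nat.card (P : Subgroup G) = p ^ (n - 1) * p := by rw [← hpn]; exact hn
    rw [h2] at h1
    exact Nat.eq_of_mul_eq_mul_right hp.out.pos h1
  have hbig : ∀ H K : Subgroup G, ¬ H ≤ (P : Subgroup G) → K.relIndex P = p →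
      IsPGroup p (H ⊔ (K ⊓ (P : Subgroup G)) : Subgroup G) →
      Nat.card (H ⊔ (K ⊓ (P : Subgroup G)) : Subgroup G) = p ^ n := by
    intro H K hH hK hp1
    have h1 := hle _ hp1
    obtain ⟨k, hk, hk2⟩ := (Nat.dvd_prime_pow hp.out).mp h1
    rw [hk2]
    have h2 : Nat.card (K ⊓ (P : Subgroup G) : Subgroup G) ∣
        Nat.card (H ⊔ (K ⊓ (P : Subgroup G)) : Subgroup G) := Subgroup.card_dvd_of_le le_sup_right
    rw [hcardinf K hK, hk2] at h2
    have h3 := (Nat.pow_dvd_pow_iff_le_right hp.out.one_lt).mp h2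
    have h4 : k ≠ n - 1 := by
      intro h4
      have h5 : K ⊓ (P : Subgroup G) = H ⊔ (K ⊓ (P : Subgroup G)) := by
        apply Subgroup.eq_of_le_of_card_ge le_sup_right
        rw [hk2, hcardinf K hK, h4]
      apply hH
      calc H ≤ H ⊔ (K ⊓ (P : Subgroup G)) := le_sup_left
        _ = K ⊓ (P : Subgroup G) := h5.symm
        _ ≤ P := inf_le_right
    congr 1
    omega
  have hcount : ∀ H : Subgroup G, Y H → Nat.card {Q : Subgroup G // S Q ∧ R H Q} =
      if (normalizer (H : Set G)).relIndex P = p then 1 else 0 := by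
    intro H hH
    have hHp : IsPGroup p H := IsPGroup.of_card hH.1
    -- given Q
    have key : ∀ Q : Subgroup G, S Q → R H Q →
        (normalizer (H : Set G)).relIndex P = p ∧ Q = H ⊔ (normalizer (H : Set G) ⊓ P) := by
      rintro Q ⟨hQ1, hQ2⟩ ⟨hQ3, hQ4⟩
      have h1 : (normalizer (H : Set G)).relIndex P ∣ Q.relIndex P :=
        Subgroup.relIndex_dvd_of_le_left _ hQ4
      rw [hQ2] at h1
      have h2 : (normalizer (H : Set G)).relIndex P = p :=
        ((Nat.dvd_prime hp.out).mp h1).resolve_left (hYfix H hH)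
      refine ⟨h2, ?_⟩
      have h3 : Q ⊓ P ≤ normalizer (H : Set G) ⊓ P := inf_le_inf_right _ hQ4
      have h4 : Q ⊓ P = normalizer (H : Set G) ⊓ P := by
        apply Subgroup.eq_of_le_of_card_ge h3
        rw [hcardinf _ h2, hcardinf _ hQ2]
      have h5 : H ⊔ (normalizer (H : Set G) ⊓ P) ≤ Q := by
        rw [← h4]
        exact sup_le hQ3 inf_le_left
      symm
      apply Subgroup.eq_of_le_of_card_ge h5
      rw [hbig H _ hH.2 h2 ((IsPGroup.of_card hQ1).to_le h5), hQ1]
    by_cases hc : (normalizer (H : Set G)).relIndex P = p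
    · rw [if_pos hc, Nat.card_eq_one_iff_unique]
      constructor
      · constructor
        rintro ⟨Q, hQ⟩ ⟨Q', hQ'⟩
        apply Subtype.ext
        exact ((key Q hQ.1 hQ.2).2).trans ((key Q' hQ'.1 hQ'.2).2).symm
      · have h1 : IsPGroup p (H ⊔ (normalizer (H : Set G) ⊓ (P : Subgroup G)) : Subgroup G) :=
          hHp.to_sup_of_normal_left' (hPp.to_le inf_le_right) inf_le_left
        have h2 := hbig H _ hH.2 hc h1
        refine ⟨⟨H ⊔ (normalizer (H : Set G) ⊓ P), ⟨h2, ?_⟩, le_sup_left,
          sup_le le_normalizer inf_le_left⟩⟩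
        have h3 : (H ⊔ (normalizer (H : Set G) ⊓ (P : Subgroup G))).relIndex P ∣
            (normalizer (H : Set G) ⊓ (P : Subgroup G)).relIndex P :=
          Subgroup.relIndex_dvd_of_le_left _ le_sup_right
        rw [Subgroup.inf_relIndex_right, hc] at h3
        refine ((Nat.dvd_prime hp.out).mp h3).resolve_left (fun h4 => ?_)
        rw [Subgroup.relIndex_eq_one] at h4
        have h5 : (P : Subgroup G) = H ⊔ (normalizer (H : Set G) ⊓ P) := by
          apply Subgroup.eq_of_le_of_card_ge h4
          exact (h2.trans hn.symm).le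
        apply hH.2
        rw [h5]
        exact le_sup_left
    · rw [if_neg hc]
      have : IsEmpty {Q : Subgroup G // S Q ∧ R H Q} := ⟨fun Q => hc (key Q.1 Q.2.1 Q.2.2).1⟩
      exact Nat.card_of_isEmpty
  have hRinv : ∀ (g : G) (H Q : Subgroup G), R (MulAut.conj g • H) (MulAut.conj g • Q) ↔ R H Q := by
    intro g H Q
    simp only [R]
    rw [normalizer_conj_smul, Subgroup.pointwise_smul_le_pointwise_smul_iff,
      Subgroup.pointwise_smul_le_pointwise_smul_iff]
  have hB : p ^ 2 ∣ ∑ Q : Subgroup G,
      (if S Q then Nat.card {H : Subgroup G // Y H ∧ R H Q} else 0) := by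
    apply dvd_sum_conj (P : Subgroup G)
    · intro g hg Q
      have h1 : S (MulAut.conj g • Q) ↔ S Q := by
        simp only [S]
        rw [card_conj_smul, hrel g hg]
      have h2 : Nat.card {H : Subgroup G // Y H ∧ R H (MulAut.conj g • Q)} =
          Nat.card {H : Subgroup G // Y H ∧ R H Q} := by
        symm
        refine Nat.card_congr (Equiv.subtypeEquiv (MulAction.toPerm (MulAut.conj g)) (fun H => ?_))
        rw [MulAction.toPerm_apply, hRinv, hYinv g hg]
      simp only [h1, h2]
    · intro Q
      by_cases hQ : S Q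
      · rw [if_pos hQ, pow_two]
        have hQp : IsPGroup p Q := IsPGroup.of_card hQ.1
        apply mul_dvd_mul
        · obtain ⟨k, hk⟩ := hpow Q
          rw [hk]
          apply dvd_pow_self
          rintro rfl
          rw [pow_zero] at hk
          have h1 := hfix Q hQp hk
          have h2 : Q = (P : Subgroup G) := by
            apply Subgroup.eq_of_le_of_card_ge h1
            exact (hn.trans hQ.1.symm).le
          have h3 := hQ.2
          rw [h2, Subgroup.relIndex_self] at h3
          exact hp.out.one_lt.ne h3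
        · have h1 := dvd_card_normal Q (Q ⊓ P) hQp inf_le_left ?_ a ?_
          · have h2 : Nat.card {H : Subgroup G // (H ≤ Q ∧ Nat.card H = p ^ a ∧
                Q ≤ normalizer (H : Set G)) ∧ ¬ H ≤ Q ⊓ P} =
                Nat.card {H : Subgroup G // Y H ∧ R H Q} := by
              refine Nat.card_congr (Equiv.subtypeEquivRight (fun H => ?_))
              constructor
              · rintro ⟨⟨h1, h2, h3⟩, h4⟩
                exact ⟨⟨h2, fun h5 => h4 (le_inf h1 h5)⟩, h1, h3⟩
              · rintro ⟨⟨h1, h2⟩, h3, h4⟩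
                exact ⟨⟨h3, h1, h4⟩, fun h5 => h2 (h5.trans inf_le_right)⟩
            rwa [h2] at h1
          · -- Q normalizes Q ⊓ P
            have h3 : Nat.card (Q ⊓ (P : Subgroup G) : Subgroup G) = p ^ (n - 1) :=
              hcardinf Q hQ.2
            have h4 : ((Q ⊓ (P : Subgroup G)).subgroupOf Q).index = p := by
              have h5 := card_inf_mul_relIndex (Q ⊓ (P : Subgroup G)) Q
              rw [inf_eq_left.mpr (inf_le_left : Q ⊓ (P : Subgroup G) ≤ Q), h3, hQ.1, hpn] at h5
              exact Nat.eq_of_mul_eq_mul_left (pow_pos hp.out.pos _) h5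
            have h6 := (Solv.coatom_of_pGroup hQp _ (index_prime_coatom hp.out _ h4)).1
            exact (Subgroup.normal_subgroupOf_iff_le_normalizer inf_le_left).mp h6
          · rw [hcardinf Q hQ.2]
            exact pow_dvd_pow p (by omega)
      · rw [if_neg hQ, mul_zero]
        exact dvd_zero _
  -- double counting
  have hD : ∑ H : Subgroup G, (if Y H ∧ (normalizer (H : Set G)).relIndex P = p then 1 else 0) =
      ∑ Q : Subgroup G, (if S Q then Nat.card {H : Subgroup G // Y H ∧ R H Q} else 0) := by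
    have h1 : ∀ H : Subgroup G, (if Y H ∧ (normalizer (H : Set G)).relIndex P = p then 1 else 0) =
        Nat.card {Q : Subgroup G // Y H ∧ S Q ∧ R H Q} := by
      intro H
      by_cases hH : Y H
      · have h2 : Nat.card {Q : Subgroup G // Y H ∧ S Q ∧ R H Q} =
            Nat.card {Q : Subgroup G // S Q ∧ R H Q} :=
          Nat.card_congr (Equiv.subtypeEquivRight (fun Q => by simp [hH]))
        rw [h2, hcount H hH]
        simp [hH]
      · have : IsEmpty {Q : Subgroup G // Y H ∧ S Q ∧ R H Q} := ⟨fun Q => hH Q.2.1⟩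
        rw [if_neg (fun h => hH h.1)]
        exact Nat.card_of_isEmpty.symm
    have h2 : ∀ Q : Subgroup G, (if S Q then Nat.card {H : Subgroup G // Y H ∧ R H Q} else 0) =
        Nat.card {H : Subgroup G // Y H ∧ S Q ∧ R H Q} := by
      intro Q
      by_cases hQ : S Q
      · rw [if_pos hQ]
        exact Nat.card_congr (Equiv.subtypeEquivRight (fun H => by simp [hQ]))
      · have : IsEmpty {H : Subgroup G // Y H ∧ S Q ∧ R H Q} := ⟨fun H => hQ H.2.2.1⟩
        rw [if_neg hQ]
        exact Nat.card_of_isEmpty.symm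
    simp only [h1, h2]
    exact double_count (fun H Q => Y H ∧ S Q ∧ R H Q)
  -- total
  have hT : ns p a G = ns p a P +
      (∑ H : Subgroup G, (if Y H ∧ (normalizer (H : Set G)).relIndex P ≠ p then 1 else 0) +
      ∑ H : Subgroup G, (if Y H ∧ (normalizer (H : Set G)).relIndex P = p then 1 else 0)) := by
    have h1 : ns p a G = Nat.card {H : Subgroup G // Nat.card H = p ^ a} := rfl
    rw [h1, ns_subgroup', ← Finset.card_filter, ← Finset.card_filter]
    have h2 : (Finset.univ.filter (fun H : Subgroup G =>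
        Y H ∧ (normalizer (H : Set G)).relIndex P ≠ p)).card + (Finset.univ.filter
        (fun H : Subgroup G => Y H ∧ (normalizer (H : Set G)).relIndex P = p)).card =
        (Finset.univ.filter Y).card := by
      rw [← Finset.card_filter_add_card_filter_not (s := Finset.univ.filter Y)
        (fun H : Subgroup G => (normalizer (H : Set G)).relIndex P ≠ p), Finset.filter_filter,
        Finset.filter_filter]
      simp only [not_not, ne_eq]
    rw [h2, Nat.card_eq_fintype_card, Nat.card_eq_fintype_card, Fintype.card_subtype,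
      Fintype.card_subtype]
    rw [← Finset.card_filter_add_card_filter_not (s := Finset.univ.filter
      (fun H : Subgroup G => Nat.card H = p ^ a))
        (fun H : Subgroup G => H ≤ (P : Subgroup G)), Finset.filter_filter,
        Finset.filter_filter]
    congr 2
    ext H
    simp only [Finset.mem_filter, Finset.mem_univ, true_and]
    exact and_comm
  rw [hT]
  have h1 : (∑ H : Subgroup G, (if Y H ∧ (normalizer (H : Set G)).relIndex P ≠ p then 1 else 0) +
      ∑ H : Subgroup G, (if Y H ∧ (normalizer (H : Set G)).relIndex P = p then 1 else 0)) ≡ 0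
      [MOD p ^ 2] := by
    rw [Nat.modEq_zero_iff_dvd, hD]
    exact dvd_add hA hB
  exact (Nat.ModEq.add_left _ h1).trans (by rw [add_zero])

end Cfsg.Agent.H70
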