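import Mathlib
import Cfsg.Agent.H70.Enum
import Cfsg.Agent.MaxClass.TwoGroups

/-!
Counting subgroups of given order in a finite `2`-group modulo `4`.  Owner: helper70.
-/

set_option autoImplicit false

namespace Cfsg.Agent.H70

open Subgroup
open scoped commutatorElement

universe u

/-- a non-cyclic `p`-group has abelianization of order divisible by `p ^ 2` -/
theorem sq_dvd_index_commutator {P : Type*} [Group P] [Finite P] {p : ℕ} [hp : Fact p.Prime]
    (hP : IsPGroup p P) (hc : ¬ IsCyclic P) : p ^ 2 ∣ (commutator P).index := by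
  obtain ⟨k, hk2, hk⟩ := exists_index_frattini hP hc
  have h1 : (frattini P).index ∣ (commutator P).index :=
    Subgroup.index_dvd_of_le (Solv.commutator_le_frattini_of_pGroup hP)
  rw [hk] at h1
  exact (pow_dvd_pow p hk2).trans h1

/-- for a non-cyclic 2-group: abelianization of order 4 as soon as a subgroup of the commutator
subgroup has index 4. -/
theorem index_commutator_eq_four {P : Type*} [Group P] [Finite P] 
    (hP : IsPGroup 2 P) (hc : ¬ IsCyclic P) (h : (commutator P).index ∣ 4) :
    (commutator P).index = 4 := by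
  haveI : Fact (Nat.Prime 2) := ⟨Nat.prime_two⟩
  exact Nat.dvd_antisymm h (sq_dvd_index_commutator hP hc)

theorem comm_of_card_four {Q : Type*} [Group Q] (h : Nat.card Q = 4) (x y : Q) : x * y = y * x := by
  haveI : Fact (Nat.Prime 2) := ⟨Nat.prime_two⟩
  exact (IsPGroup.isMulCommutative_of_card_eq_prime_sq (p := 2) (by rw [h]; norm_num)).is_comm.comm x y

/-- in a group with center of index `4` the abelian subgroups of index 2 are those containing
the center -/
theorem comm_iff_center_le {Q : Type*} [Group Q] [Finite Q] (hZ : (center Q).index = 4)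
    (H : Subgroup Q) (hH : H.index = 2) :
    (∀ x ∈ H, ∀ y ∈ H, x * y = y * x) ↔ center Q ≤ H := by
  constructor
  · intro hc
    by_contra hle
    obtain ⟨z, hz, hzH⟩ := SetLike.not_le_iff_exists.mp hle
    rw [Subgroup.mem_center_iff] at hz
    have hcomm : ∀ x y : Q, x * y = y * x := by
      have h1 : ∀ x : Q, ∀ y ∈ H, x * y = y * x := by
        intro x y hy
        by_cases hx : x ∈ H
        · exact hc x hx y hy
        · have h2 : z * x ∈ H := by
            rw [Subgroup.mul_mem_iff_of_index_two hH]
            exact ⟨fun h => absurd h hzH, fun h => absurd h hx⟩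
          have h3 := hc _ h2 y hy
          rw [mul_assoc] at h3
          have h4 : y * (z * x) = z * (y * x) := by
            rw [← mul_assoc, hz y, mul_assoc]
          rw [h4] at h3
          exact mul_left_cancel h3
      intro x y
      by_cases hy : y ∈ H
      · exact h1 x y hy
      · have h2 : z * y ∈ H := by
          rw [Subgroup.mul_mem_iff_of_index_two hH]
          exact ⟨fun h => absurd h hzH, fun h => absurd h hy⟩
        have h3 := h1 x _ h2
        rw [← mul_assoc, hz x, mul_assoc, mul_assoc] at h3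
        exact mul_left_cancel h3
    have htop : center Q = ⊤ := by
      rw [eq_top_iff]
      intro x _
      rw [Subgroup.mem_center_iff]
      intro y
      exact hcomm y x
    rw [htop, Subgroup.index_top] at hZ
    omega
  · intro hle x hx y hy
    have h1 : (center Q).relIndex H * H.index = 4 := by
      rw [Subgroup.relIndex_mul_index hle, hZ]
    rw [hH] at h1
    have h2 : ((center Q).subgroupOf H).index = 2 := by
      change (center Q).relIndex H = 2
      omega
    by_cases hxZ : x ∈ center Q
    · exact ((Subgroup.mem_center_iff.mp hxZ) y).symm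
    · by_cases hyZ : y ∈ center Q
      · exact (Subgroup.mem_center_iff.mp hyZ) x
      · have h3 : (⟨x, hx⟩ : H)⁻¹ * ⟨y, hy⟩ ∈ (center Q).subgroupOf H := by
          rw [Subgroup.mul_mem_iff_of_index_two h2, inv_mem_iff]
          exact ⟨fun h => absurd h hxZ, fun h => absurd h hyZ⟩
        have h4 : x⁻¹ * y ∈ center Q := h3
        have h5 := (Subgroup.mem_center_iff.mp h4) x
        have h6 : y = x * (x⁻¹ * y) := by group
        calc x * y = x * (x * (x⁻¹ * y)) := by rw [← h6]
          _ = x * ((x⁻¹ * y) * x) := by rw [h5]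
          _ = y * x := by group

/-- exactly three subgroups of index 2 contain a center of index 4 -/
theorem card_center_le {Q : Type u} [Group Q] [Finite Q] (hZ : (center Q).index = 4) :
    Nat.card {H : Subgroup Q // center Q ≤ H ∧ H.index = 2} = 3 := by
  haveI : Fact (Nat.Prime 2) := ⟨Nat.prime_two⟩
  rw [card_above]
  have hcard : Nat.card (Q ⧸ center Q) = 2 ^ 2 := by
    rw [← Subgroup.index_eq_card, hZ]; norm_num
  let inst : CommGroup (Q ⧸ center Q) :=
    { (inferInstance : Group (Q ⧸ center Q)) with
      mul_comm := comm_of_card_four (by rw [hcard]; norm_num) }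
  have hnc : ¬ IsCyclic (Q ⧸ center Q) := by
    intro hc
    have hcomm : ∀ x y : Q, x * y = y * x := by
      have := commutative_of_cyclic_center_quotient (QuotientGroup.mk' (center Q))
        (by rw [QuotientGroup.ker_mk'])
      exact this
    have htop : center Q = ⊤ := by
      rw [eq_top_iff]
      intro x _
      rw [Subgroup.mem_center_iff]
      intro y
      exact hcomm y x
    rw [htop, Subgroup.index_top] at hZ
    omega
  have hexp : ∀ x : Q ⧸ center Q, x ^ 2 = 1 := by
    intro x
    have h1 : orderOf x ∣ 2 ^ 2 := by rw [← hcard]; exact orderOf_dvd_natCard x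
    obtain ⟨k, hk, hk2⟩ := (Nat.dvd_prime_pow Nat.prime_two).mp h1
    have hk3 : k ≠ 2 := by
      rintro rfl
      exact hnc (isCyclic_of_orderOf_eq_card x (by rw [hk2, hcard]))
    apply orderOf_dvd_iff_pow_eq_one.mp
    rw [hk2]
    calc 2 ^ k ∣ 2 ^ 1 := pow_dvd_pow 2 (by omega)
      _ = 2 := pow_one 2
  have h := card_index_prime_elem (p := 2) hcard hexp
  omega

/-- a group of order 16 with commutator subgroup of order 2 has center of index 4 -/
theorem index_center_sixteen {Q : Type*} [Group Q] [Finite Q] (hQ : Nat.card Q = 16)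
    (hQ' : Nat.card (commutator Q) = 2) : (center Q).index = 4 := by
  haveI : Fact (Nat.Prime 2) := ⟨Nat.prime_two⟩
  -- the central involution
  have hcomm2 : ∀ a b : Q, a ∈ commutator Q → b ∈ commutator Q → a ≠ 1 → b ≠ 1 → a = b := by
    intro a b ha hb ha1 hb1
    by_contra hne
    classical
    have : Fintype (commutator Q) := Fintype.ofFinite _
    have h1 : ({1, ⟨a, ha⟩, ⟨b, hb⟩} : Finset (commutator Q)).card ≤ 2 := by
      rw [← hQ', Nat.card_eq_fintype_card]
      exact Finset.card_le_univ _
    rw [Finset.card_insert_of_notMem, Finset.card_insert_of_notMem, Finset.card_singleton] at h1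
    · omega
    · rw [Finset.mem_singleton]
      intro h
      exact hne (congrArg Subtype.val h)
    · rw [Finset.mem_insert, Finset.mem_singleton]
      rintro (h | h)
      · exact ha1 (congrArg Subtype.val h).symm
      · exact hb1 (congrArg Subtype.val h).symm
  have hmem : ∀ a b : Q, ⁅a, b⁆ ∈ commutator Q := by
    intro a b
    rw [commutator_def]
    exact Subgroup.commutator_mem_commutator (Subgroup.mem_top _) (Subgroup.mem_top _)
  -- centralizers have index at most 2
  have hcent : ∀ x : Q, (centralizer ({x} : Set Q)).index = 1 ∨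
      (centralizer ({x} : Set Q)).index = 2 := by
    intro x
    by_cases hx : ∀ g, g * x = x * g
    · left
      rw [Subgroup.index_eq_one, eq_top_iff]
      intro g _
      rw [Subgroup.mem_centralizer_singleton_iff]
      exact hx g
    · right
      push Not at hx
      obtain ⟨g, hg⟩ := hx
      rw [Subgroup.index_eq_two_iff]
      refine ⟨g, fun b => ?_⟩
      rw [Subgroup.mem_centralizer_singleton_iff, Subgroup.mem_centralizer_singleton_iff]
      have hgc : ⁅g, x⁆ ≠ 1 := by
        intro h
        exact hg (commutatorElement_eq_one_iff_mul_comm.mp h)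
      by_cases hb : b * x = x * b
      · right
        refine ⟨hb, fun h => ?_⟩
        apply hg
        have h1 : b * (g * x) = b * (x * g) := by
          rw [← mul_assoc, h, ← mul_assoc, ← mul_assoc, hb]
        exact mul_left_cancel h1
      · left
        refine ⟨?_, hb⟩
        have hbc : ⁅b, x⁆ ≠ 1 := by
          intro h
          exact hb (commutatorElement_eq_one_iff_mul_comm.mp h)
        have h1 : ⁅b * g, x⁆ = 1 := by
          by_contra h2
          have e1 : ⁅b * g, x⁆ = b * ⁅g, x⁆ * b⁻¹ * ⁅b, x⁆ := by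
            simp only [commutatorElement_def]; group
          have e2 : b * ⁅g, x⁆ * b⁻¹ = ⁅b, x⁆ := by
            apply hcomm2
            · exact (inferInstance : (commutator Q).Normal).conj_mem _ (hmem g x) b
            · exact hmem b x
            · intro h3
              apply hgc
              rw [mul_inv_eq_one] at h3
              exact mul_eq_left.mp h3
            · exact hbc
          have e3 : ⁅b * g, x⁆ = ⁅b, x⁆ := hcomm2 _ _ (hmem _ _) (hmem _ _) h2 hbc
          rw [e1, e2] at e3
          exact hbc (mul_eq_left.mp e3)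
        exact commutatorElement_eq_one_iff_mul_comm.mp h1
  -- x, y
  obtain ⟨x, y, hxy⟩ : ∃ x y : Q, x * y ≠ y * x := by
    by_contra hcon
    push Not at hcon
    have h1 : commutator Q = ⊥ := by
      rw [commutator_def, Subgroup.commutator_eq_bot_iff_le_centralizer]
      intro a _
      rw [Subgroup.mem_centralizer_iff]
      intro b _
      exact hcon b a
    rw [h1, Subgroup.card_bot] at hQ'
    omega
  have hx2 : (centralizer ({x} : Set Q)).index = 2 := by
    rcases hcent x with h | h
    · exfalso
      rw [Subgroup.index_eq_one] at h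
      have h2 : y ∈ centralizer ({x} : Set Q) := by rw [h]; exact Subgroup.mem_top _
      rw [Subgroup.mem_centralizer_singleton_iff] at h2
      exact hxy h2.symm
    · exact h
  have hy2 : (centralizer ({y} : Set Q)).index = 2 := by
    rcases hcent y with h | h
    · exfalso
      rw [Subgroup.index_eq_one] at h
      have h2 : x ∈ centralizer ({y} : Set Q) := by rw [h]; exact Subgroup.mem_top _
      rw [Subgroup.mem_centralizer_singleton_iff] at h2
      exact hxy h2
    · exact h
  set C := centralizer ({x} : Set Q) ⊓ centralizer ({y} : Set Q) with hC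
  have hdvd16 : ∀ K : Subgroup Q, ∃ k ≤ 4, Nat.card K = 2 ^ k := by
    intro K
    have h1 : Nat.card K ∣ 2 ^ 4 := by
      rw [show (2 : ℕ) ^ 4 = 16 by norm_num, ← hQ]
      exact Subgroup.card_subgroup_dvd_card K
    exact (Nat.dvd_prime_pow Nat.prime_two).mp h1
  have hCle : C.index ≤ 4 := by
    have := Subgroup.index_inf_le (H := centralizer ({x} : Set Q)) (K := centralizer ({y} : Set Q))
    rw [hx2, hy2] at this
    exact this
  have hCcard : Nat.card C * C.index = 16 := by rw [Subgroup.card_mul_index, hQ]
  have hlt : ∀ K L : Subgroup Q, K < L → 2 * Nat.card K ≤ Nat.card L := by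
    intro K L hKL
    obtain ⟨k, hk, hk2⟩ := hdvd16 K
    obtain ⟨l, hl, hl2⟩ := hdvd16 L
    have h1 : Nat.card K < Nat.card L := by
      apply lt_of_le_of_ne (Subgroup.card_le_of_le hKL.le)
      intro h
      exact hKL.ne (Subgroup.eq_of_le_of_card_ge hKL.le h.symm.le)
    rw [hk2, hl2] at h1 ⊢
    have h2 := (Nat.pow_lt_pow_iff_right (by norm_num : 1 < 2)).mp h1
    calc 2 * 2 ^ k = 2 ^ (k + 1) := by ring
      _ ≤ 2 ^ l := Nat.pow_le_pow_right (by norm_num) h2
  have hxCy : x ∉ centralizer ({y} : Set Q) := by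
    rw [Subgroup.mem_centralizer_singleton_iff]; exact hxy
  have hyCx : y ∉ centralizer ({x} : Set Q) := by
    rw [Subgroup.mem_centralizer_singleton_iff]; exact fun h => hxy h.symm
  have hxCx : x ∈ centralizer ({x} : Set Q) := by
    rw [Subgroup.mem_centralizer_singleton_iff]
  -- C has order 4
  have hC4 : Nat.card C = 4 := by
    have h1 : C < centralizer ({x} : Set Q) := by
      refine lt_of_le_of_ne inf_le_left (fun h => hxCy ?_)
      have : x ∈ C := by rw [h]; exact hxCx
      exact this.2
    have h2 := hlt _ _ h1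
    have h3 := Subgroup.card_mul_index (centralizer ({x} : Set Q))
    rw [hx2, hQ] at h3
    obtain ⟨k, hk, hk2⟩ := hdvd16 C
    have h4 : 0 < Nat.card C := Nat.card_pos
    have h5 : Nat.card C ≤ 4 := by omega
    by_contra hne
    have h6 : Nat.card C ≤ 3 := by omega
    have h7 : Nat.card C * C.index ≤ 3 * 4 := Nat.mul_le_mul h6 hCle
    omega
  have hCcomm : ∀ a ∈ C, ∀ b ∈ C, a * b = b * a := by
    intro a ha b hb
    exact congrArg Subtype.val (comm_of_card_four hC4 (⟨a, ha⟩ : C) ⟨b, hb⟩)
  have hCZ : C ≤ center Q := by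
    intro c hc
    set L := centralizer ({c} : Set Q) with hL
    have hCL : C ≤ L := by
      intro a ha
      rw [hL, Subgroup.mem_centralizer_singleton_iff]
      exact hCcomm a ha c hc
    have hxL : x ∈ L := by
      rw [hL, Subgroup.mem_centralizer_singleton_iff]
      exact (Subgroup.mem_centralizer_singleton_iff.mp hc.1).symm
    have hyL : y ∈ L := by
      rw [hL, Subgroup.mem_centralizer_singleton_iff]
      exact (Subgroup.mem_centralizer_singleton_iff.mp hc.2).symm
    have h1 : C < L ⊓ centralizer ({x} : Set Q) := by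
      refine lt_of_le_of_ne (le_inf hCL inf_le_left) (fun h => hxCy ?_)
      have : x ∈ C := by rw [h]; exact ⟨hxL, hxCx⟩
      exact this.2
    have h2 : L ⊓ centralizer ({x} : Set Q) < L := by
      refine lt_of_le_of_ne inf_le_left (fun h => hyCx ?_)
      have : y ∈ L ⊓ centralizer ({x} : Set Q) := by rw [h]; exact hyL
      exact this.2
    have h3 := hlt _ _ h1
    have h4 := hlt _ _ h2
    have h5 : L = ⊤ := by
      apply Subgroup.eq_top_of_card_eq
      apply le_antisymm (Subgroup.card_le_card_group L)
      omega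
    rw [Subgroup.mem_center_iff]
    intro g
    have h6 : g ∈ L := by rw [h5]; exact Subgroup.mem_top _
    exact Subgroup.mem_centralizer_singleton_iff.mp h6
  have hZC : center Q ≤ C := by
    refine le_inf ?_ ?_ <;>
    · intro z hz
      rw [Subgroup.mem_centralizer_singleton_iff]
      exact ((Subgroup.mem_center_iff.mp hz) _).symm
  have : center Q = C := le_antisymm hZC hCZ
  rw [this]
  rw [hC4] at hCcard
  omega

/-- number of non-abelian maximal subgroups of a group of order 16 with `|Q'| = 2` -/
theorem four_dvd_card_nonabelian {Q : Type u} [Group Q] [Finite Q] (hQ : Nat.card Q = 16)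
    (hQ' : Nat.card (commutator Q) = 2) :
    4 ∣ Nat.card {H : Subgroup Q // H.index = 2 ∧ ¬ ∀ x ∈ H, ∀ y ∈ H, x * y = y * x} := by
  classical
  haveI : Fact (Nat.Prime 2) := ⟨Nat.prime_two⟩
  have : Fintype (Subgroup Q) := Fintype.ofFinite _
  have hZ := index_center_sixteen hQ hQ'
  have h3 := card_center_le hZ
  have hP : IsPGroup 2 Q := IsPGroup.of_card (n := 4) (by rw [hQ]; norm_num)
  have hnc : ¬ IsCyclic Q := by
    intro hc
    have htop : center Q = ⊤ := by
      rw [eq_top_iff]
      intro x _
      rw [Subgroup.mem_center_iff]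
      intro y
      exact (IsCyclic.commGroup (α := Q)).mul_comm y x
    rw [htop, Subgroup.index_top] at hZ
    omega
  have hmax := card_max hP hnc
  have h1 : Nat.card {M : Subgroup Q // M.index = 2} =
      Nat.card {H : Subgroup Q // center Q ≤ H ∧ H.index = 2} +
      Nat.card {H : Subgroup Q // H.index = 2 ∧ ¬ ∀ x ∈ H, ∀ y ∈ H, x * y = y * x} := by
    rw [Nat.card_eq_fintype_card, Nat.card_eq_fintype_card, Nat.card_eq_fintype_card,
      Fintype.card_subtype, Fintype.card_subtype, Fintype.card_subtype]
    rw [← Finset.card_filter_add_card_filter_not (s := Finset.univ.filter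
      (fun M : Subgroup Q => M.index = 2)) (fun H : Subgroup Q => center Q ≤ H),
      Finset.filter_filter, Finset.filter_filter]
    congr 2
    · ext H
      simp only [Finset.mem_filter, Finset.mem_univ, true_and]
      exact and_comm
    · ext H
      simp only [Finset.mem_filter, Finset.mem_univ, true_and]
      constructor
      · rintro ⟨h1, h2⟩
        exact ⟨h1, fun h => h2 ((comm_iff_center_le hZ H h1).mp h)⟩
      · rintro ⟨h1, h2⟩
        exact ⟨h1, fun h => h2 ((comm_iff_center_le hZ H h1).mpr h)⟩
  rw [h1, h3] at hmax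
  have h4 : (3 + Nat.card {H : Subgroup Q // H.index = 2 ∧ ¬ ∀ x ∈ H, ∀ y ∈ H, x * y = y * x}) % 4 =
      3 % 4 := hmax
  omega

theorem card_inf_mul_relIndex' {G : Type*} [Group G] (Q P : Subgroup G) (h : Q ≤ P) :
    Nat.card Q * Q.relIndex P = Nat.card P := by
  rw [← Subgroup.relIndex_bot_left Q, ← Subgroup.relIndex_bot_left P]
  exact Subgroup.relIndex_mul_relIndex _ _ _ bot_le h

theorem card_commutator_subtype {P : Type*} [Group P] (H : Subgroup P) :
    Nat.card (⁅H, H⁆ : Subgroup P) = Nat.card (commutator H) := by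
  rw [← Subgroup.map_subtype_commutator]
  exact Nat.card_congr ((commutator H).equivMapOfInjective H.subtype H.subtype_injective).symm.toEquiv

theorem map_mk'_commutator {P : Type*} [Group P] (K : Subgroup P) [K.Normal] :
    (commutator P).map (QuotientGroup.mk' K) = commutator (P ⧸ K) := by
  rw [commutator_def, Subgroup.map_commutator,
    Subgroup.map_top_of_surjective _ (QuotientGroup.mk'_surjective K), ← commutator_def]

/-- number of maximal subgroups with abelianization of order 4 in a 2-group not of maximal class -/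
theorem four_dvd_card_maxClass {P : Type u} [Group P] [Finite P] {n : ℕ} (hn : Nat.card P = 2 ^ n)
    (hn4 : 4 ≤ n) (hidx : (commutator P).index ≠ 4) :
    4 ∣ Nat.card {H : Subgroup P // H.index = 2 ∧ (commutator H).index = 4} := by
  haveI : Fact (Nat.Prime 2) := ⟨Nat.prime_two⟩
  by_cases hex : ∃ M₀ : Subgroup P, M₀.index = 2 ∧ (commutator M₀).index = 4
  swap
  · have : IsEmpty {H : Subgroup P // H.index = 2 ∧ (commutator H).index = 4} :=
      ⟨fun H => hex ⟨H.1, H.2⟩⟩
    rw [Nat.card_of_isEmpty]
    exact dvd_zero 4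
  obtain ⟨M₀, hM, hM'⟩ := hex
  have hP : IsPGroup 2 P := IsPGroup.of_card hn
  have hcardH : ∀ H : Subgroup P, H.index = 2 → Nat.card H = 2 ^ (n - 1) := fun H hH =>
    card_of_index hn (by omega) H hH
  have h13 : 2 ^ (n - 1) = 2 ^ (n - 3) * 4 := by
    rw [show (4 : ℕ) = 2 ^ 2 by norm_num, ← pow_add]; congr 1; omega
  have hcomm_iff : ∀ H : Subgroup P, H.index = 2 →
      ((commutator H).index = 4 ↔ Nat.card (⁅H, H⁆ : Subgroup P) = 2 ^ (n - 3)) := by
    intro H hH
    have h1 := Subgroup.card_mul_index (commutator H)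
    rw [hcardH H hH, h13, ← card_commutator_subtype] at h1
    constructor
    · intro h2
      rw [h2] at h1
      exact Nat.eq_of_mul_eq_mul_right (by norm_num) h1
    · intro h2
      rw [h2] at h1
      exact Nat.eq_of_mul_eq_mul_left (by positivity) h1
  have hMn : M₀.Normal := Subgroup.normal_of_index_eq_two hM
  set D := ⁅M₀, M₀⁆ with hD
  have hDn : D.Normal := inferInstance
  have hDc : Nat.card D = 2 ^ (n - 3) := (hcomm_iff M₀ hM).mp hM'
  have hDP : D ≤ commutator P := by
    rw [commutator_def]
    exact Subgroup.commutator_mono le_top le_top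
  have hnk : 2 ^ n = 2 ^ (n - 3) * 8 := by
    rw [show (8 : ℕ) = 2 ^ 3 by norm_num, ← pow_add]; congr 1; omega
  have hDidx : D.index = 8 := by
    have h1 := Subgroup.card_mul_index D
    rw [hDc, hn, hnk] at h1
    exact Nat.eq_of_mul_eq_mul_left (by positivity) h1
  have hPD : commutator P = D := by
    apply le_antisymm _ hDP
    by_contra hle
    apply hidx
    have hQp : IsPGroup 2 (P ⧸ D) := hP.to_quotient D
    have hQc : ¬ IsCyclic (P ⧸ D) := by
      intro hc
      apply hle
      rw [← Subgroup.Normal.quotient_commutative_iff_commutator_le]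
      exact hc.isMulCommutative
    have h1 : commutator (P ⧸ D) ≠ ⊥ := by
      intro h
      rw [← map_mk'_commutator, Subgroup.map_eq_bot_iff, QuotientGroup.ker_mk'] at h
      exact hle h
    have h2 : Nat.card (commutator (P ⧸ D)) ≠ 1 := fun h => h1 (Subgroup.card_eq_one.mp h)
    have h3 := Subgroup.card_mul_index (commutator (P ⧸ D))
    have h4 : Nat.card (P ⧸ D) = 2 ^ 3 := by rw [← Subgroup.index_eq_card, hDidx]; norm_num
    rw [h4] at h3
    have h5 : (commutator (P ⧸ D)).index ∣ 2 ^ 3 := ⟨_, by rw [← h3, mul_comm]⟩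
    obtain ⟨k, hk, hk2⟩ := (Nat.dvd_prime_pow Nat.prime_two).mp h5
    have h6 : k ≠ 3 := by
      rintro rfl
      rw [hk2] at h3
      have : Nat.card (commutator (P ⧸ D)) = 1 := by omega
      exact h2 this
    have h7 : (commutator (P ⧸ D)).index ∣ 4 := by
      rw [hk2, show (4 : ℕ) = 2 ^ 2 by norm_num]
      exact pow_dvd_pow 2 (by omega)
    have h8 := index_commutator_eq_four hQp hQc h7
    rw [← map_mk'_commutator, Subgroup.index_map, QuotientGroup.ker_mk', sup_eq_left.mpr hDP,
      MonoidHom.range_eq_top.mpr (QuotientGroup.mk'_surjective _), Subgroup.index_top,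
      mul_one] at h8
    exact h8
  -- D is cyclic
  obtain ⟨a, b, ha, hb, -⟩ := MaxClass.structure_of_index_commutator (n := n - 1) (by omega)
    (hcardH M₀ hM) hM'
  have hA := MaxClass.index_zpowers_of_orderOf (n := n - 1) (by omega) (hcardH M₀ hM) ha
  have hAn : (zpowers a).Normal := Subgroup.normal_of_index_eq_two hA
  have hDle : D ≤ (zpowers a).map M₀.subtype := by
    rw [hD, ← Subgroup.map_subtype_commutator]
    exact Subgroup.map_mono (Solv.commutator_le_of_index_prime (p := 2) _ hA)
  have hDcyc : IsCyclic D := by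
    have h1 : (zpowers a).map M₀.subtype = zpowers (M₀.subtype a) := MonoidHom.map_zpowers _ _
    rw [h1] at hDle
    exact Subgroup.isCyclic_of_le hDle
  obtain ⟨⟨d, hdD⟩, hd⟩ := hDcyc.exists_generator
  have hzd : zpowers d = D := by
    apply le_antisymm
    · rw [zpowers_le]; exact hdD
    · intro x hx
      obtain ⟨k, hk⟩ := Subgroup.mem_zpowers_iff.mp (hd ⟨x, hx⟩)
      exact Subgroup.mem_zpowers_iff.mpr ⟨k, congrArg Subtype.val hk⟩
  have hdo : orderOf d = 2 ^ (n - 3) := by rw [← hDc, ← hzd, Nat.card_zpowers]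
  set K := zpowers (d ^ 2) with hK
  have hKc : Nat.card K = 2 ^ (n - 4) := by
    rw [hK, Nat.card_zpowers, orderOf_pow, hdo, show n - 3 = (n - 4) + 1 by omega, pow_succ,
      Nat.gcd_eq_right (dvd_mul_left 2 _), Nat.mul_div_cancel _ (by norm_num)]
  have hKn : K.Normal := by
    constructor
    intro x hx g
    obtain ⟨i, rfl⟩ := Subgroup.mem_zpowers_iff.mp hx
    have h1 : g * d * g⁻¹ ∈ zpowers d := by
      rw [hzd]; exact hDn.conj_mem d hdD g
    obtain ⟨j, hj⟩ := Subgroup.mem_zpowers_iff.mp h1
    refine Subgroup.mem_zpowers_iff.mpr ⟨j * i, ?_⟩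
    have h2 : g * (d ^ 2) ^ i * g⁻¹ = ((g * d * g⁻¹) ^ 2) ^ i := by
      rw [conj_pow, conj_zpow]
    rw [h2, ← hj, ← zpow_natCast, ← zpow_natCast, ← zpow_mul, ← zpow_mul, ← zpow_mul]
    congr 1
    push_cast
    ring
  have hKD : K ≤ D := by
    rw [hK, zpowers_le]
    exact D.pow_mem hdD 2
  have hQcard : Nat.card (P ⧸ K) = 16 := by
    have h1 := Subgroup.card_mul_index K
    rw [hKc, hn, show n = (n - 4) + 4 by omega, pow_add] at h1
    simp only [Nat.add_sub_cancel] at h1
    have h2 := Nat.eq_of_mul_eq_mul_left (by positivity) h1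
    rw [← Subgroup.index_eq_card, h2]; norm_num
  have hQ'card : Nat.card (commutator (P ⧸ K)) = 2 := by
    rw [← map_mk'_commutator, hPD]
    have h1 : Nat.card (D.map (QuotientGroup.mk' K)) = K.relIndex D := by
      have := Subgroup.relIndex_ker (K := D) (QuotientGroup.mk' K)
      rw [QuotientGroup.ker_mk'] at this
      exact this.symm
    rw [h1]
    have h2 := card_inf_mul_relIndex' K D hKD
    rw [hKc, hDc, show n - 3 = (n - 4) + 1 by omega, pow_succ] at h2
    exact Nat.eq_of_mul_eq_mul_left (by positivity) h2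
  have hcount := four_dvd_card_nonabelian hQcard hQ'card
  -- the correspondence
  have hnotle : ∀ H : Subgroup P, H.index = 2 →
      (Nat.card (⁅H, H⁆ : Subgroup P) = 2 ^ (n - 3) ↔ ¬ ⁅H, H⁆ ≤ K) := by
    intro H hH
    have hle : (⁅H, H⁆ : Subgroup P) ≤ D := by
      rw [← hPD, commutator_def]
      exact Subgroup.commutator_mono le_top le_top
    constructor
    · intro h1 h2
      have h3 := Subgroup.card_le_of_le h2
      rw [h1, hKc] at h3
      have := (Nat.pow_le_pow_iff_right (by norm_num : 1 < 2)).mp h3
      omega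
    · intro h1
      obtain ⟨c, hc, hcK⟩ := SetLike.not_le_iff_exists.mp h1
      have h2 : c ∈ zpowers d := by rw [hzd]; exact hle hc
      rw [← mem_powers_iff_mem_zpowers] at h2
      obtain ⟨j, hj⟩ := h2
      have hj' : d ^ j = c := hj
      have hodd : ¬ 2 ∣ j := by
        rintro ⟨i, rfl⟩
        apply hcK
        rw [← hj', pow_mul]
        exact K.pow_mem (mem_zpowers _) i
      have h3 : orderOf c = 2 ^ (n - 3) := by
        rw [← hj', ← hdo]
        apply Nat.Coprime.orderOf_pow
        rw [hdo]
        apply Nat.Coprime.pow_left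
        rw [Nat.Prime.coprime_iff_not_dvd Nat.prime_two]
        exact hodd
      apply le_antisymm
      · rw [← hDc]; exact Subgroup.card_le_of_le hle
      · rw [← h3, ← Nat.card_zpowers]
        apply Subgroup.card_le_of_le
        rw [zpowers_le]; exact hc
  have hcommQ : ∀ H : Subgroup P,
      (∀ x ∈ H.map (QuotientGroup.mk' K), ∀ y ∈ H.map (QuotientGroup.mk' K), x * y = y * x) ↔
        ⁅H, H⁆ ≤ K := by
    intro H
    rw [Subgroup.commutator_le]
    constructor
    · intro h x hx y hy
      have h1 := h _ ⟨x, hx, rfl⟩ _ ⟨y, hy, rfl⟩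
      rw [← QuotientGroup.eq_one_iff]
      change QuotientGroup.mk' K ⁅x, y⁆ = 1
      rw [map_commutatorElement]
      exact commutatorElement_eq_one_iff_mul_comm.mpr h1
    · rintro h _ ⟨x, hx, rfl⟩ _ ⟨y, hy, rfl⟩
      have h1 := h x hx y hy
      rw [← QuotientGroup.eq_one_iff] at h1
      change QuotientGroup.mk' K ⁅x, y⁆ = 1 at h1
      rw [map_commutatorElement] at h1
      exact commutatorElement_eq_one_iff_mul_comm.mp h1
  have hKle : ∀ H : Subgroup P, H.index = 2 → K ≤ H := by
    intro H hH
    have hHn : H.Normal := Subgroup.normal_of_index_eq_two hH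
    exact hKD.trans (hPD ▸ Solv.commutator_le_of_index_prime (p := 2) H hH)
  have hfinal : Nat.card {H : Subgroup P // H.index = 2 ∧ (commutator H).index = 4} =
      Nat.card {H : Subgroup (P ⧸ K) // H.index = 2 ∧ ¬ ∀ x ∈ H, ∀ y ∈ H, x * y = y * x} := by
    apply Nat.card_congr
    refine
      { toFun := fun H => ⟨H.1.map (QuotientGroup.mk' K), ?_, ?_⟩
        invFun := fun H => ⟨H.1.comap (QuotientGroup.mk' K), ?_, ?_⟩
        left_inv := ?_
        right_inv := ?_ }
    · rw [Subgroup.index_map_eq H.1 (QuotientGroup.mk'_surjective _)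
        (by rw [QuotientGroup.ker_mk']; exact hKle H.1 H.2.1), H.2.1]
    · rw [hcommQ, ← hnotle H.1 H.2.1, ← hcomm_iff H.1 H.2.1]
      exact H.2.2
    · rw [Subgroup.index_comap_of_surjective _ (QuotientGroup.mk'_surjective _), H.2.1]
    · have h1 : (H.1.comap (QuotientGroup.mk' K)).index = 2 := by
        rw [Subgroup.index_comap_of_surjective _ (QuotientGroup.mk'_surjective _), H.2.1]
      rw [hcomm_iff _ h1, hnotle _ h1, ← hcommQ,
        Subgroup.map_comap_eq_self_of_surjective (QuotientGroup.mk'_surjective _)]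
      exact H.2.2
    · rintro ⟨M, hM1, hM2⟩
      apply Subtype.ext
      change (M.map (QuotientGroup.mk' K)).comap (QuotientGroup.mk' K) = M
      rw [Subgroup.comap_map_eq, QuotientGroup.ker_mk', sup_eq_left.mpr (hKle M hM1)]
    · rintro ⟨M, hM⟩
      apply Subtype.ext
      change (M.comap (QuotientGroup.mk' K)).map (QuotientGroup.mk' K) = M
      exact Subgroup.map_comap_eq_self_of_surjective (QuotientGroup.mk'_surjective _) _
  rw [hfinal]
  exact hcount

/-- if the commutator subgroup has order at most two, `2 ^ k`-th powers (`k ≥ 2`) are multiplicative -/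
theorem pow_hom_of_comm_card_two {P : Type*} [Group P] [Finite P]
    (h : Nat.card (commutator P) ∣ 2) (k : ℕ) (hk : 2 ≤ k) (x y : P) :
    (x * y) ^ 2 ^ k = x ^ 2 ^ k * y ^ 2 ^ k := by
  have hmem : ∀ a b : P, ⁅a, b⁆ ∈ commutator P := by
    intro a b
    rw [commutator_def]
    exact Subgroup.commutator_mem_commutator (Subgroup.mem_top _) (Subgroup.mem_top _)
  have hcomm2 : ∀ a b : P, a ∈ commutator P → b ∈ commutator P → a ≠ 1 → b ≠ 1 → a = b := by
    intro a b ha hb ha1 hb1
    by_contra hne
    classical
    have : Fintype (commutator P) := Fintype.ofFinite _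
    have h0 := Nat.le_of_dvd (by norm_num) h
    have h1 : ({1, ⟨a, ha⟩, ⟨b, hb⟩} : Finset (commutator P)).card ≤ 2 := by
      refine le_trans ?_ h0
      rw [Nat.card_eq_fintype_card]
      exact Finset.card_le_univ _
    rw [Finset.card_insert_of_notMem, Finset.card_insert_of_notMem, Finset.card_singleton] at h1
    · omega
    · rw [Finset.mem_singleton]
      intro h
      exact hne (congrArg Subtype.val h)
    · rw [Finset.mem_insert, Finset.mem_singleton]
      rintro (h | h)
      · exact ha1 (congrArg Subtype.val h).symm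
      · exact hb1 (congrArg Subtype.val h).symm
  have hcent : ∀ c ∈ commutator P, ∀ g : P, g * c = c * g := by
    intro c hc g
    by_cases hc1 : c = 1
    · rw [hc1, mul_one, one_mul]
    · have h1 : g * c * g⁻¹ = c := by
        apply hcomm2 _ _ ((inferInstance : (commutator P).Normal).conj_mem c hc g) hc _ hc1
        intro h2
        apply hc1
        rw [mul_inv_eq_one] at h2
        exact mul_eq_left.mp h2
      rw [mul_inv_eq_iff_eq_mul] at h1
      exact h1
  have hsq : ∀ c ∈ commutator P, c * c = 1 := by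
    intro c hc
    have h1 : orderOf c ∣ 2 := by
      have h2 : orderOf (⟨c, hc⟩ : commutator P) ∣ Nat.card (commutator P) := orderOf_dvd_natCard _
      rw [Subgroup.orderOf_mk] at h2
      exact h2.trans h
    rw [← pow_two]
    exact orderOf_dvd_iff_pow_eq_one.mp h1
  have hsqc : ∀ a b : P, a * a * b = b * (a * a) := by
    intro a b
    have h1 : a * b = ⁅a, b⁆ * (b * a) := by rw [commutatorElement_def]; group
    set c := ⁅a, b⁆ with hc
    have hc1 := hcent c (hmem a b)
    have hc2 := hsq c (hmem a b)
    calc a * a * b = a * (a * b) := by group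
      _ = a * c * (b * a) := by rw [h1]; group
      _ = c * (a * b) * a := by rw [hc1 a]; group
      _ = (c * c) * (b * (a * a)) := by rw [h1]; group
      _ = b * (a * a) := by rw [hc2, one_mul]
  induction k, hk using Nat.le_induction with
  | base =>
    have h1 : x * y = ⁅x, y⁆ * (y * x) := by rw [commutatorElement_def]; group
    set c := ⁅x, y⁆ with hc
    have hc1 := hcent c (hmem x y)
    have hc2 := hsq c (hmem x y)
    have h2 : (x * y) * (x * y) = c * ((x * x) * (y * y)) := by
      have h3 : y * x = c * (x * y) := by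
        rw [h1, ← mul_assoc, hc2, one_mul]
      calc (x * y) * (x * y) = x * (y * x) * y := by group
        _ = x * c * (x * y) * y := by rw [h3]; group
        _ = c * ((x * x) * (y * y)) := by rw [hc1 x]; group
    have h4 : ∀ z : P, z ^ 2 ^ 2 = (z * z) * (z * z) := by
      intro z
      rw [show (2 : ℕ) ^ 2 = 2 * 2 by norm_num, pow_mul, pow_two, pow_two]
    rw [h4, h4, h4, h2]
    calc c * (x * x * (y * y)) * (c * (x * x * (y * y))) =
        c * ((x * x * (y * y)) * c) * (x * x * (y * y)) := by group
      _ = c * c * (x * x * (y * y)) * (x * x * (y * y)) := by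
        rw [hc1 (x * x * (y * y))]; group
      _ = (x * x) * ((y * y) * (x * x)) * (y * y) := by rw [hc2]; group
      _ = (x * x) * ((x * x) * (y * y)) * (y * y) := by rw [hsqc y (x * x)]
      _ = x * x * (x * x) * (y * y * (y * y)) := by group
  | succ k hk ih =>
    have h5 : ∀ z : P, z ^ 2 ^ (k + 1) = z ^ 2 ^ k * z ^ 2 ^ k := by
      intro z
      rw [pow_succ, pow_mul, pow_two]
    rw [h5, h5 x, h5 y, ih]
    obtain ⟨l, rfl⟩ : ∃ l, k = l + 1 := ⟨k - 1, by omega⟩
    have h6 : ∀ z : P, z ^ 2 ^ (l + 1) = z ^ 2 ^ l * z ^ 2 ^ l := by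
      intro z
      rw [pow_succ, pow_mul, pow_two]
    have h7 : y ^ 2 ^ (l + 1) * x ^ 2 ^ (l + 1) = x ^ 2 ^ (l + 1) * y ^ 2 ^ (l + 1) := by
      rw [h6 y]
      exact hsqc _ _
    calc x ^ 2 ^ (l + 1) * y ^ 2 ^ (l + 1) * (x ^ 2 ^ (l + 1) * y ^ 2 ^ (l + 1)) =
        x ^ 2 ^ (l + 1) * (y ^ 2 ^ (l + 1) * x ^ 2 ^ (l + 1)) * y ^ 2 ^ (l + 1) := by group
      _ = _ := by rw [h7]; group

theorem index_zpowers_sq {P : Type*} [Group P] [Finite P] {n : ℕ} (hn : Nat.card P = 2 ^ n)
    (hn3 : 3 ≤ n) {a : P} (j : ℕ) (ha : orderOf (a ^ j) = 2 ^ (n - 2)) :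
    (zpowers (a ^ j)).index = 4 := by
  have h1 := Subgroup.card_mul_index (zpowers (a ^ j))
  rw [Nat.card_zpowers, ha, hn, show n = (n - 2) + 2 by omega, pow_add] at h1
  simp only [Nat.add_sub_cancel] at h1
  have := Nat.eq_of_mul_eq_mul_left (by positivity) h1
  omega

theorem pow_hom_two {P : Type u} [Group P] [Finite P] {n : ℕ} (hn : Nat.card P = 2 ^ n)
    (hn3 : 3 ≤ n) (hc : ¬ IsCyclic P) (hidx : (commutator P).index ≠ 4)
    (hex : ∃ C : Subgroup P, IsCyclic C ∧ C.index = 2) (x y : P) :
    (x * y) ^ 2 ^ (n - 2) = x ^ 2 ^ (n - 2) * y ^ 2 ^ (n - 2) := by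
  have : Fact (Nat.Prime 2) := ⟨Nat.prime_two⟩
  have hP : IsPGroup 2 P := IsPGroup.of_card hn
  by_cases hab : ∀ x y : P, x * y = y * x
  · exact (show Commute x y from hab x y).mul_pow _
  push Not at hab
  obtain ⟨C, hC, hCi⟩ := hex
  obtain ⟨a, b, _, ha, hb, h⟩ := MaxClass.two_group_cyclic_max n hn3 hn C hC hCi hab
  have hmem : ∀ a b : P, ⁅a, b⁆ ∈ commutator P := by
    intro a b
    rw [commutator_def]
    exact Subgroup.commutator_mem_commutator (Subgroup.mem_top _) (Subgroup.mem_top _)
  -- a ^ 2 ∈ commutator leads to a contradiction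
  have hcontr : ∀ j : ℕ, a ^ j ∈ commutator P → orderOf (a ^ j) = 2 ^ (n - 2) → False := by
    intro j hj hoj
    apply hidx
    apply index_commutator_eq_four hP hc
    rw [← index_zpowers_sq hn hn3 j hoj]
    apply Subgroup.index_dvd_of_le
    rw [zpowers_le]
    exact hj
  have ha2 : orderOf (a ^ 2) = 2 ^ (n - 2) := by
    rw [orderOf_pow, ha, show n - 1 = (n - 2) + 1 by omega, pow_succ,
      Nat.gcd_eq_right (dvd_mul_left 2 _), Nat.mul_div_cancel _ (by norm_num)]
  have hinv : b * a * b⁻¹ = a⁻¹ → False := by
    intro h1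
    apply hcontr 2 _ ha2
    have h2 : ⁅a, b⁆ = a ^ 2 := by
      have h3 : b * a⁻¹ * b⁻¹ = a := by
        have : b * a⁻¹ * b⁻¹ = (b * a * b⁻¹)⁻¹ := by group
        rw [this, h1, inv_inv]
      calc ⁅a, b⁆ = a * (b * a⁻¹ * b⁻¹) := by rw [commutatorElement_def]; group
        _ = a ^ 2 := by rw [h3, pow_two]
    rw [← h2]
    exact hmem a b
  rcases h with h | h | h | h
  · exact absurd h.2 hinv
  · exact absurd h.2 hinv
  · obtain ⟨hn4, -, h⟩ := h
    exact pow_hom_of_comm_card_two (MaxClass.card_commutator_modular hn3 hn ha hb h) (n - 2)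
      (by omega) x y
  · obtain ⟨hn4, -, h⟩ := h
    exfalso
    obtain ⟨m, rfl⟩ : ∃ m, n = m + 4 := ⟨n - 4, by omega⟩
    simp only [show m + 4 - 2 = m + 2 by omega, show m + 4 - 1 = m + 3 by omega] at *
    apply hcontr (2 * (2 ^ (m + 1) - 1))
    · have h2 : ⁅b, a⁆ = a ^ (2 * (2 ^ (m + 1) - 1)) := by
        have h3 : ⁅b, a⁆ = (b * a * b⁻¹) * a⁻¹ := by rw [commutatorElement_def]
        rw [h3, h, mul_inv_eq_iff_eq_mul, ← pow_succ]
        congr 1
        have : 1 ≤ 2 ^ (m + 1) := Nat.one_le_two_pow
        have e1 : 2 ^ (m + 2) = 2 * 2 ^ (m + 1) := by ring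
        omega
      rw [← h2]
      exact hmem b a
    · rw [pow_mul, orderOf_pow, ha2]
      have h5 : Nat.gcd (2 ^ (m + 2)) (2 ^ (m + 1) - 1) = 1 := by
        apply Nat.Coprime.pow_left
        rw [Nat.coprime_two_left]
        have e1 : 2 ^ (m + 1) = 2 * 2 ^ m := by ring
        have : 1 ≤ 2 ^ m := Nat.one_le_two_pow
        exact ⟨2 ^ m - 1, by omega⟩
      rw [h5, Nat.div_one]

/-- in a 2-group of maximal class of order at least 16 every maximal subgroup but the cyclic one
is of maximal class -/
theorem maxClass_maximal {P : Type u} [Group P] [Finite P] {n : ℕ} (hn : Nat.card P = 2 ^ n)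
    (hn4 : 4 ≤ n) (hidx : (commutator P).index = 4) :
    ∃ A : Subgroup P, A.index = 2 ∧ IsCyclic A ∧ ∀ M : Subgroup P, M.index = 2 → M ≠ A →
      ¬ IsCyclic M ∧ (commutator M).index = 4 := by
  have : Fact (Nat.Prime 2) := ⟨Nat.prime_two⟩
  obtain ⟨a, b, ha, hb, h⟩ := MaxClass.structure_of_index_commutator (by omega) hn hidx
  have hA := MaxClass.index_zpowers_of_orderOf (by omega) hn ha
  refine ⟨zpowers a, hA, inferInstance, ?_⟩
  intro M hM hne
  have hb2 : b * a ^ 2 * b⁻¹ = (a ^ 2)⁻¹ := by
    rw [← conj_pow]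
    rcases h with h | h | h
    · rw [h.2, inv_pow]
    · rw [h.2, inv_pow]
    · rw [h.2.2, eq_inv_iff_mul_eq_one, ← pow_mul, ← pow_add]
      have : (2 ^ (n - 2) - 1) * 2 + 2 = 2 ^ (n - 1) := by
        obtain ⟨m, rfl⟩ : ∃ m, n = m + 2 := ⟨n - 2, by omega⟩
        simp only [show m + 2 - 2 = m by omega, show m + 2 - 1 = m + 1 by omega]
        have : 1 ≤ 2 ^ m := Nat.one_le_two_pow
        have e1 : 2 ^ (m + 1) = 2 * 2 ^ m := by ring
        omega
      rw [this, ← ha, pow_orderOf_eq_one]
  have hAn : (zpowers a).Normal := Subgroup.normal_of_index_eq_two hA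
  have hMn : M.Normal := Subgroup.normal_of_index_eq_two hM
  obtain ⟨x, hxM, hxA⟩ : ∃ x ∈ M, x ∉ zpowers a := by
    by_contra hcon
    push Not at hcon
    apply hne
    apply Subgroup.eq_of_le_of_card_ge (fun x hx => hcon x hx)
    rw [card_of_index hn (by omega) M hM, card_of_index hn (by omega) _ hA]
  have hxb : x * b⁻¹ ∈ zpowers a := by
    rw [Subgroup.mul_mem_iff_of_index_two hA, inv_mem_iff]
    exact ⟨fun h => absurd h hxA, fun h => absurd h hb⟩
  have ha2M : a ^ 2 ∈ M := by
    have := Subgroup.pow_index_mem M a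
    rwa [hM] at this
  have hx2 : x * a ^ 2 * x⁻¹ = (a ^ 2)⁻¹ := by
    obtain ⟨i, hi⟩ := Subgroup.mem_zpowers_iff.mp hxb
    have h1 : x = a ^ i * b := by rw [hi]; group
    have h2 : x * a ^ 2 * x⁻¹ = a ^ i * (b * a ^ 2 * b⁻¹) * (a ^ i)⁻¹ := by rw [h1]; group
    rw [h2, hb2]
    group
  have hc4 : a ^ 4 ∈ (⁅M, M⁆ : Subgroup P) := by
    have h1 : ⁅a ^ 2, x⁆ = a ^ 4 := by
      have h3 : x * (a ^ 2)⁻¹ * x⁻¹ = a ^ 2 := by
        have : x * (a ^ 2)⁻¹ * x⁻¹ = (x * a ^ 2 * x⁻¹)⁻¹ := by group
        rw [this, hx2, inv_inv]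
      calc ⁅a ^ 2, x⁆ = a ^ 2 * (x * (a ^ 2)⁻¹ * x⁻¹) := by rw [commutatorElement_def]; group
        _ = a ^ 4 := by rw [h3, ← pow_add]
    rw [← h1]
    exact Subgroup.commutator_mem_commutator ha2M hxM
  have ho4 : orderOf (a ^ 4) = 2 ^ (n - 3) := by
    rw [orderOf_pow, ha, show n - 1 = (n - 3) + 2 by omega, pow_add,
      show (2 : ℕ) ^ 2 = 4 by norm_num,
      Nat.gcd_eq_right (dvd_mul_left 4 _), Nat.mul_div_cancel _ (by norm_num)]
  have hMcard := card_of_index hn (by omega) M hM
  have hMp : IsPGroup 2 M := IsPGroup.of_card hMcard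
  have hdvd : 2 ^ (n - 3) ∣ Nat.card (commutator M) := by
    rw [← card_commutator_subtype, ← ho4, ← Nat.card_zpowers]
    apply Subgroup.card_dvd_of_le
    rw [zpowers_le]
    exact hc4
  have hnc : ¬ IsCyclic M := by
    intro hcy
    have h1 : commutator M = ⊥ := by
      rw [commutator_def, Subgroup.commutator_eq_bot_iff_le_centralizer]
      intro s _
      rw [Subgroup.mem_centralizer_iff]
      intro t _
      exact (IsCyclic.commGroup (α := M)).mul_comm t s
    rw [h1, Subgroup.card_bot] at hdvd
    have h2 := Nat.le_of_dvd (by norm_num) hdvd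
    have h3 : 2 ^ 1 ≤ 2 ^ (n - 3) := Nat.pow_le_pow_right (by norm_num) (by omega)
    omega
  refine ⟨hnc, ?_⟩
  apply index_commutator_eq_four hMp hnc
  obtain ⟨t, ht⟩ := hdvd
  have h1 := Subgroup.card_mul_index (commutator M)
  have h13 : 2 ^ (n - 1) = 2 ^ (n - 3) * 4 := by
    rw [show (4 : ℕ) = 2 ^ 2 by norm_num, ← pow_add]; congr 1; omega
  rw [hMcard, ht, h13, mul_assoc] at h1
  have h2 := Nat.eq_of_mul_eq_mul_left (by positivity) h1
  exact ⟨t, by rw [← h2, mul_comm]⟩

/-- number of subgroups of order two from the number of solutions of `x ^ 2 = 1` -/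
theorem card_sq_eq_one {Q : Type u} [Group Q] [Finite Q] :
    Nat.card {x : Q // x * x = 1} = ns 2 1 Q + 1 := by
  classical
  have : Fintype Q := Fintype.ofFinite Q
  have : Fact (Nat.Prime 2) := ⟨Nat.prime_two⟩
  have h1 : Nat.card {x : Q // x * x = 1} = Nat.card {x : Q // x * x = 1 ∧ x ≠ 1} + 1 := by
    rw [Nat.card_eq_fintype_card, Nat.card_eq_fintype_card, Fintype.card_subtype,
      Fintype.card_subtype]
    have h2 : (Finset.univ.filter (fun x : Q => x * x = 1)) =
        insert 1 (Finset.univ.filter (fun x : Q => x * x = 1 ∧ x ≠ 1)) := by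
      ext x
      simp only [Finset.mem_filter, Finset.mem_univ, true_and, Finset.mem_insert]
      constructor
      · intro h
        by_cases hx : x = 1
        · exact Or.inl hx
        · exact Or.inr ⟨h, hx⟩
      · rintro (rfl | h)
        · exact mul_one 1
        · exact h.1
    rw [h2, Finset.card_insert_of_notMem]
    simp
  rw [h1]
  congr 1
  unfold ns
  have hord : ∀ x : Q, (x * x = 1 ∧ x ≠ 1) → orderOf x = 2 := by
    rintro x ⟨hx1, hx2⟩
    exact orderOf_eq_prime (by rw [pow_two]; exact hx1) hx2
  have hz : ∀ x y : Q, orderOf x = 2 → y ∈ zpowers x → y ≠ 1 → y = x := by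
    intro x y hx hy hy1
    obtain ⟨k, rfl⟩ := Subgroup.mem_zpowers_iff.mp hy
    have hx2 : x ^ 2 = 1 := by rw [← hx, pow_orderOf_eq_one]
    have hx2' : x ^ (2 : ℤ) = 1 := by exact_mod_cast hx2
    rcases Int.even_or_odd k with ⟨m, rfl⟩ | ⟨m, rfl⟩
    · exfalso
      apply hy1
      rw [← two_mul, zpow_mul, hx2', one_zpow]
    · rw [zpow_add, zpow_mul, hx2', one_zpow, one_mul, zpow_one]
  refine Nat.card_congr (Equiv.ofBijective (fun x : {x : Q // x * x = 1 ∧ x ≠ 1} =>
    (⟨zpowers (x : Q), by rw [Nat.card_zpowers, hord x x.2, pow_one]⟩ :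
      {H : Subgroup Q // Nat.card H = 2 ^ 1})) ⟨?_, ?_⟩)
  · intro x y hxy
    have h2 : zpowers (x : Q) = zpowers (y : Q) := congrArg Subtype.val hxy
    apply Subtype.ext
    apply hz y x (hord y y.2) _ x.2.2
    rw [← h2]
    exact mem_zpowers _
  · rintro ⟨H, hH⟩
    rw [pow_one] at hH
    have hnt : Nontrivial H := by
      rw [← Finite.one_lt_card_iff_nontrivial, hH]; norm_num
    obtain ⟨⟨x, hxH⟩, hx⟩ := exists_ne (1 : H)
    have hx1 : x ≠ 1 := fun h => hx (Subtype.ext h)
    have hxo : x * x = 1 := by
      have h2 : (⟨x, hxH⟩ : H) ^ Nat.card H = 1 := pow_card_eq_one'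
      rw [hH, pow_two] at h2
      exact congrArg Subtype.val h2
    refine ⟨⟨x, hxo, hx1⟩, ?_⟩
    apply Subtype.ext
    apply Subgroup.eq_of_le_of_card_ge
    · change zpowers x ≤ H
      rw [zpowers_le]; exact hxH
    · change Nat.card H ≤ Nat.card (zpowers x)
      rw [hH, Nat.card_zpowers, hord x ⟨hxo, hx1⟩]

theorem ns_order_eight {P : Type u} [Group P] [Finite P] (hn : Nat.card P = 2 ^ 3)
    (hidx : (commutator P).index = 4) : ns 2 1 P ≡ 1 [MOD 2 ^ 2] := by
  have : Fact (Nat.Prime 2) := ⟨Nat.prime_two⟩
  obtain ⟨a, b, ha, hb, h⟩ := MaxClass.structure_of_index_commutator (by omega) hn hidx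
  rcases h with h | h | h
  · obtain ⟨e⟩ := MaxClass.nonempty_mulEquiv_dihedral (m := 4) (by norm_num) (by rw [ha]; norm_num)
      hb h.1 h.2 (by rw [hn]; norm_num)
    rw [ns_congr e]
    have h1 : Nat.card {x : DihedralGroup 4 // x * x = 1} = 6 := by
      rw [Nat.card_eq_fintype_card]
      decide
    have h2 := card_sq_eq_one (Q := DihedralGroup 4)
    rw [h1] at h2
    have h3 : ns 2 1 (DihedralGroup 4) = 5 := by omega
    rw [h3]
    decide
  · obtain ⟨e⟩ := MaxClass.nonempty_mulEquiv_quaternion (m := 2) (by norm_num) (by rw [ha]; norm_num)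
      hb (by rw [h.1]; norm_num) h.2 (by rw [hn]; norm_num)
    rw [ns_congr e]
    have h1 : Nat.card {x : QuaternionGroup 2 // x * x = 1} = 2 := by
      rw [Nat.card_eq_fintype_card]
      decide
    have h2 := card_sq_eq_one (Q := QuaternionGroup 2)
    rw [h1] at h2
    have h3 : ns 2 1 (QuaternionGroup 2) = 1 := by omega
    rw [h3]
  · omega

/-- bookkeeping for `p = 2` -/
theorem sum_book_two {ι : Type*} [Fintype ι] (hcard : Nat.card ι ≡ 3 [MOD 4])
    (f : ι → ℕ) (X : ι → Prop) (h1 : ∀ i, X i → f i ≡ 1 [MOD 4])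
    (h2 : ∀ i, ¬ X i → f i ≡ 3 [MOD 4]) (hX : Odd (Nat.card {i // X i})) (s : ℕ)
    (hs : ∑ i, f i ≡ s + 2 [MOD 4]) : s ≡ 1 [MOD 4] := by
  classical
  have h3 : ∑ i, f i + 2 * Nat.card {i // X i} ≡ 3 * Nat.card ι [MOD 4] := by
    have h4 : ∑ i, f i + 2 * Nat.card {i // X i} = ∑ i, (f i + if X i then 2 else 0) := by
      rw [Finset.sum_add_distrib]
      congr 1
      rw [Finset.sum_ite, Finset.sum_const_zero, add_zero, Finset.sum_const, smul_eq_mul,
        Nat.card_eq_fintype_card, Fintype.card_subtype, mul_comm]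
    rw [h4]
    have h5 : ∑ i, (f i + if X i then 2 else 0) ≡ ∑ _i : ι, 3 [MOD 4] := by
      apply Nat.ModEq.sum
      intro i _
      by_cases hi : X i
      · rw [if_pos hi]
        exact Nat.ModEq.add_right 2 (h1 i hi)
      · rw [if_neg hi, add_zero]
        exact h2 i hi
    refine h5.trans ?_
    rw [Finset.sum_const, Finset.card_univ, smul_eq_mul, mul_comm, Nat.card_eq_fintype_card]
  obtain ⟨k, hk⟩ := hX
  rw [hk] at h3
  have e1 : (∑ i, f i + 2 * (2 * k + 1)) % 4 = (3 * Nat.card ι) % 4 := h3
  have e2 : (∑ i, f i) % 4 = (s + 2) % 4 := hs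
  have e3 : Nat.card ι % 4 = 3 % 4 := hcard
  have : s % 4 = 1 % 4 := by omega
  exact this

theorem kulakoff_two (n : ℕ) :
    ∀ (P : Type u) [Group P] [Finite P], Nat.card P = 2 ^ n → ¬ IsCyclic P →
      ((commutator P).index ≠ 4 → ∀ a, 1 ≤ a → a < n → ns 2 a P ≡ 3 [MOD 4]) ∧
      ((commutator P).index = 4 → ∀ a, 1 ≤ a → a + 2 ≤ n → ns 2 a P ≡ 1 [MOD 4]) := by
  have hp2 : Fact (Nat.Prime 2) := ⟨Nat.prime_two⟩
  induction n with
  | zero => intro P _ _ _ _; exact ⟨fun _ a h1 h2 => by omega, fun _ a h1 h2 => by omega⟩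
  | succ n ih =>
    intro P _ _ hn hc
    have hP : IsPGroup 2 P := IsPGroup.of_card hn
    have : Fintype {M : Subgroup P // M.index = 2} := Fintype.ofFinite _
    have hcM : ∀ M : {M : Subgroup P // M.index = 2}, Nat.card M.1 = 2 ^ n := fun M =>
      card_of_index hn (by omega) M.1 M.2
    have hmax := card_max hP hc
    constructor
    · intro hidx a ha1 ha2
      by_cases han : a = n
      · subst han
        exact ns_top hn (by omega) hc
      · have hcyc := card_cyclic_max hn (by omega) hc
          (fun hex x y => pow_hom_two hn (by omega) hc hidx hex x y)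
        have h2 : Nat.card {C : Subgroup P // IsCyclic C ∧ C.index = 2} =
            Nat.card {M : {M : Subgroup P // M.index = 2} // IsCyclic M.1} :=
          Nat.card_congr
            { toFun := fun C => ⟨⟨C.1, C.2.2⟩, C.2.1⟩
              invFun := fun C => ⟨C.1.1, C.2, C.1.2⟩
              left_inv := fun x => rfl
              right_inv := fun x => rfl }
        rw [h2] at hcyc
        by_cases han' : a + 1 = n
        · -- only the cyclic ones count
          refine sum_book (p := 2) hmax (fun M : {M : Subgroup P // M.index = 2} => ns 2 a M.1)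
            (fun M => IsCyclic M.1) ?_ ?_ hcyc _ (enum_principle hn hc a (by omega))
          · intro M hM
            have hM' : IsCyclic M.1 := hM
            change ns 2 a M.1 ≡ 1 [MOD 2 ^ 2]
            rw [ns_cyclic (hcM M) a (by omega)]
          · intro M hM
            have h3 := ns_top (hcM M) (by omega) hM
            rw [← han', Nat.add_sub_cancel] at h3
            exact h3
        · have hn4 : 4 ≤ n + 1 := by omega
          have hmu := four_dvd_card_maxClass hn hn4 hidx
          refine sum_book (p := 2) hmax (fun M : {M : Subgroup P // M.index = 2} => ns 2 a M.1)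
            (fun M => IsCyclic M.1 ∨ (commutator M.1).index = 4) ?_ ?_ ?_ _
            (enum_principle hn hc a (by omega))
          · intro M hM
            change ns 2 a M.1 ≡ 1 [MOD 2 ^ 2]
            by_cases hM' : IsCyclic M.1
            · rw [ns_cyclic (hcM M) a (by omega)]
            · exact (ih M.1 (hcM M) hM').2 (hM.resolve_left hM') a ha1 (by omega)
          · intro M hM
            push Not at hM
            exact (ih M.1 (hcM M) hM.1).1 hM.2 a ha1 (by omega)
          · classical
            have hdisj : ∀ M : {M : Subgroup P // M.index = 2}, IsCyclic M.1 →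
                (commutator M.1).index = 4 → False := by
              intro M hM1 hM2
              have h1 : commutator M.1 = ⊥ := by
                rw [commutator_def, Subgroup.commutator_eq_bot_iff_le_centralizer]
                intro s _
                rw [Subgroup.mem_centralizer_iff]
                intro t _
                exact (IsCyclic.commGroup (α := M.1)).mul_comm t s
              rw [h1, Subgroup.index_bot, hcM M] at hM2
              have h3 : 2 ^ 3 ≤ 2 ^ n := Nat.pow_le_pow_right (by norm_num) (by omega)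
              omega
            have h3 : Nat.card {M : {M : Subgroup P // M.index = 2} //
                IsCyclic M.1 ∨ (commutator M.1).index = 4} =
                Nat.card {M : {M : Subgroup P // M.index = 2} // IsCyclic M.1} +
                Nat.card {M : {M : Subgroup P // M.index = 2} // (commutator M.1).index = 4} := by
              rw [Nat.card_eq_fintype_card, Nat.card_eq_fintype_card, Nat.card_eq_fintype_card,
                Fintype.card_subtype, Fintype.card_subtype, Fintype.card_subtype,
                Finset.filter_or]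
              apply Finset.card_union_of_disjoint
              rw [Finset.disjoint_filter]
              intro M _ h1 h2
              exact hdisj M h1 h2
            have h4 : Nat.card {H : Subgroup P // H.index = 2 ∧ (commutator H).index = 4} =
              Nat.card {M : {M : Subgroup P // M.index = 2} // (commutator M.1).index = 4} :=
              Nat.card_congr
                { toFun := fun C => ⟨⟨C.1, C.2.1⟩, C.2.2⟩
                  invFun := fun C => ⟨C.1.1, C.1.2, C.2⟩
                  left_inv := fun x => rfl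
                  right_inv := fun x => rfl }
            rw [h4] at hmu
            rw [h3]
            omega
    · intro hidx a ha1 ha2
      by_cases hn3 : n = 2
      · subst hn3
        have : a = 1 := by omega
        subst this
        exact ns_order_eight hn hidx
      · have hn4 : 4 ≤ n + 1 := by omega
        obtain ⟨A, hA, hAc, hAM⟩ := maxClass_maximal hn hn4 hidx
        by_cases han' : a + 1 = n
        · refine sum_book_two hmax (fun M : {M : Subgroup P // M.index = 2} => ns 2 a M.1)
            (fun M => M.1 = A) ?_ ?_ ?_ _ (enum_principle hn hc a (by omega))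
          · intro M hM
            have hM' : IsCyclic M.1 := by rw [hM]; exact hAc
            change ns 2 a M.1 ≡ 1 [MOD 4]
            rw [ns_cyclic (hcM M) a (by omega)]
          · intro M hM
            have h3 := ns_top (hcM M) (by omega) (hAM M.1 M.2 hM).1
            rw [← han', Nat.add_sub_cancel] at h3
            exact h3
          · have h3 : Nat.card {M : {M : Subgroup P // M.index = 2} // M.1 = A} = 1 := by
              rw [Nat.card_eq_one_iff_unique]
              constructor
              · constructor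
                rintro ⟨⟨M, hM⟩, hMA⟩ ⟨⟨N, hN⟩, hNA⟩
                apply Subtype.ext
                apply Subtype.ext
                exact hMA.trans hNA.symm
              · exact ⟨⟨⟨A, hA⟩, rfl⟩⟩
            rw [h3]
            exact odd_one
        · refine sum_book_two hmax (fun M : {M : Subgroup P // M.index = 2} => ns 2 a M.1)
            (fun M => True) ?_ ?_ ?_ _ (enum_principle hn hc a (by omega))
          · intro M _
            change ns 2 a M.1 ≡ 1 [MOD 4]
            by_cases hM : M.1 = A
            · have hM' : IsCyclic M.1 := by rw [hM]; exact hAc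
              rw [ns_cyclic (hcM M) a (by omega)]
            · obtain ⟨h3, h4⟩ := hAM M.1 M.2 hM
              exact (ih M.1 (hcM M) h3).2 h4 a ha1 (by omega)
          · intro M hM
            exact absurd trivial hM
          · have h3 : Nat.card {M : {M : Subgroup P // M.index = 2} // True} =
                Nat.card {M : Subgroup P // M.index = 2} :=
              Nat.card_congr (Equiv.subtypeUnivEquiv (fun _ => trivial))
            rw [h3, Nat.odd_iff]
            have h4 : Nat.card {M : Subgroup P // M.index = 2} % 4 = 3 % 4 := hmax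
            omega

end Cfsg.Agent.H70
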