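import Cfsg.Agent.H71.MtRel

/-! # S4351, piece P1: the vectors fixed by `S` form a line -/

set_option autoImplicit false
set_option linter.unusedSectionVars false

namespace Cfsg.Agent.H70.MtP1

open Cfsg.Agent.H71.Mt

universe v

variable {X : Type*} [Group X] [Finite X] {F : Type} [Field F] [Fintype F] {θ : F ≃+* F} {S E K : Subgroup X}
  {w s0 : X} {a b κ : X → F}

theorem isPGroup (D : SzD θ S E K w s0 a b κ) : IsPGroup 2 S := by
  intro s
  refine ⟨2, Subtype.ext ?_⟩
  have h1 := D.Ssq s.1 s.2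
  have h2 := D.Esq _ h1
  show (s.1) ^ (2 ^ 2) = 1
  rw [show (2 : ℕ) ^ 2 = 2 + 2 by norm_num, pow_add, pow_two]
  exact h2

theorem exists_fixed (D : SzD θ S E K w s0 a b κ) {V : Type v} [AddCommGroup V] [Module F V] [Finite V]
    (ρ : Representation F X V) (hv : ∃ v : V, v ≠ 0) : ∃ v : V, v ≠ 0 ∧ ∀ s ∈ S, ρ s v = v := by
  haveI := D.char
  letI : MulAction S V :=
    { smul := fun s v => ρ s.1 v
      one_smul := fun v => by show ρ (1 : X) v = v; rw [map_one]; rfl
      mul_smul := fun s t v => by show ρ (s.1 * t.1) v = ρ s.1 (ρ t.1 v); rw [map_mul]; rfl }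
  obtain ⟨v0, hv0⟩ := hv
  have h2 : 2 ∣ Nat.card V := by
    have h3 : addOrderOf v0 = 2 := by
      apply addOrderOf_eq_prime
      · rw [two_smul]; exact two_zero (F := F) v0
      · exact hv0
    rw [← h3]; exact addOrderOf_dvd_natCard v0
  have h0 : (0 : V) ∈ MulAction.fixedPoints S V := fun s => by
    show ρ s.1 0 = 0; exact map_zero _
  obtain ⟨v, hv, hne⟩ := (isPGroup D).exists_fixed_point_of_prime_dvd_card_of_fixed_point V h2 h0
  exact ⟨v, hne.symm, fun s hs => hv ⟨s, hs⟩⟩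

/-- a common eigenvector of `K` among the `S`-fixed vectors -/
theorem exists_eigen (D : SzD θ S E K w s0 a b κ) {V : Type v} [AddCommGroup V] [Module F V] [Finite V]
    (ρ : Representation F X V) (hv : ∃ v : V, v ≠ 0) :
    ∃ u : V, u ≠ 0 ∧ (∀ s ∈ S, ρ s u = u) ∧ ∀ k ∈ K, ∃ c : F, ρ k u = c • u := by
  classical
  obtain ⟨v0, hv0, hfix⟩ := exists_fixed D ρ hv
  haveI : Fintype K := Fintype.ofFinite K
  let e : ℕ → V := fun j => ∑ k : K, (κ k.1) ^ j • ρ k.1 v0
  have hsum : ∑ j ∈ Finset.range (Fintype.card F - 1), e j = ((Fintype.card F - 1 : ℕ) : F) • v0 := by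
    show ∑ j ∈ Finset.range (Fintype.card F - 1), ∑ k : K, (κ k.1) ^ j • ρ k.1 v0 = _
    rw [Finset.sum_comm]
    rw [Finset.sum_eq_single (1 : K)]
    · have h1 : κ (1 : X) = 1 := by
        have h := D.κ_mul 1 K.one_mem 1 K.one_mem
        rw [mul_one] at h
        exact mul_left_cancel₀ (D.κ_ne 1 K.one_mem) (by rw [mul_one]; exact h.symm)
      have h2 : ρ (1 : X) v0 = v0 := by rw [map_one]; rfl
      show ∑ j ∈ Finset.range (Fintype.card F - 1), (κ (1 : X)) ^ j • ρ (1 : X) v0 = _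
      simp only [h1, h2, one_pow, one_smul, Finset.sum_const, Finset.card_range]
      rw [Nat.cast_smul_eq_nsmul]
    · intro k _ hk
      rw [← Finset.sum_smul]
      have hne : κ k.1 ≠ 1 := fun h => hk (Subtype.ext (D.κ_one _ k.2 h))
      have h1 : (κ k.1 - 1) * ∑ j ∈ Finset.range (Fintype.card F - 1), (κ k.1) ^ j = 0 := by
        rw [mul_comm, geom_sum_mul, FiniteField.pow_card_sub_one_eq_one _ (D.κ_ne _ k.2), sub_self]
      rcases mul_eq_zero.1 h1 with h | h
      · exact absurd (sub_eq_zero.1 h) hne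
      · rw [h, zero_smul]
    · intro h; exact absurd (Finset.mem_univ _) h
  have hne : ((Fintype.card F - 1 : ℕ) : F) • v0 ≠ 0 := by
    rw [Nat.cast_sub Fintype.card_pos, FiniteField.cast_card_eq_zero, Nat.cast_one, zero_sub, neg_one_smul]
    exact neg_ne_zero.2 hv0
  obtain ⟨j, -, hj⟩ := Finset.exists_ne_zero_of_sum_ne_zero (hsum ▸ hne)
  refine ⟨e j, hj, ?_, ?_⟩
  · intro s hs
    show ρ s (∑ k : K, (κ k.1) ^ j • ρ k.1 v0) = ∑ k : K, (κ k.1) ^ j • ρ k.1 v0
    rw [map_sum]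
    refine Finset.sum_congr rfl fun k _ => ?_
    rw [map_smul]
    congr 1
    have h1 : k.1⁻¹ * s * k.1 ∈ S := by
      have := D.KS k.1⁻¹ (K.inv_mem k.2) s hs
      rwa [inv_inv] at this
    have h3 : s * k.1 = k.1 * (k.1⁻¹ * s * k.1) := by group
    have h4 : ρ s (ρ k.1 v0) = ρ (s * k.1) v0 := by rw [map_mul]; rfl
    rw [h4, h3, map_mul]
    show ρ k.1 (ρ (k.1⁻¹ * s * k.1) v0) = ρ k.1 v0
    rw [hfix _ h1]
  · intro l hl
    refine ⟨((κ l)⁻¹) ^ j, ?_⟩
    show ρ l (∑ k : K, (κ k.1) ^ j • ρ k.1 v0) = ((κ l)⁻¹) ^ j • ∑ k : K, (κ k.1) ^ j • ρ k.1 v0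
    rw [map_sum, Finset.smul_sum]
    refine Fintype.sum_equiv (Equiv.mulLeft (⟨l, hl⟩ : K)) _ _ fun k => ?_
    rw [map_smul]
    show (κ k.1) ^ j • ρ l (ρ k.1 v0) = ((κ l)⁻¹) ^ j • (κ (l * k.1)) ^ j • ρ (l * k.1) v0
    have h4 : ρ (l * k.1) v0 = ρ l (ρ k.1 v0) := by rw [map_mul]; rfl
    rw [h4, D.κ_mul l hl k.1 k.2, smul_smul, mul_pow, ← mul_assoc, ← mul_pow,
      inv_mul_cancel₀ (D.κ_ne l hl), one_pow, one_mul]

/-- `V = [V, S] + F w u` -/
theorem span_le (D : SzD θ S E K w s0 a b κ) {V : Type v} [AddCommGroup V] [Module F V] [Finite V]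
    (ρ : Representation F X V) (hf : FpfF ρ) (hi : IrrF ρ) :
    ∃ z : V, ∀ T : Submodule F V, (∀ s ∈ S, ∀ v : V, ρ s v + v ∈ T) → z ∈ T → T = ⊤ := by
  haveI := D.char
  obtain ⟨u, hu, hus, huk⟩ := exists_eigen D ρ hi.1
  refine ⟨ρ w u, fun T hT hz => ?_⟩
  have happ : ∀ (g h : X) (v : V), ρ (g * h) v = ρ g (ρ h v) := fun g h v => by rw [map_mul]; rfl
  have huT : u ∈ T := by
    have h := D.relF ρ hf u (hus s0 D.s0S)
    rw [← h]
    have h1 := hT s0 D.s0S (ρ w u)
    have h2 := hT s0 D.s0S (ρ (s0 * s0) (ρ w u))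
    have h3 : ρ s0 (ρ (s0 * s0) (ρ w u)) = ρ (s0 * s0 * s0) (ρ w u) := by
      rw [← happ s0, mul_assoc s0 s0 s0]
    rw [h3] at h2
    have h4 := T.add_mem h1 h2
    have e : ρ w u + ρ s0 (ρ w u) + ρ (s0 * s0) (ρ w u) + ρ (s0 * s0 * s0) (ρ w u) =
        ρ s0 (ρ w u) + ρ w u + (ρ (s0 * s0 * s0) (ρ w u) + ρ (s0 * s0) (ρ w u)) := by abel
    rw [e]; exact h4
  have hwT : ∀ s ∈ S, ρ s (ρ w u) ∈ T := by
    intro s hs
    have h1 := T.add_mem (hT s hs (ρ w u)) hz
    rwa [add_assoc, two_zero (F := F) (ρ w u), add_zero] at h1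
  have hall : ∀ g : X, ρ g u ∈ T := by
    intro g
    rcases D.bruhat g with ⟨s, hs, k, hk, rfl⟩ | ⟨s, hs, k, hk, r, hr, rfl⟩
    · obtain ⟨c, hc⟩ := huk k hk
      rw [happ, hc, map_smul, hus s hs]
      exact T.smul_mem c huT
    · obtain ⟨c, hc⟩ := huk k⁻¹ (K.inv_mem hk)
      have hkw : k * w = w * k⁻¹ := by
        have h := D.wK k⁻¹ (K.inv_mem hk)
        rw [inv_inv] at h
        calc k * w = (w * k⁻¹ * w) * w := by rw [h]
          _ = w * k⁻¹ := by rw [mul_assoc, D.ww, mul_one]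
      rw [happ, hus r hr, mul_assoc, hkw, happ, happ, hc, map_smul, map_smul]
      exact T.smul_mem c (hwT s hs)
  rcases hi.2 (Submodule.span F (Set.range fun g : X => ρ g u)) (by
    intro g v hv
    refine Submodule.span_induction ?_ ?_ ?_ ?_ hv
    · rintro _ ⟨h, rfl⟩
      refine Submodule.subset_span ⟨g * h, ?_⟩
      show ρ (g * h) u = ρ g (ρ h u)
      exact happ g h u
    · rw [map_zero]; exact Submodule.zero_mem _
    · intro x y _ _ hx hy; rw [map_add]; exact Submodule.add_mem _ hx hy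
    · intro c x _ hx; rw [map_smul]; exact Submodule.smul_mem _ c hx) with h | h
  · exfalso
    have h1 : ρ 1 u ∈ Submodule.span F (Set.range fun g : X => ρ g u) := Submodule.subset_span ⟨1, rfl⟩
    rw [h, Submodule.mem_bot, map_one] at h1
    exact hu h1
  · rw [eq_top_iff, ← h, Submodule.span_le]
    rintro _ ⟨g, rfl⟩
    exact hall g

theorem fpf_dual {V : Type v} [AddCommGroup V] [Module F V] [Finite V]
    (ρ : Representation F X V) (hf : FpfF ρ) : FpfF ρ.dual := by
  intro g hg hg1 f hfg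
  have hinj : Function.Injective fun v : V => ρ g⁻¹ v - v := by
    intro v v' h
    have h1 : ρ g⁻¹ (v - v') = v - v' := by
      rw [map_sub]
      have h2 : ρ g⁻¹ v - v = ρ g⁻¹ v' - v' := h
      have h3 : ρ g⁻¹ v = ρ g⁻¹ v' - v' + v := by rw [← h2]; abel
      rw [h3]; abel
    exact sub_eq_zero.1 (hf g⁻¹ (by rwa [orderOf_inv]) (by simpa using hg1) _ h1)
  have hsurj := Finite.surjective_of_injective hinj
  ext v
  obtain ⟨v', hv'⟩ := hsurj v
  have hv' : ρ g⁻¹ v' - v' = v := hv'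
  have h1 : ρ.dual g f v' = f v' := by rw [hfg]
  rw [Representation.dual_apply] at h1
  have h2 : f (ρ g⁻¹ v') = f v' := h1
  rw [← hv', map_sub, h2, sub_self]
  rfl

theorem irr_dual {V : Type v} [AddCommGroup V] [Module F V] [Finite V]
    (ρ : Representation F X V) (hi : IrrF ρ) : IrrF ρ.dual := by
  constructor
  · obtain ⟨v, hv⟩ := hi.1
    by_contra hcon
    push Not at hcon
    exact hv ((Module.forall_dual_apply_eq_zero_iff F v).1 fun f => by rw [hcon f]; rfl)
  · intro W hW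
    have hW' : ∀ g : X, ∀ v ∈ W.dualCoannihilator, ρ g v ∈ W.dualCoannihilator := by
      intro g v hv
      rw [Submodule.mem_dualCoannihilator] at hv ⊢
      intro f hf
      have h1 := hv _ (hW g⁻¹ f hf)
      rw [Representation.dual_apply, inv_inv] at h1
      exact h1
    rcases hi.2 _ hW' with h | h
    · right
      rw [← Subspace.dualCoannihilator_dualAnnihilator_eq (W := W), h]
      exact Submodule.dualAnnihilator_bot
    · left
      rw [← Subspace.dualCoannihilator_dualAnnihilator_eq (W := W), h]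
      exact Submodule.dualAnnihilator_top

theorem fix_one (D : SzD θ S E K w s0 a b κ) {V : Type v} [AddCommGroup V] [Module F V] [Finite V]
    (ρ : Representation F X V) (hf : FpfF ρ) (hi : IrrF ρ) :
    ∃ u : V, u ≠ 0 ∧ (∀ s ∈ S, ρ s u = u) ∧ ∀ v : V, (∀ s ∈ S, ρ s v = v) → ∃ c : F, v = c • u := by
  haveI := D.char
  haveI : Finite (Module.Dual F V) :=
    Finite.of_injective (fun f : Module.Dual F V => (f : V → F)) DFunLike.coe_injective
  obtain ⟨z, hz⟩ := span_le D ρ.dual (fpf_dual ρ hf) (irr_dual ρ hi)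
  have key : ∀ v : V, (∀ s ∈ S, ρ s v = v) → z v = 0 → v = 0 := by
    intro v hv hzv
    have hT : (Module.Dual.eval F V v).ker = ⊤ := by
      apply hz
      · intro s hs f
        rw [LinearMap.mem_ker]
        show (ρ.dual s f + f) v = 0
        have h1 : ρ.dual s f v = f v := by
          rw [Representation.dual_apply]
          show f (ρ s⁻¹ v) = f v
          rw [hv _ (S.inv_mem hs)]
        rw [LinearMap.add_apply, h1]
        exact CharTwo.add_self_eq_zero _
      · rw [LinearMap.mem_ker]; exact hzv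
    rw [← Module.forall_dual_apply_eq_zero_iff F v]
    intro f
    have : f ∈ (Module.Dual.eval F V v).ker := by rw [hT]; exact Submodule.mem_top
    exact this
  obtain ⟨u, hu, hus⟩ := exists_fixed D ρ hi.1
  have hzu : z u ≠ 0 := fun h => hu (key u hus h)
  refine ⟨u, hu, hus, fun v hv => ⟨z v / z u, ?_⟩⟩
  have h1 : v - (z v / z u) • u = 0 := by
    apply key
    · intro s hs
      rw [map_sub, map_smul, hv s hs, hus s hs]
    · rw [map_sub, map_smul, smul_eq_mul, div_mul_cancel₀ _ hzu, sub_self]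
  exact sub_eq_zero.1 h1

end Cfsg.Agent.H70.MtP1
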