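import Mathlib

/-! Number theory for S4609: `(p^r - 1)/(r+1)` a square with `r + 1` a primitive prime divisor
forces `r = 4` (quadratic reciprocity). -/

namespace Cfsg.Agent.H70.NumA

theorem sq_left {a b c : ℕ} (h : Nat.Coprime a b) (e : a * b = c ^ 2) : ∃ d, a = d ^ 2 := by
  have hu : IsUnit (gcd a b) := by
    rw [Nat.isUnit_iff]
    exact h
  exact exists_eq_pow_of_mul_eq_pow hu e

theorem sq_right {a b c : ℕ} (h : Nat.Coprime a b) (e : a * b = c ^ 2) : ∃ d, b = d ^ 2 :=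
  sq_left h.symm (by rw [mul_comm]; exact e)

theorem even_of_sq {t m : ℕ} (h : t ^ 2 = 2 * m) : ∃ s, t = 2 * s := by
  have h2 : 2 ∣ t ^ 2 := ⟨m, h⟩
  exact Nat.prime_two.dvd_of_dvd_pow h2

theorem num_main {p r z t : ℕ} (hp : p.Prime) (hp2 : p ≠ 2) (hz : z.Prime) (hr : z = r + 1)
    (hr3 : 3 ≤ r) (hppd : ∀ i, 0 < i → i < r → ¬ z ∣ p ^ i - 1)
    (h : p ^ r - 1 = z * t ^ 2) : r = 4 := by
  have hpo : Odd p := hp.odd_of_ne_two hp2
  have hzo : Odd z := hz.odd_of_ne_two (by omega)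
  have hp3 : 3 ≤ p := by
    have := hp.two_le
    omega
  obtain ⟨k0, hk0⟩ := hzo
  have hrh : r = 2 * k0 := by omega
  have hk0pos : 2 ≤ k0 := by omega
  -- P = p ^ k0
  have hPodd : Odd (p ^ k0) := hpo.pow
  obtain ⟨n, hn⟩ := hPodd
  have hPr : p ^ r = (p ^ k0) ^ 2 := by
    rw [hrh, mul_comm, pow_mul]
  have hnd : ¬ z ∣ p ^ k0 - 1 := hppd k0 (by omega) (by omega)
  rw [hPr, hn] at h
  rw [hn] at hnd
  have e1 : (2 * n + 1) ^ 2 - 1 = (2 * n) * (2 * n + 2) := by
    have : (2 * n + 1) ^ 2 = (2 * n) * (2 * n + 2) + 1 := by ring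
    omega
  rw [e1] at h
  have hnd' : ¬ z ∣ 2 * n := by
    simpa using hnd
  have hdv : z ∣ 2 * n + 2 := by
    have : z ∣ (2 * n) * (2 * n + 2) := ⟨t ^ 2, h⟩
    exact (hz.dvd_mul.mp this).resolve_left hnd'
  have hdv2 : z ∣ n + 1 := by
    have h2 : z ∣ 2 * (n + 1) := by
      have : 2 * (n + 1) = 2 * n + 2 := by ring
      rw [this]; exact hdv
    rcases hz.dvd_mul.mp h2 with h3 | h3
    · have := Nat.le_of_dvd (by norm_num) h3
      omega
    · exact h3
  obtain ⟨m, hm⟩ := hdv2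
  have hzpos : 0 < z := hz.pos
  have e2 : 4 * (n * m) = t ^ 2 := by
    have : z * (4 * (n * m)) = z * t ^ 2 := by
      rw [← h]
      have : 2 * n + 2 = 2 * (z * m) := by omega
      rw [this]; ring
    exact Nat.eq_of_mul_eq_mul_left hzpos this
  obtain ⟨s, hs⟩ := even_of_sq (t := t) (m := 2 * (n * m)) (by rw [← e2]; ring)
  have e3 : n * m = s ^ 2 := by
    rw [hs] at e2
    have : 4 * (n * m) = 4 * s ^ 2 := by rw [e2]; ring
    omega
  have hcop : Nat.Coprime n m := by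
    rw [Nat.coprime_iff_gcd_eq_one]
    have h1 : Nat.gcd n m ∣ n := Nat.gcd_dvd_left _ _
    have h2 : Nat.gcd n m ∣ n + 1 := by
      rw [hm]
      exact (Nat.gcd_dvd_right n m).mul_left z
    have h3 : Nat.gcd n m ∣ 1 := (Nat.dvd_add_right h1).mp h2
    exact Nat.dvd_one.mp h3
  obtain ⟨a, ha⟩ := sq_left hcop e3
  obtain ⟨b, hb⟩ := sq_right hcop e3
  -- a ^ 2 + 1 = z * b ^ 2
  have e4 : a ^ 2 + 1 = z * b ^ 2 := by rw [← ha, ← hb, hm]
  have : Fact z.Prime := ⟨hz⟩
  have : Fact p.Prime := ⟨hp⟩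
  have hz4 : z % 4 = 1 := by
    have hsq : IsSquare (-1 : ZMod z) := by
      refine ⟨(a : ZMod z), ?_⟩
      have : ((a ^ 2 + 1 : ℕ) : ZMod z) = ((z * b ^ 2 : ℕ) : ZMod z) := by rw [e4]
      push_cast at this
      rw [ZMod.natCast_self, zero_mul] at this
      rw [← sq]
      exact (eq_neg_of_add_eq_zero_left this).symm
    have := (ZMod.exists_sq_eq_neg_one_iff (p := z)).mp hsq
    omega
  obtain ⟨j, hj⟩ : ∃ j, k0 = 2 * j := ⟨k0 / 2, by omega⟩
  have hjpos : 0 < j := by omega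
  have hPQ : p ^ k0 = (p ^ j) ^ 2 := by rw [hj, mul_comm, pow_mul]
  have hQodd : Odd (p ^ j) := hpo.pow
  obtain ⟨k, hk⟩ := hQodd
  have e5 : (2 * k + 1) ^ 2 = 2 * a ^ 2 + 1 := by
    rw [← hk, ← hPQ, hn, ha]
  have e6 : a ^ 2 = 2 * (k * (k + 1)) := by
    have : 2 * a ^ 2 + 1 = 2 * (2 * (k * (k + 1))) + 1 := by rw [← e5]; ring
    omega
  obtain ⟨a', ha'⟩ := even_of_sq e6
  have e7 : k * (k + 1) = 2 * a' ^ 2 := by
    rw [ha'] at e6
    have : 2 * (k * (k + 1)) = 2 * (2 * a' ^ 2) := by rw [← e6]; ring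
    omega
  have hck : Nat.Coprime k (k + 1) := by
    rw [Nat.coprime_self_add_right]
    exact Nat.coprime_one_right k
  have hpc : ((p : ℕ) : ZMod p) = 0 := ZMod.natCast_self p
  rcases Nat.even_or_odd' k with ⟨k', hk' | hk'⟩
  · -- case I
    exfalso
    have e8 : k' * (k + 1) = a' ^ 2 := by
      have : 2 * (k' * (k + 1)) = 2 * a' ^ 2 := by
        rw [← e7, ← mul_assoc, ← hk']
      omega
    have hc' : Nat.Coprime k' (k + 1) :=
      Nat.Coprime.coprime_dvd_left ⟨2, by rw [hk']; ring⟩ hck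
    obtain ⟨d, hd⟩ := sq_right hc' e8
    -- p ^ j + 1 = 2 d ^ 2
    have f1 : p ^ j + 1 = 2 * d ^ 2 := by rw [← hd, hk]; ring
    have f2 : p ^ k0 + 1 = 2 * (z * b ^ 2) := by rw [← hb, ← hm, hn]; ring
    have g1 : (1 : ZMod p) = 2 * (d : ZMod p) ^ 2 := by
      have : ((p ^ j + 1 : ℕ) : ZMod p) = ((2 * d ^ 2 : ℕ) : ZMod p) := by rw [f1]
      push_cast at this
      rw [hpc, zero_pow (by omega), zero_add] at this
      exact this
    have g2 : (1 : ZMod p) = 2 * ((z : ZMod p) * (b : ZMod p) ^ 2) := by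
      have : ((p ^ k0 + 1 : ℕ) : ZMod p) = ((2 * (z * b ^ 2) : ℕ) : ZMod p) := by rw [f2]
      push_cast at this
      rw [hpc, zero_pow (by omega), zero_add] at this
      exact this
    have hsqz : IsSquare (z : ZMod p) := by
      refine ⟨(z : ZMod p) * (2 * b * d), ?_⟩
      calc (z : ZMod p) = z * (1 * 1) := by ring
        _ = z * ((2 * ((z : ZMod p) * (b : ZMod p) ^ 2)) * (2 * (d : ZMod p) ^ 2)) := by
            rw [← g1, ← g2]
        _ = _ := by ring
    have hsqp : IsSquare (p : ZMod z) :=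
      (ZMod.exists_sq_eq_prime_iff_of_mod_four_eq_one (p := z) (q := p) hz4 hp2).mpr hsqz
    obtain ⟨x, hx⟩ := hsqp
    have hpz : (p : ZMod z) ≠ 0 := by
      intro h0
      rw [ZMod.natCast_eq_zero_iff] at h0
      have hzp : z = p := (Nat.prime_dvd_prime_iff_eq hz hp).mp h0
      have : z ∣ p ^ k0 + 1 := ⟨2 * b ^ 2, by rw [f2]; ring⟩
      have h1 : z ∣ p ^ k0 := by
        rw [hzp]; exact dvd_pow_self p (by omega)
      have h2 := (Nat.dvd_add_right h1).mp this
      exact hz.one_lt.ne' (Nat.dvd_one.mp h2)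
    have hx0 : x ≠ 0 := by
      rintro rfl
      exact hpz (by rw [hx]; ring)
    have hfin : (p : ZMod z) ^ k0 = 1 := by
      rw [hx, ← sq, ← pow_mul]
      have : 2 * k0 = z - 1 := by omega
      rw [this]
      exact ZMod.pow_card_sub_one_eq_one hx0
    apply hppd k0 (by omega) (by omega)
    rw [← ZMod.natCast_eq_zero_iff, Nat.cast_sub (Nat.one_le_pow _ _ (by omega))]
    push_cast
    rw [hfin, sub_self]
  · -- case II
    have e8 : k * (k' + 1) = a' ^ 2 := by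
      have : 2 * (k * (k' + 1)) = 2 * a' ^ 2 := by
        rw [← e7]
        have : k + 1 = 2 * (k' + 1) := by omega
        rw [this]; ring
      omega
    have hc' : Nat.Coprime k (k' + 1) :=
      Nat.Coprime.coprime_dvd_right ⟨2, by omega⟩ hck
    obtain ⟨d, hd⟩ := sq_right hc' e8
    have f1 : p ^ j + 1 = 4 * d ^ 2 := by rw [← hd]; omega
    have hd0 : d ≠ 0 := by
      rintro rfl
      simp at f1
    obtain ⟨e, rfl⟩ : ∃ e, d = e + 1 := ⟨d - 1, by omega⟩
    have f2 : p ^ j = (2 * e + 1) * (2 * e + 3) := by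
      have : p ^ j + 1 = (2 * e + 1) * (2 * e + 3) + 1 := by rw [f1]; ring
      omega
    have he : e = 0 := by
      by_contra hne
      have h1 : 2 * e + 1 ∣ p ^ j := ⟨_, f2⟩
      have h2 : 2 * e + 3 ∣ p ^ j := ⟨2 * e + 1, by rw [f2]; ring⟩
      have h3 : p ∣ 2 * e + 1 := by
        obtain ⟨i, _, hi⟩ := (Nat.dvd_prime_pow hp).mp h1
        rcases Nat.eq_zero_or_pos i with h0 | h0
        · rw [h0] at hi; simp at hi; omega
        · rw [hi]; exact dvd_pow_self p (by omega)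
      have h4 : p ∣ 2 * e + 3 := by
        obtain ⟨i, _, hi⟩ := (Nat.dvd_prime_pow hp).mp h2
        rcases Nat.eq_zero_or_pos i with h0 | h0
        · rw [h0] at hi; simp at hi
        · rw [hi]; exact dvd_pow_self p (by omega)
      have h5 : p ∣ 2 := by
        have : 2 * e + 3 = (2 * e + 1) + 2 := by ring
        rw [this] at h4
        exact (Nat.dvd_add_right h3).mp h4
      exact hp2 ((Nat.prime_dvd_prime_iff_eq hp Nat.prime_two).mp h5)
    subst he
    have f3 : p ^ j = 3 := by rw [f2]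
    have hj1 : j = 1 := by
      by_contra hne
      have h2 : 2 ≤ j := by omega
      have : 3 ^ 2 ≤ p ^ j := by
        calc 3 ^ 2 ≤ p ^ 2 := Nat.pow_le_pow_left hp3 2
          _ ≤ p ^ j := Nat.pow_le_pow_right (by omega) h2
      omega
    omega

end Cfsg.Agent.H70.NumA
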