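import Mathlib
import Cfsg.Agent.H67.OddReal
import Cfsg.Agent.H67.SZ
import Cfsg.Agent.Transfer.Fusion

/-!
# Lifting real elements of odd order from a quotient. Owner: helper70.
-/

set_option autoImplicit false

namespace Cfsg.Agent.H70

open Subgroup

open scoped Pointwise

/-- odd powers of an inverting element invert -/
theorem odd_pow_inverts {G : Type*} [Group G] {c y : G} (h : c * y * c⁻¹ = y⁻¹) {m : ℕ}
    (hm : Odd m) : c ^ m * y * (c ^ m)⁻¹ = y⁻¹ := by
  obtain ⟨k, rfl⟩ := hm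
  have h2 : c * c * y * (c * c)⁻¹ = y := by
    have e : c * c * y * (c * c)⁻¹ = c * (c * y * c⁻¹) * c⁻¹ := by group
    rw [e, h]
    have := congrArg (fun z => z⁻¹) h
    simp only [mul_inv_rev, inv_inv] at this
    rw [← mul_assoc] at this
    exact this
  have h3 : Commute (c * c) y := mul_inv_eq_iff_eq_mul.1 h2
  have h4 : Commute ((c * c) ^ k) y := h3.pow_left k
  have e : c ^ (2 * k + 1) = c * (c * c) ^ k := by
    rw [pow_succ', pow_mul, pow_two]
  rw [e]
  have e2 : c * (c * c) ^ k * y * (c * (c * c) ^ k)⁻¹ = c * ((c * c) ^ k * y * ((c * c) ^ k)⁻¹) * c⁻¹ := by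
    group
  rw [e2, h4.eq, mul_inv_cancel_right, h]

/-- lifting over a normal 2-subgroup -/
theorem real_lift_two {G : Type*} [Group G] [Finite G] (N : Subgroup G) [N.Normal]
    (hN : IsPGroup 2 N) (y : G ⧸ N) (hy : Odd (orderOf y)) (c : G)
    (hc : QuotientGroup.mk' N c * y * (QuotientGroup.mk' N c)⁻¹ = y⁻¹) :
    ∃ x : G, QuotientGroup.mk' N x = y ∧ orderOf x = orderOf y ∧
      ∃ m ∈ N, (m * c) * x * (m * c)⁻¹ = x⁻¹ := by
  have : Fact (Nat.Prime 2) := ⟨Nat.prime_two⟩
  obtain ⟨n, hn⟩ := hN.exists_card_eq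
  have hcop : (orderOf y).Coprime (Nat.card N) := by
    rw [hn]
    exact (Nat.Coprime.pow_left n (Nat.coprime_two_left.mpr hy)).symm
  obtain ⟨x, hx, hxo⟩ := Cfsg.Agent.H67.exists_lift_orderOf_eq N y hcop
  have hmap : (zpowers x).map (QuotientGroup.mk' N) = zpowers y := by
    rw [MonoidHom.map_zpowers, hx]
  obtain ⟨m, hm, hmc⟩ := Cfsg.Agent.H67.exists_lift_normalizer N (zpowers x)
    (by rw [Nat.card_zpowers, hxo]; exact hcop.symm) inferInstance c (by
      rw [hmap, Cfsg.Agent.H67.mem_normalizer_zpowers_iff, hc]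
      exact inv_mem (mem_zpowers _))
  have hmc2 : QuotientGroup.mk' N (m * c) = QuotientGroup.mk' N c := by
    rw [map_mul]
    have : QuotientGroup.mk' N m = 1 := by
      rw [QuotientGroup.mk'_apply]
      exact (QuotientGroup.eq_one_iff m).mpr hm
    rw [this, one_mul]
  obtain ⟨r, hr, -⟩ := Cfsg.Agent.H67.exists_pow_of_mem_normalizer hmc
  have h5 : y⁻¹ = y ^ r := by
    have := congrArg (QuotientGroup.mk' N) hr
    rw [map_mul, map_mul, map_inv, hmc2, hx, hc, map_pow, hx] at this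
    exact this
  have h6 : x⁻¹ = x ^ r := by
    have h7 : y ^ (r + 1) = 1 := by rw [pow_succ, ← h5]; group
    have h8 : x ^ (r + 1) = 1 := by
      rw [← orderOf_dvd_iff_pow_eq_one, hxo, orderOf_dvd_iff_pow_eq_one]
      exact h7
    rw [pow_succ] at h8
    exact inv_eq_of_mul_eq_one_left h8
  exact ⟨x, hx, hxo, m, hm, by rw [hr, h6]⟩

/-- **Lifting real elements of odd order.** -/
theorem real_lift {G : Type*} [Group G] [Finite G] (N : Subgroup G) [hNn : N.Normal]
    (y : G ⧸ N) (hy : Odd (orderOf y)) (c : G ⧸ N) (hc : c * y * c⁻¹ = y⁻¹) :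
    ∃ x g : G, QuotientGroup.mk' N x = y ∧ Odd (orderOf x) ∧ g * x * g⁻¹ = x⁻¹ := by
  classical
  have : Fact (Nat.Prime 2) := ⟨Nat.prime_two⟩
  obtain ⟨c₀, rfl⟩ := QuotientGroup.mk'_surjective N c
  obtain ⟨k, m, hm, hkm⟩ := Nat.exists_eq_two_pow_mul_odd (orderOf_pos c₀).ne'
  set c₁ := c₀ ^ m with hc₁
  have hc₁o : c₁ ^ 2 ^ k = 1 := by
    rw [hc₁, ← pow_mul, mul_comm, ← hkm, pow_orderOf_eq_one]
  have hc₁y : QuotientGroup.mk' N c₁ * y * (QuotientGroup.mk' N c₁)⁻¹ = y⁻¹ := by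
    rw [hc₁, map_pow]
    exact odd_pow_inverts hc hm
  have hc₁p : IsPGroup 2 (zpowers c₁) := by
    rintro ⟨_, ⟨i, rfl⟩⟩
    refine ⟨k, ?_⟩
    apply Subtype.ext
    change (c₁ ^ i) ^ 2 ^ k = 1
    rw [← zpow_natCast, ← zpow_mul, mul_comm, zpow_mul, zpow_natCast, hc₁o, one_zpow]
  obtain ⟨P, hP⟩ := hc₁p.exists_le_sylow
  have hcP : c₁ ∈ P := hP (mem_zpowers c₁)
  let T : Sylow 2 N := Cfsg.Agent.Transfer.sylowInf P N
  set S : Subgroup G := (P : Subgroup G) ⊓ N with hS
  have hTS : (T : Subgroup N).map N.subtype = S := Cfsg.Agent.Transfer.sylowInf_map P N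
  have hSN : S ≤ N := inf_le_right
  have hSp : IsPGroup 2 S := P.2.to_le inf_le_left
  have hfr : normalizer (S : Set G) ⊔ N = ⊤ := by
    have := Sylow.normalizer_sup_eq_top T
    rw [hTS] at this
    exact this
  set L : Subgroup G := normalizer (S : Set G) with hL
  have hSL : S ≤ L := le_normalizer
  have hcL : c₁ ∈ L := by
    rw [hL, mem_normalizer_iff]
    intro x
    constructor
    · rintro ⟨hx1, hx2⟩
      have hx1' : x ∈ (P : Subgroup G) := hx1
      exact ⟨(P : Subgroup G).mul_mem ((P : Subgroup G).mul_mem hcP hx1') ((P : Subgroup G).inv_mem hcP),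
        hNn.conj_mem x hx2 c₁⟩
    · rintro ⟨hx1, hx2⟩
      have hx1' : c₁ * x * c₁⁻¹ ∈ (P : Subgroup G) := hx1
      have e : c₁⁻¹ * (c₁ * x * c₁⁻¹) * c₁ = x := by group
      refine ⟨?_, ?_⟩
      · have := (P : Subgroup G).mul_mem ((P : Subgroup G).mul_mem ((P : Subgroup G).inv_mem hcP) hx1') hcP
        rw [e] at this
        exact this
      · have := hNn.conj_mem _ hx2 c₁⁻¹
        rw [inv_inv, e] at this
        exact this
  -- the quotient `L / S`
  let SL : Subgroup L := S.subgroupOf L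
  have hSLn : SL.Normal := by
    change (S.subgroupOf (normalizer (S : Set G))).Normal
    infer_instance
  have hSLp : IsPGroup 2 SL := hSp.comap_of_injective L.subtype L.subtype_injective
  let f : L ⧸ SL →* G ⧸ N := QuotientGroup.map SL N L.subtype (by
    intro x hx
    exact hSN hx)
  have hf : ∀ x : L, f (QuotientGroup.mk' SL x) = QuotientGroup.mk' N (x : G) := fun x => rfl
  -- the kernel of `f` has odd order
  have hker : Odd (Nat.card f.ker) := by
    have h1 : Nat.card f.ker ∣ (T : Subgroup N).index := by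
      have h2 : f.ker = ((N.subgroupOf L).map (QuotientGroup.mk' SL)) := by
        ext z
        obtain ⟨z, rfl⟩ := QuotientGroup.mk'_surjective SL z
        rw [MonoidHom.mem_ker, hf, QuotientGroup.mk'_apply, QuotientGroup.eq_one_iff]
        constructor
        · intro hz; exact ⟨z, hz, rfl⟩
        · rintro ⟨w, hw, hwz⟩
          have h3 : w⁻¹ * z ∈ SL := QuotientGroup.eq.1 hwz
          have h4 : ((w⁻¹ * z : L) : G) ∈ N := hSN h3
          have h5 : (z : G) = w * ((w⁻¹ * z : L) : G) := by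
            change (z : G) = w * ((w : G)⁻¹ * z); group
          rw [h5]
          exact mul_mem hw h4
      have h3 : Nat.card f.ker * Nat.card SL = Nat.card (N.subgroupOf L) := by
        rw [h2]
        have hle : SL ≤ N.subgroupOf L := fun x hx => hSN hx
        have h4 : SL.relIndex (N.subgroupOf L) = Nat.card ((N.subgroupOf L).map (QuotientGroup.mk' SL)) := by
          rw [← Subgroup.relIndex_ker, QuotientGroup.ker_mk']
        rw [← h4, mul_comm, ← relIndex_bot_left SL, relIndex_mul_relIndex _ _ _ bot_le hle,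
          relIndex_bot_left]
      have h4 : Nat.card SL = Nat.card S := Nat.card_congr (subgroupOfEquivOfLe hSL).toEquiv
      have h5 : Nat.card S * (T : Subgroup N).index = Nat.card N := by
        have h6 : Nat.card (T : Subgroup N) = Nat.card S := by
          rw [← hTS]
          exact Nat.card_congr ((T : Subgroup N).equivMapOfInjective _ N.subtype_injective).toEquiv
        rw [← h6, Subgroup.card_mul_index]
      have h6 : Nat.card (N.subgroupOf L) ∣ Nat.card N := by
        have : Nat.card (N.subgroupOf L) = Nat.card (N ⊓ L : Subgroup G) := by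
          rw [← Subgroup.inf_subgroupOf_right]
          exact Nat.card_congr (subgroupOfEquivOfLe inf_le_right).toEquiv
        rw [this]
        exact card_dvd_of_le inf_le_left
      rw [← h3, ← h5, h4, mul_comm (Nat.card S)] at h6
      exact Nat.dvd_of_mul_dvd_mul_right Nat.card_pos h6
    have h2 : ¬ 2 ∣ (T : Subgroup N).index := T.not_dvd_index
    rw [← Nat.not_even_iff_odd, even_iff_two_dvd]
    exact fun h => h2 (h.trans h1)
  -- the fibre over `y`
  obtain ⟨y₀, rfl⟩ := QuotientGroup.mk'_surjective N y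
  obtain ⟨x₁, hx₁, n₁, hn₁, e₁⟩ : ∃ a ∈ L, ∃ b ∈ N, a * b = y₀ := by
    have : y₀ ∈ L ⊔ N := by rw [hfr]; trivial
    exact Subgroup.mem_sup_of_normal_right.1 this
  have hfx : f (QuotientGroup.mk' SL ⟨x₁, hx₁⟩) = QuotientGroup.mk' N y₀ := by
    rw [hf, ← e₁, map_mul]
    have : QuotientGroup.mk' N n₁ = 1 := (QuotientGroup.eq_one_iff n₁).2 hn₁
    rw [this, mul_one]
  set c' : L ⧸ SL := QuotientGroup.mk' SL ⟨c₁, hcL⟩ with hc'
  have hfc : f c' = QuotientGroup.mk' N c₁ := rfl
  let Fb := {h : L ⧸ SL // f h = QuotientGroup.mk' N y₀}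
  have hcard : ¬ 2 ∣ Nat.card Fb := by
    have e : Fb ≃ f.ker :=
      { toFun := fun h => ⟨(QuotientGroup.mk' SL ⟨x₁, hx₁⟩)⁻¹ * h.1, by
          rw [MonoidHom.mem_ker, map_mul, map_inv, hfx, h.2, inv_mul_cancel]⟩
        invFun := fun z => ⟨(QuotientGroup.mk' SL ⟨x₁, hx₁⟩) * z.1, by
          rw [map_mul, hfx, (show f z.1 = 1 from z.2), mul_one]⟩
        left_inv := fun h => Subtype.ext (by simp)
        right_inv := fun h => Subtype.ext (by simp) }
    rw [Nat.card_congr e, ← even_iff_two_dvd, Nat.not_even_iff_odd]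
    exact hker
  have hcy' : (QuotientGroup.mk' N c₁)⁻¹ * (QuotientGroup.mk' N y₀)⁻¹ * QuotientGroup.mk' N c₁ =
      QuotientGroup.mk' N y₀ := by
    rw [← hc₁y]; group
  let θ : Equiv.Perm Fb :=
    { toFun := fun h => ⟨(c' * h.1 * c'⁻¹)⁻¹, by
        rw [map_inv, map_mul, map_mul, map_inv, h.2, hfc, hc₁y, inv_inv]⟩
      invFun := fun h => ⟨c'⁻¹ * h.1⁻¹ * c', by
        rw [map_mul, map_mul, map_inv, map_inv, h.2, hfc, hcy']⟩
      left_inv := fun h => Subtype.ext (by
        change c'⁻¹ * ((c' * h.1 * c'⁻¹)⁻¹)⁻¹ * c' = h.1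
        group)
      right_inv := fun h => Subtype.ext (by
        change (c' * (c'⁻¹ * h.1⁻¹ * c') * c'⁻¹)⁻¹ = h.1
        group) }
  have hθ : ∀ h : Fb, (θ h).1 = (c' * h.1 * c'⁻¹)⁻¹ := fun h => rfl
  have hθ2 : ∀ (n : ℕ) (h : Fb), ((θ ^ (2 * n)) h).1 = c' ^ (2 * n) * h.1 * (c' ^ (2 * n))⁻¹ := by
    intro n
    induction n with
    | zero => intro h; simp
    | succ n ih =>
      intro h
      have e : 2 * (n + 1) = 2 * n + 1 + 1 := by ring
      rw [e, pow_succ, pow_succ, Equiv.Perm.mul_apply, Equiv.Perm.mul_apply, ih, hθ, hθ]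
      have e2 : c' ^ (2 * n + 1 + 1) = c' ^ (2 * n) * (c' * c') := by
        rw [pow_succ, pow_succ, mul_assoc]
      rw [e2]; group
  have hθo : θ ^ 2 ^ (k + 1) = 1 := by
    ext h
    rw [pow_succ', hθ2]
    have h1 : c' ^ (2 * 2 ^ k) = 1 := by
      rw [mul_comm, pow_mul]
      have h2 : c' ^ 2 ^ k = 1 := by
        rw [hc', ← map_pow]
        have : (⟨c₁, hcL⟩ : L) ^ 2 ^ k = 1 := Subtype.ext hc₁o
        rw [this, map_one]
      rw [h2, one_pow]
    rw [h1, Equiv.Perm.one_apply]; group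
  have : Fintype Fb := Fintype.ofFinite _
  rw [Nat.card_eq_fintype_card] at hcard
  obtain ⟨z, hz⟩ := Equiv.Perm.exists_fixed_point_of_prime hcard hθo
  have hz' : c' * z.1 * c'⁻¹ = z.1⁻¹ := by
    have h1 : (c' * z.1 * c'⁻¹)⁻¹ = z.1 := congrArg (fun w : Fb => w.1) hz
    rw [← inv_eq_iff_eq_inv]
    exact h1
  have hzo : Odd (orderOf z.1) := by
    have h1 : orderOf z.1 ∣ orderOf (QuotientGroup.mk' N y₀) * Nat.card f.ker := by
      apply orderOf_dvd_of_pow_eq_one
      rw [pow_mul]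
      have h2 : z.1 ^ orderOf (QuotientGroup.mk' N y₀) ∈ f.ker := by
        rw [MonoidHom.mem_ker, map_pow, z.2, pow_orderOf_eq_one]
      have h3 : (⟨_, h2⟩ : f.ker) ^ Nat.card f.ker = 1 := pow_card_eq_one'
      exact congrArg Subtype.val h3
    exact Odd.of_dvd_nat (hy.mul hker) h1
  obtain ⟨x, hx, hxo, n, hn, hxn⟩ := real_lift_two SL hSLp z.1 hzo ⟨c₁, hcL⟩ hz'
  refine ⟨x, ((n * ⟨c₁, hcL⟩ : L) : G), ?_, ?_, ?_⟩
  · rw [← hf, hx, z.2]
  · have : orderOf (x : G) = orderOf x := orderOf_injective L.subtype L.subtype_injective x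
    rw [this, hxo]; exact hzo
  · exact congrArg Subtype.val hxn

end Cfsg.Agent.H70
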