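import Mathlib
import Cfsg.Agent.Frob.Action
import Cfsg.Agent.Transfer.Fusion
import Cfsg.Agent.H67.OddReal
import Cfsg.Agent.H72.ClassSize
import Cfsg.Agent.H4.BaerSuzuki
import Cfsg.Agent.S0200

/-!
# Groups acting on an elementary abelian 2-group such that each nonidentity vector is fixed by a
unique Sylow 2-subgroup and real elements of odd order act freely and with large centralizers.
Owner: helper70.
-/

set_option autoImplicit false

namespace Cfsg.Agent.H70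

open Subgroup MulAction

open scoped Pointwise

/-- the stabilizer of a vector -/
def vst {Γ V : Type*} [Group Γ] [Group V] (φ : Γ →* MulAut V) (v : V) : Subgroup Γ where
  carrier := {g | φ g v = v}
  one_mem' := by simp
  mul_mem' := by
    intro a b ha hb
    change φ (a * b) v = v
    rw [map_mul, MulAut.mul_apply, (show φ b v = v from hb), (show φ a v = v from ha)]
  inv_mem' := by
    intro a ha
    change φ a⁻¹ v = v
    have h1 : φ a v = v := ha
    conv_lhs => rw [← h1]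
    rw [map_inv, MulAut.inv_apply_self]

theorem mem_vst {Γ V : Type*} [Group Γ] [Group V] (φ : Γ →* MulAut V) (v : V) (g : Γ) :
    g ∈ vst φ v ↔ φ g v = v := Iff.rfl

/-- the fixed vectors of an element -/
def vfx {Γ V : Type*} [Group Γ] [Group V] (φ : Γ →* MulAut V) (g : Γ) : Subgroup V where
  carrier := {v | φ g v = v}
  one_mem' := by simp
  mul_mem' := by
    intro a b ha hb
    change φ g (a * b) = a * b
    rw [map_mul, (show φ g a = a from ha), (show φ g b = b from hb)]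
  inv_mem' := by
    intro a ha
    change φ g a⁻¹ = a⁻¹
    rw [map_inv, (show φ g a = a from ha)]

theorem mem_vfx {Γ V : Type*} [Group Γ] [Group V] (φ : Γ →* MulAut V) (v : V) (g : Γ) :
    v ∈ vfx φ g ↔ φ g v = v := Iff.rfl

theorem act_mul {Γ V : Type*} [Group Γ] [Group V] (φ : Γ →* MulAut V) (a b : Γ) (v : V) :
    φ (a * b) v = φ a (φ b v) := by
  rw [map_mul, MulAut.mul_apply]

/-- `x` generates a maximal cyclic group of odd order inverted by `t` -/
def IsMaxInv {Γ : Type*} [Group Γ] (t x : Γ) : Prop :=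
  Odd (orderOf x) ∧ t * x * t⁻¹ = x⁻¹ ∧ x ≠ 1 ∧
    ∀ a : Γ, Odd (orderOf a) → a * x = x * a → t * a * t⁻¹ = a⁻¹ → a ∈ zpowers x

structure TwoSpread {Γ V : Type*} [Group Γ] [CommGroup V] (φ : Γ →* MulAut V) : Prop where
  sq : ∀ v : V, v * v = 1
  nt : ∃ v : V, v ≠ 1
  inj : Function.Injective φ
  core : ∀ M : Subgroup Γ, M.Normal → IsPGroup 2 M → M = ⊥
  even : ∃ t : Γ, orderOf t = 2
  syl : ∀ v : V, v ≠ 1 → ∃ P : Sylow 2 Γ, (∀ g ∈ P, φ g v = v) ∧
    (∀ g, φ g v = v → g ∈ normalizer (P : Set Γ))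
  free : ∀ b g : Γ, Odd (orderOf b) → g * b * g⁻¹ = b⁻¹ → b ≠ 1 → ∀ v, φ b v = v → v = 1
  cop : ∀ b g : Γ, Odd (orderOf b) → g * b * g⁻¹ = b⁻¹ → ∀ v : V, v ≠ 1 →
    (centralizer ({b} : Set Γ)).index.Coprime (vst φ v).index

/-- elements of odd order have square roots -/
theorem exists_sqrt {G : Type*} [Group G] {x : G} (hx : Odd (orderOf x)) :
    ∃ y ∈ zpowers x, y * y = x := by
  obtain ⟨m, hm⟩ := hx
  refine ⟨x ^ (m + 1), pow_mem (mem_zpowers x) _, ?_⟩
  rw [← pow_add]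
  have e : m + 1 + (m + 1) = orderOf x + 1 := by omega
  rw [e, pow_succ, pow_orderOf_eq_one, one_mul]

theorem eq_one_of_odd_of_sq {G : Type*} [Group G] {x : G} (hx : Odd (orderOf x)) (h : x * x = 1) :
    x = 1 := by
  have h1 : orderOf x ∣ 2 := orderOf_dvd_of_pow_eq_one (by rw [pow_two, h])
  rcases (Nat.dvd_prime Nat.prime_two).1 h1 with h2 | h2
  · exact orderOf_eq_one_iff.1 h2
  · rw [h2] at hx
    exact absurd hx (by decide)

theorem sq_of_orderOf_two {G : Type*} [Group G] {t : G} (ht : orderOf t = 2) : t * t = 1 := by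
  rw [← pow_two, ← ht, pow_orderOf_eq_one]

theorem inv_of_orderOf_two {G : Type*} [Group G] {t : G} (ht : orderOf t = 2) : t⁻¹ = t :=
  inv_eq_of_mul_eq_one_left (sq_of_orderOf_two ht)

theorem orderOf_two_of_sq {G : Type*} [Group G] {t : G} (h : t * t = 1) (h1 : t ≠ 1) :
    orderOf t = 2 := by
  have h2 : orderOf t ∣ 2 := orderOf_dvd_of_pow_eq_one (by rw [pow_two, h])
  rcases (Nat.dvd_prime Nat.prime_two).1 h2 with h3 | h3
  · exact absurd (orderOf_eq_one_iff.1 h3) h1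
  · exact h3

theorem odd_of_mem_zpowers {G : Type*} [Group G] {x y : G} (hx : Odd (orderOf x))
    (hy : y ∈ zpowers x) : Odd (orderOf y) := by
  have h1 : orderOf y ∣ orderOf x := by
    obtain ⟨k, rfl⟩ := mem_zpowers_iff.1 hy
    exact orderOf_dvd_of_pow_eq_one (by
      rw [← zpow_natCast, ← zpow_mul, mul_comm, zpow_mul, zpow_natCast, pow_orderOf_eq_one, one_zpow])
  exact Odd.of_dvd_nat hx h1

theorem inverts_of_mem_zpowers {G : Type*} [Group G] {x y t : G} (hx : t * x * t⁻¹ = x⁻¹)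
    (hy : y ∈ zpowers x) : t * y * t⁻¹ = y⁻¹ := by
  obtain ⟨k, rfl⟩ := mem_zpowers_iff.1 hy
  have := congrArg (fun z => z ^ k) hx
  rw [conj_zpow, inv_zpow] at this
  exact this

theorem mem_smul_sylow {G : Type*} [Group G] (P : Sylow 2 G) (g x : G) :
    x ∈ g • P ↔ g⁻¹ * x * g ∈ P := by
  have h1 : x ∈ g • P ↔ x ∈ (MulAut.conj g • (P : Subgroup G) : Subgroup G) := Iff.rfl
  rw [h1, Subgroup.mem_pointwise_smul_iff_inv_smul_mem]
  have e : (MulAut.conj g)⁻¹ • x = g⁻¹ * x * g := by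
    rw [← map_inv, MulAut.smul_def, MulAut.conj_apply, inv_inv]
  rw [e]
  rfl

namespace TwoSpread

variable {Γ V : Type*} [Group Γ] [Finite Γ] [CommGroup V] [Finite V] {φ : Γ →* MulAut V}

theorem pgroup (h : TwoSpread φ) : IsPGroup 2 V := fun v => ⟨1, by
  rw [pow_one, pow_two]; exact h.sq v⟩

omit [Finite Γ] [Finite V] in
theorem inv_eq (h : TwoSpread φ) (v : V) : v⁻¹ = v := inv_eq_of_mul_eq_one_left (h.sq v)

omit [Finite V] in
/-- S1 -/
theorem exists_vec (h : TwoSpread φ) (P : Sylow 2 Γ) : ∃ v : V, v ≠ 1 ∧ (∀ g ∈ P, φ g v = v) ∧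
    (∀ g, φ g v = v → g ∈ normalizer (P : Set Γ)) := by
  obtain ⟨v₀, hv₀⟩ := h.nt
  obtain ⟨Q, hQ1, hQ2⟩ := h.syl v₀ hv₀
  obtain ⟨g, hg⟩ := MulAction.exists_smul_eq Γ Q P
  refine ⟨φ g v₀, ?_, ?_, ?_⟩
  · intro hc
    apply hv₀
    have : φ g v₀ = φ g 1 := by rw [hc, map_one]
    exact (φ g).injective this
  · intro x hx
    rw [← hg] at hx
    have h1 : g⁻¹ * x * g ∈ Q := (mem_smul_sylow Q g x).1 hx
    have h2 := hQ1 _ h1
    have e : φ x (φ g v₀) = φ g (φ (g⁻¹ * x * g) v₀) := by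
      rw [← MulAut.mul_apply, ← MulAut.mul_apply, ← map_mul, ← map_mul]
      congr 2
      group
    rw [e, h2]
  · intro x hx
    have h1 : φ (g⁻¹ * x * g) v₀ = v₀ := by
      have e : φ (g⁻¹ * x * g) v₀ = (φ g)⁻¹ (φ x (φ g v₀)) := by
        rw [map_mul, map_mul, map_inv]; rfl
      rw [e, hx, MulAut.inv_apply_self]
    have h2 := hQ2 _ h1
    rw [← Sylow.smul_eq_iff_mem_normalizer] at h2 ⊢
    rw [← hg, smul_smul]
    conv_rhs => rw [← h2]
    rw [smul_smul]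
    congr 1
    group


omit [Finite V] in
/-- a 2-element fixing a vector is in the Sylow subgroup of the vector -/
theorem mem_of_two {P : Sylow 2 Γ} {v : V} (hP : ∀ g, φ g v = v → g ∈ normalizer (P : Set Γ))
    {t : Γ} (ht : ∃ k : ℕ, t ^ 2 ^ k = 1) (hv : φ t v = v) : t ∈ P := by
  obtain ⟨k, hk⟩ := ht
  exact Cfsg.Agent.Transfer.mem_sylow_of_mem_normalizer (hP t hv) hk

omit [Finite V] in
/-- centralizers of real elements of odd order are transitive on the Sylow 2-subgroups -/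
theorem trans (h : TwoSpread φ) {b g : Γ} (hb : Odd (orderOf b)) (hg : g * b * g⁻¹ = b⁻¹)
    (P Q : Sylow 2 Γ) : ∃ c : Γ, c * b = b * c ∧ c • P = Q := by
  obtain ⟨v, hv, hv1, hv2⟩ := h.exists_vec P
  obtain ⟨x, hx⟩ := MulAction.exists_smul_eq Γ P Q
  obtain ⟨c, hc, d, hd, e⟩ := Cfsg.Agent.H72.exists_mul_of_coprime_index (h.cop b g hb hg v hv) x
  refine ⟨c, mem_centralizer_singleton_iff.1 hc, ?_⟩
  have h1 : d • P = P := by
    rw [Sylow.smul_eq_iff_mem_normalizer]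
    exact hv2 d hd
  rw [← hx, e, mul_smul, h1]

omit [Finite V] in
/-- a 2-subgroup normalized by the centralizer of a real element of odd order is trivial -/
theorem eq_bot_of_centralizer (h : TwoSpread φ) {b g : Γ} (hb : Odd (orderOf b))
    (hg : g * b * g⁻¹ = b⁻¹) (M : Subgroup Γ) (hM : IsPGroup 2 M)
    (hn : ∀ c : Γ, c * b = b * c → ∀ m ∈ M, c * m * c⁻¹ ∈ M) : M = ⊥ := by
  obtain ⟨P, hP⟩ := hM.exists_le_sylow
  have h1 : M ≤ (P : Subgroup Γ).normalCore := by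
    intro m hm a
    obtain ⟨c, hc, hcP⟩ := h.trans hb hg (a⁻¹ • P) P
    -- `c⁻¹ m' c`
    have h2 : m ∈ (a⁻¹ • P : Sylow 2 Γ) := by
      obtain ⟨c, hc, hcP⟩ := h.trans hb hg P (a⁻¹ • P)
      rw [← hcP, mem_smul_sylow]
      apply hP
      have hc' : c⁻¹ * b = b * c⁻¹ := by
        have : Commute c b := hc
        exact this.inv_left
      have := hn c⁻¹ hc' m hm
      rwa [inv_inv] at this
    rw [mem_smul_sylow, inv_inv] at h2
    exact h2
  have h2 := h.core (P : Subgroup Γ).normalCore inferInstance (P.2.to_le (normalCore_le _))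
  rw [h2] at h1
  exact le_bot_iff.1 h1

omit [Finite V] in
/-- S2 -/
theorem exists_inverted (h : TwoSpread φ) {t : Γ} (ht : orderOf t = 2) :
    ∃ x : Γ, x ≠ 1 ∧ Odd (orderOf x) ∧ t * x * t⁻¹ = x⁻¹ :=
  Cfsg.Agent.S0200.result t ht (fun N hN hp htN => by
    rw [h.core N hN hp, mem_bot] at htN
    rw [htN, orderOf_one] at ht
    exact absurd ht (by norm_num))

omit [Finite Γ] [Finite V] in
theorem vfx_conj (g t : Γ) (v : V) : φ (g * t * g⁻¹) v = v ↔ φ t ((φ g)⁻¹ v) = (φ g)⁻¹ v := by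
  rw [map_mul, map_mul, map_inv, MulAut.mul_apply, MulAut.mul_apply]
  constructor
  · intro h
    conv_rhs => rw [← h]
    rw [MulAut.inv_apply_self]
  · intro h
    rw [h, MulAut.apply_inv_self]

omit [Finite Γ] in
theorem card_vfx_conj (g t : Γ) : Nat.card (vfx φ (g * t * g⁻¹)) = Nat.card (vfx φ t) := by
  apply Nat.card_congr
  refine ⟨fun v => ⟨(φ g)⁻¹ v, (vfx_conj g t v.1).1 v.2⟩,
    fun v => ⟨φ g v, (vfx_conj g t (φ g v)).2 ?_⟩, ?_, ?_⟩
  · rw [MulAut.inv_apply_self]; exact v.2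
  · intro v; ext; simp
  · intro v; ext; simp

omit [Finite Γ] in
/-- S3, lower bound -/
theorem card_le (h : TwoSpread φ) {t : Γ} (ht : t * t = 1) :
    Nat.card V ≤ Nat.card (vfx φ t) * Nat.card (vfx φ t) := by
  let f : V →* V :=
    { toFun := fun v => v * φ t v
      map_one' := by simp
      map_mul' := by
        intro a b
        rw [map_mul]
        exact mul_mul_mul_comm a b (φ t a) (φ t b) }
  have hf : ∀ v, f v = v * φ t v := fun v => rfl
  have h1 : f.ker = vfx φ t := by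
    ext v
    rw [MonoidHom.mem_ker, hf, mem_vfx, mul_eq_one_iff_eq_inv', h.inv_eq]
  have h2 : f.range ≤ vfx φ t := by
    rintro _ ⟨v, rfl⟩
    rw [mem_vfx, hf, map_mul, ← MulAut.mul_apply, ← map_mul, ht, map_one, MulAut.one_apply, mul_comm]
  have h3 : Nat.card V = Nat.card f.range * Nat.card f.ker := by
    rw [Subgroup.card_eq_card_quotient_mul_card_subgroup f.ker,
      Nat.card_congr (QuotientGroup.quotientKerEquivRange f).toEquiv]
  rw [h3, h1]
  exact Nat.mul_le_mul_right _ (card_le_of_le h2)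

/-- S3 -/
theorem card_eq (h : TwoSpread φ) {t : Γ} (ht : orderOf t = 2) :
    Nat.card (vfx φ t) * Nat.card (vfx φ t) = Nat.card V := by
  apply le_antisymm _ (h.card_le (sq_of_orderOf_two ht))
  obtain ⟨x, hx1, hxo, hxt⟩ := h.exists_inverted ht
  obtain ⟨y, hy, hyx⟩ := exists_sqrt hxo
  have hyt := inverts_of_mem_zpowers hxt hy
  have e : y⁻¹ * t * (y⁻¹)⁻¹ = t * x := by
    rw [inv_inv, ← hyx]
    have : y⁻¹ * t = t * y := by
      rw [← hyt]; group
    rw [this, mul_assoc]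
  have h1 : Nat.card (vfx φ (t * x)) = Nat.card (vfx φ t) := by
    rw [← e]; exact card_vfx_conj _ _
  conv_lhs => rw [← h1]
  rw [h1]
  have h2 : Function.Injective (fun p : vfx φ t × vfx φ (t * x) => (p.1 : V) * p.2) := by
    rintro ⟨a, b⟩ ⟨c, d⟩ hcd
    simp only at hcd
    have h3 : (c : V)⁻¹ * a = d * (b : V)⁻¹ := by
      rw [inv_mul_eq_iff_eq_mul, ← mul_assoc, eq_mul_inv_iff_mul_eq]; exact hcd
    have h4 : (c : V)⁻¹ * a ∈ vfx φ t := mul_mem (inv_mem c.2) a.2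
    have h5 : (c : V)⁻¹ * a ∈ vfx φ (t * x) := by rw [h3]; exact mul_mem d.2 (inv_mem b.2)
    have h6 : φ x ((c : V)⁻¹ * a) = (c : V)⁻¹ * a := by
      have e1 : x = t * (t * x) := by rw [← mul_assoc, sq_of_orderOf_two ht, one_mul]
      rw [e1, act_mul, (show φ (t * x) _ = _ from h5)]
      exact h4
    have h7 := h.free x t hxo hxt hx1 _ h6
    have h8 : (a : V) = c := by
      have := inv_mul_eq_one.1 h7
      exact this.symm
    rw [h7] at h3
    have h9 : (b : V) = d := by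
      have := (mul_inv_eq_one.1 h3.symm)
      exact this.symm
    exact Prod.ext (Subtype.ext h8) (Subtype.ext h9)
  have h3 := Nat.card_le_card_of_injective _ h2
  rw [Nat.card_prod, h1] at h3
  exact h3


/-- all involutions have the same number of fixed vectors -/
theorem card_eq_of (h : TwoSpread φ) {t t' : Γ} (ht : orderOf t = 2) (ht' : orderOf t' = 2) :
    Nat.card (vfx φ t) = Nat.card (vfx φ t') :=
  Nat.mul_self_inj.1 ((h.card_eq ht).trans (h.card_eq ht').symm)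

/-- S4 -/
theorem exists_param (h : TwoSpread φ) : ∃ m : ℕ, 0 < m ∧ Nat.card V = 2 ^ m * 2 ^ m ∧
    ∀ t : Γ, orderOf t = 2 → Nat.card (vfx φ t) = 2 ^ m := by
  obtain ⟨t, ht⟩ := h.even
  have : Fact (Nat.Prime 2) := ⟨Nat.prime_two⟩
  obtain ⟨m, hm⟩ := IsPGroup.iff_card.1 (h.pgroup.to_subgroup (vfx φ t))
  refine ⟨m, ?_, ?_, fun t' ht' => (h.card_eq_of ht' ht).trans hm⟩
  · rcases Nat.eq_zero_or_pos m with rfl | hm0
    · exfalso
      have h1 := h.card_eq ht
      rw [hm, pow_zero, one_mul] at h1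
      obtain ⟨v, hv⟩ := h.nt
      have h2 : Subsingleton V := (Nat.card_eq_one_iff_unique.1 h1.symm).1
      exact hv (Subsingleton.elim _ _)
    · exact hm0
  · rw [← hm, h.card_eq ht]

/-- a subgroup acting freely on an invariant set of vectors `W ∖ 1` -/
theorem card_dvd_of_free {Γ V : Type*} [Group Γ] [Finite Γ] [Group V] [Finite V]
    (φ : Γ →* MulAut V) (H : Subgroup Γ) (W : Subgroup V)
    (hW : ∀ g ∈ H, ∀ w ∈ W, φ g w ∈ W)
    (hf : ∀ g ∈ H, ∀ w ∈ W, φ g w = w → w ≠ 1 → g = 1) : Nat.card H ∣ Nat.card W - 1 := by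
  let ψ : H →* MulAut W :=
    { toFun := fun g =>
        { toFun := fun w => ⟨φ g w, hW g g.2 w w.2⟩
          invFun := fun w => ⟨φ (g⁻¹ : H) w, hW _ (g⁻¹).2 w w.2⟩
          left_inv := by
            intro w
            apply Subtype.ext
            change φ ((g⁻¹ : H) : Γ) (φ g w) = w
            rw [← act_mul]
            simp
          right_inv := by
            intro w
            apply Subtype.ext
            change φ g (φ ((g⁻¹ : H) : Γ) w) = w
            rw [← act_mul]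
            simp
          map_mul' := by
            intro a b
            apply Subtype.ext
            change φ g ((a : V) * b) = φ g a * φ g b
            rw [map_mul] }
      map_one' := by
        ext w
        change φ ((1 : H) : Γ) w = w
        simp
      map_mul' := by
        intro a b
        ext w
        change φ ((a * b : H) : Γ) w = φ a (φ b w)
        rw [← act_mul]; rfl }
  apply Cfsg.Agent.Frob.IsFPF.card_dvd (φ := ψ)
  intro g hg w hw
  by_contra hw1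
  apply hg
  have h1 : φ g w = w := congrArg Subtype.val hw
  have h2 := hf g g.2 w w.2 h1 (fun hc => hw1 (Subtype.ext hc))
  exact Subtype.ext h2

omit [Finite V] in
/-- order of a freely acting element -/
theorem orderOf_dvd_of_real [Finite V] (h : TwoSpread φ) {b g : Γ} (hb : Odd (orderOf b))
    (hg : g * b * g⁻¹ = b⁻¹) (W : Subgroup V) (hW : ∀ w ∈ W, φ b w ∈ W) :
    orderOf b ∣ Nat.card W - 1 := by
  rw [← Nat.card_zpowers]
  have hWinv : ∀ w ∈ W, (φ b)⁻¹ w ∈ W := by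
    intro w hw
    have hbij : Function.Bijective (fun w : W => (⟨φ b w, hW w w.2⟩ : W)) := by
      apply Finite.injective_iff_bijective.1
      intro a c hac
      exact Subtype.ext ((φ b).injective (congrArg Subtype.val hac))
    obtain ⟨u, hu⟩ := hbij.2 ⟨w, hw⟩
    have hu' : φ b u = w := congrArg Subtype.val hu
    rw [← hu', MulAut.inv_apply_self]
    exact u.2
  apply card_dvd_of_free φ (zpowers b) W
  · intro x hx
    obtain ⟨k, rfl⟩ := mem_zpowers_iff.1 hx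
    induction k using Int.induction_on with
    | zero => intro w hw; simpa using hw
    | succ k ih =>
      intro w hw
      rw [zpow_add_one, act_mul]
      exact ih (zpow_mem (mem_zpowers b) _) _ (hW w hw)
    | pred k ih =>
      intro w hw
      rw [zpow_sub_one, act_mul, map_inv]
      exact ih (zpow_mem (mem_zpowers b) _) _ (hWinv w hw)
  · intro x hx w hw hxw hw1
    by_contra hx1
    exact hw1 (h.free x g (odd_of_mem_zpowers hb hx) (inverts_of_mem_zpowers hg hx) hx1 w hxw)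


/-- S5, for commuting elements -/
theorem exists_gen (h : TwoSpread φ) {t x a : Γ} (hx : Odd (orderOf x)) (hxt : t * x * t⁻¹ = x⁻¹)
    (ha : Odd (orderOf a)) (hat : t * a * t⁻¹ = a⁻¹) (hc : a * x = x * a) :
    ∃ y : Γ, Odd (orderOf y) ∧ t * y * t⁻¹ = y⁻¹ ∧ x ∈ zpowers y ∧ a ∈ zpowers y := by
  have hcom : Commute x a := hc.symm
  have hmul : ∀ i j k l : ℤ, (x ^ i * a ^ j) * (x ^ k * a ^ l) = x ^ (i + k) * a ^ (j + l) := by
    intro i j k l
    have h1 : a ^ j * x ^ k = x ^ k * a ^ j := (hcom.zpow_zpow k j).symm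
    rw [zpow_add, zpow_add, mul_assoc, ← mul_assoc (a ^ j), h1]
    simp only [mul_assoc]
  let B : Subgroup Γ :=
    { carrier := {y | ∃ i j : ℤ, y = x ^ i * a ^ j}
      one_mem' := ⟨0, 0, by simp⟩
      mul_mem' := by
        rintro _ _ ⟨i, j, rfl⟩ ⟨k, l, rfl⟩
        exact ⟨i + k, j + l, hmul i j k l⟩
      inv_mem' := by
        rintro _ ⟨i, j, rfl⟩
        refine ⟨-i, -j, ?_⟩
        rw [inv_eq_iff_mul_eq_one, hmul]
        simp }
  have hBmem : ∀ y : Γ, y ∈ B ↔ ∃ i j : ℤ, y = x ^ i * a ^ j := fun y => Iff.rfl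
  let inst : CommGroup B := { (inferInstance : Group B) with
    mul_comm := by
      rintro ⟨_, i, j, rfl⟩ ⟨_, k, l, rfl⟩
      apply Subtype.ext
      change (x ^ i * a ^ j) * (x ^ k * a ^ l) = (x ^ k * a ^ l) * (x ^ i * a ^ j)
      rw [hmul, hmul, add_comm i, add_comm j] }
  have hodd : ∀ y ∈ B, Odd (orderOf y) := by
    rintro _ ⟨i, j, rfl⟩
    have h1 : orderOf (x ^ i * a ^ j) ∣ orderOf x * orderOf a := by
      apply orderOf_dvd_of_pow_eq_one
      have hc2 : Commute (x ^ i) (a ^ j) := hcom.zpow_zpow i j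
      rw [hc2.mul_pow]
      have e1 : (x ^ i) ^ (orderOf x * orderOf a) = 1 := by
        rw [pow_mul, ← zpow_natCast (x ^ i), ← zpow_mul, mul_comm i, zpow_mul, zpow_natCast,
          pow_orderOf_eq_one, one_zpow, one_pow]
      have e2 : (a ^ j) ^ (orderOf x * orderOf a) = 1 := by
        rw [mul_comm, pow_mul, ← zpow_natCast (a ^ j), ← zpow_mul, mul_comm j, zpow_mul,
          zpow_natCast, pow_orderOf_eq_one, one_zpow, one_pow]
      rw [e1, e2, one_mul]
    exact Odd.of_dvd_nat (hx.mul ha) h1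
  have hinv : ∀ y ∈ B, t * y * t⁻¹ = y⁻¹ := by
    rintro _ ⟨i, j, rfl⟩
    have e1 : t * x ^ i * t⁻¹ = (x ^ i)⁻¹ := inverts_of_mem_zpowers hxt (zpow_mem (mem_zpowers x) i)
    have e2 : t * a ^ j * t⁻¹ = (a ^ j)⁻¹ := inverts_of_mem_zpowers hat (zpow_mem (mem_zpowers a) j)
    have e3 : t * (x ^ i * a ^ j) * t⁻¹ = (t * x ^ i * t⁻¹) * (t * a ^ j * t⁻¹) := by group
    rw [e3, e1, e2, ← mul_inv_rev]
    congr 1
    exact (hcom.zpow_zpow i j).symm
  have hnt : Nontrivial V := by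
    obtain ⟨v, hv⟩ := h.nt
    exact ⟨v, 1, hv⟩
  have hcyc : IsCyclic B := by
    apply Cfsg.Agent.Frob.IsFPF.isCyclic_of_comm (φ := φ.comp B.subtype)
    intro y hy w hw
    exact h.free y t (hodd y y.2) (hinv y y.2) (fun hc => hy (Subtype.ext hc)) w hw
  obtain ⟨y, hy⟩ := hcyc.exists_generator
  have hmem : ∀ z ∈ B, z ∈ zpowers (y : Γ) := by
    intro z hz
    obtain ⟨k, hk⟩ := mem_zpowers_iff.1 (hy ⟨z, hz⟩)
    exact ⟨k, by simpa using congrArg Subtype.val hk⟩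
  exact ⟨y, hodd y y.2, hinv y y.2, hmem x ⟨1, 0, by simp⟩, hmem a ⟨0, 1, by simp⟩⟩

/-- S5 -/
theorem exists_max (h : TwoSpread φ) {t b : Γ} (ht : orderOf t = 2) (hb : Odd (orderOf b))
    (hbt : t * b * t⁻¹ = b⁻¹) : ∃ x : Γ, IsMaxInv t x ∧ b ∈ zpowers x := by
  classical
  obtain ⟨x, ⟨hx1, hx2, hx3⟩, hmax⟩ := Set.exists_max_image
    {x : Γ | Odd (orderOf x) ∧ t * x * t⁻¹ = x⁻¹ ∧ b ∈ zpowers x} orderOf (Set.toFinite _)
    ⟨b, hb, hbt, mem_zpowers b⟩
  have key : ∀ a : Γ, Odd (orderOf a) → a * x = x * a → t * a * t⁻¹ = a⁻¹ → a ∈ zpowers x := by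
    intro a ha hc hat
    obtain ⟨y, hy1, hy2, hxy, hay⟩ := h.exists_gen hx1 hx2 ha hat hc
    have hle : zpowers x ≤ zpowers y := by rwa [zpowers_le]
    have h1 := hmax y ⟨hy1, hy2, hle hx3⟩
    have h2 : zpowers x = zpowers y := by
      apply eq_of_le_of_card_ge hle
      rw [Nat.card_zpowers, Nat.card_zpowers]
      exact h1
    rwa [h2]
  refine ⟨x, ⟨hx1, hx2, ?_, key⟩, hx3⟩
  rintro rfl
  obtain ⟨z, hz1, hz2, hz3⟩ := h.exists_inverted ht
  have := key z hz2 (by simp) hz3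
  rw [zpowers_one_eq_bot, mem_bot] at this
  exact hz1 this


omit [Finite V] in
/-- S6 -/
theorem comm_mem_zpowers (h : TwoSpread φ) {t x : Γ} (ht : orderOf t = 2) (hx : IsMaxInv t x)
    {c : Γ} (hc : c * x = x * c) : t * (c * t * c⁻¹) ∈ zpowers x := by
  classical
  obtain ⟨hxo, hxt, hx1, hmax⟩ := hx
  have : Fact (Nat.Prime 2) := ⟨Nat.prime_two⟩
  have hinv : ∀ g : Γ, g * x * g⁻¹ = x⁻¹ → g * x⁻¹ * g⁻¹ = x := by
    intro g hg
    have := congrArg (fun z => z⁻¹) hg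
    simp only [mul_inv_rev, inv_inv] at this
    rw [← mul_assoc] at this
    exact this
  let Cs : Subgroup Γ :=
    { carrier := {g | g * x * g⁻¹ = x ∨ g * x * g⁻¹ = x⁻¹}
      one_mem' := by left; simp
      mul_mem' := by
        intro a b ha hb
        have e : a * b * x * (a * b)⁻¹ = a * (b * x * b⁻¹) * a⁻¹ := by group
        change a * b * x * (a * b)⁻¹ = x ∨ a * b * x * (a * b)⁻¹ = x⁻¹
        rw [e]
        rcases hb with hb | hb
        · rw [hb]; exact ha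
        · rw [hb]
          rcases ha with ha | ha
          · right
            have := congrArg (fun z => z⁻¹) ha
            simp only [mul_inv_rev, inv_inv] at this
            rw [← mul_assoc] at this
            exact this
          · left; exact hinv a ha
      inv_mem' := by
        intro a ha
        change a⁻¹ * x * a⁻¹⁻¹ = x ∨ a⁻¹ * x * a⁻¹⁻¹ = x⁻¹
        rcases ha with ha | ha
        · left
          conv_lhs => rw [← ha]
          group
        · right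
          have h1 := hinv a ha
          conv_lhs => rw [← h1]
          group }
  have hCs : ∀ g, g ∈ Cs ↔ (g * x * g⁻¹ = x ∨ g * x * g⁻¹ = x⁻¹) := fun g => Iff.rfl
  have htC : t ∈ Cs := Or.inr hxt
  have hcC : c ∈ Cs := Or.inl (by rw [hc, mul_inv_cancel_right])
  have hxC : x ∈ Cs := Or.inl (by group)
  let X : Subgroup Cs := (zpowers x).subgroupOf Cs
  have hXn : X.Normal := by
    refine ⟨fun y hy g => ?_⟩
    have hy' : (y : Γ) ∈ zpowers x := hy
    change (g : Γ) * y * (g : Γ)⁻¹ ∈ zpowers x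
    obtain ⟨k, hk⟩ := mem_zpowers_iff.1 hy'
    rw [← hk, ← conj_zpow]
    rcases g.2 with hg | hg
    · rw [hg]; exact zpow_mem (mem_zpowers x) k
    · rw [hg]; exact zpow_mem (inv_mem (mem_zpowers x)) k
  let Cc : Subgroup Cs := (centralizer ({x} : Set Γ)).subgroupOf Cs
  have hCc : ∀ g : Cs, g ∈ Cc ↔ (g : Γ) * x = x * g := by
    intro g
    change (g : Γ) ∈ centralizer ({x} : Set Γ) ↔ _
    exact mem_centralizer_singleton_iff
  have hconjinv : ∀ g : Cs, (g * t * (g : Γ)⁻¹) * x * (g * t * (g : Γ)⁻¹)⁻¹ = x⁻¹ := by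
    intro g
    have h0 : (g : Γ)⁻¹ ∈ Cs := inv_mem g.2
    rcases h0 with h0 | h0
    · rw [inv_inv] at h0
      have e : (g * t * (g : Γ)⁻¹) * x * (g * t * (g : Γ)⁻¹)⁻¹ =
        g * (t * ((g : Γ)⁻¹ * x * g) * t⁻¹) * (g : Γ)⁻¹ := by group
      rw [e, h0, hxt]
      have e2 := congrArg (fun z => g * z⁻¹ * (g : Γ)⁻¹) h0
      rw [← e2]; group
    · rw [inv_inv] at h0
      have e : (g * t * (g : Γ)⁻¹) * x * (g * t * (g : Γ)⁻¹)⁻¹ =
        g * (t * ((g : Γ)⁻¹ * x * g) * t⁻¹) * (g : Γ)⁻¹ := by group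
      rw [e, h0, hinv t hxt]
      have e2 := congrArg (fun z => g * z⁻¹ * (g : Γ)⁻¹) h0
      simp only [inv_inv] at e2
      rw [← e2]; group
  have hcomm2 : ∀ a b : Γ, a * x * a⁻¹ = x⁻¹ → b * x * b⁻¹ = x⁻¹ → (a * b) * x = x * (a * b) := by
    intro a b ha hb
    rw [← mul_inv_eq_iff_eq_mul]
    have e : a * b * x * (a * b)⁻¹ = a * (b * x * b⁻¹) * a⁻¹ := by group
    rw [e, hb]
    exact hinv a ha
  have hCcn : Cc.Normal := by
    refine ⟨fun y hy g => ?_⟩
    rw [hCc] at hy ⊢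
    have h0 : (g : Γ)⁻¹ ∈ Cs := inv_mem g.2
    change ((g : Γ) * y * (g : Γ)⁻¹) * x = x * ((g : Γ) * y * (g : Γ)⁻¹)
    rw [← mul_inv_eq_iff_eq_mul]
    have e : (g : Γ) * y * (g : Γ)⁻¹ * x * ((g : Γ) * y * (g : Γ)⁻¹)⁻¹ =
      g * (y * ((g : Γ)⁻¹ * x * (g : Γ)⁻¹⁻¹) * (y : Γ)⁻¹) * (g : Γ)⁻¹ := by group
    have hyx : (y : Γ) * x * (y : Γ)⁻¹ = x := by rw [hy, mul_inv_cancel_right]
    have hyx' : (y : Γ) * x⁻¹ * (y : Γ)⁻¹ = x⁻¹ := by
      have := congrArg (fun z => z⁻¹) hyx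
      simp only [mul_inv_rev, inv_inv] at this
      rw [← mul_assoc] at this
      exact this
    rw [e]
    rcases h0 with h0 | h0
    · rw [h0, hyx]
      have e2 := congrArg (fun z => g * z * (g : Γ)⁻¹) h0
      rw [← e2]; group
    · rw [h0, hyx']
      have e2 := congrArg (fun z => g * z * (g : Γ)⁻¹) h0
      rw [← e2]; group
  let t' : Cs := ⟨t, htC⟩
  have ht2 := sq_of_orderOf_two ht
  have hti := inv_of_orderOf_two ht
  -- Baer-Suzuki
  obtain ⟨N, hNn, hNp, htN⟩ := Cfsg.Agent.H4.baer_suzuki_elem (p := 2) (QuotientGroup.mk' X t') (by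
    intro g
    obtain ⟨g, rfl⟩ := QuotientGroup.mk'_surjective X g
    apply Cfsg.Agent.H67.isPGroup_closure_pair_of_involutions
    · rw [← map_pow]
      have : t' ^ 2 = 1 := Subtype.ext (by change t ^ 2 = 1; rw [pow_two, ht2])
      rw [this, map_one]
    · rw [conj_pow, ← map_pow]
      have : t' ^ 2 = 1 := Subtype.ext (by change t ^ 2 = 1; rw [pow_two, ht2])
      rw [this, map_one, mul_one, mul_inv_cancel]
    · set w : Cs := t' * (g * t' * g⁻¹) with hw
      have hwt : t * (w : Γ) * t⁻¹ = (w : Γ)⁻¹ := by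
        have e0 : (w : Γ) = t * (g * t * (g : Γ)⁻¹) := rfl
        rw [e0, mul_inv_rev, mul_inv_rev, mul_inv_rev, inv_inv, hti]
        have e1 : t * (t * (g * t * (g : Γ)⁻¹)) * t = (t * t) * (g * t * (g : Γ)⁻¹) * t := by group
        rw [e1, ht2, one_mul, mul_assoc (g : Γ)]
      have hwx : (w : Γ) * x = x * w := hcomm2 _ _ hxt (hconjinv g)
      obtain ⟨k, m, hm, hkm⟩ := Nat.exists_eq_two_pow_mul_odd (orderOf_pos (w : Γ)).ne'
      have h2 : orderOf ((w : Γ) ^ (2 ^ k)) = m := by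
        rw [orderOf_pow, hkm, Nat.gcd_eq_right (dvd_mul_right _ _),
          Nat.mul_div_cancel_left _ (by positivity)]
      have h3 : (w : Γ) ^ (2 ^ k) ∈ zpowers x := by
        apply hmax
        · rw [h2]; exact hm
        · exact ((show Commute (w : Γ) x from hwx).pow_left _)
        · rw [← conj_pow, hwt, inv_pow]
      have h4 : (QuotientGroup.mk' X w) ^ (2 ^ k) = 1 := by
        rw [← map_pow, QuotientGroup.mk'_apply, QuotientGroup.eq_one_iff]
        exact h3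
      have h5 : (QuotientGroup.mk' X t') * (QuotientGroup.mk' X g * QuotientGroup.mk' X t' *
          (QuotientGroup.mk' X g)⁻¹) = QuotientGroup.mk' X w := by
        rw [hw, map_mul, map_mul, map_mul, map_inv]
      rw [h5]
      obtain ⟨j, -, hj⟩ := (Nat.dvd_prime_pow Nat.prime_two).1 (orderOf_dvd_of_pow_eq_one h4)
      exact ⟨j, hj⟩)
  let M : Subgroup Cs := N.comap (QuotientGroup.mk' X)
  have hMn : M.Normal := hNn.comap _
  let D : Subgroup Cs := M ⊓ Cc
  have hDn : D.Normal := inferInstance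
  have hDx : ∀ y ∈ D, Odd (orderOf y) → (y : Γ) ∈ zpowers x := by
    intro y hy hyo
    obtain ⟨k, hk⟩ := hNp ⟨QuotientGroup.mk' X y, hy.1⟩
    have h1 : QuotientGroup.mk' X (y ^ 2 ^ k) = 1 := by
      rw [map_pow]
      exact congrArg Subtype.val hk
    rw [QuotientGroup.mk'_apply, QuotientGroup.eq_one_iff] at h1
    have h2 : y ∈ zpowers (y ^ 2 ^ k) :=
      Cfsg.Agent.H67.mem_zpowers_pow_of_coprime ((Nat.coprime_two_left.2 hyo).symm.pow_right k)
    have h3 : y ∈ X := (zpowers_le.2 h1) h2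
    exact h3
  have T : Sylow 2 D := default
  have hTn : (T : Subgroup D).Normal := by
    apply Cfsg.Agent.H67.sylow_two_normal_of_no_odd_real
    intro y g hyo hg
    have h1 : Odd (orderOf (y : Cs)) := by
      have : orderOf (y : Cs) = orderOf y := orderOf_injective D.subtype D.subtype_injective y
      rw [this]; exact hyo
    have h2 := hDx y y.2 h1
    have h3 : ((g : Cs) : Γ) * x = x * ((g : Cs) : Γ) := (hCc g).1 g.2.2
    obtain ⟨k, hk⟩ := mem_zpowers_iff.1 h2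
    have h4 : ((g : Cs) : Γ) * ((y : Cs) : Γ) = ((y : Cs) : Γ) * ((g : Cs) : Γ) := by
      rw [← hk]
      exact ((show Commute ((g : Cs) : Γ) x from h3).zpow_right k)
    have h5 : g * y = y * g := Subtype.ext (Subtype.ext h4)
    rw [h5, mul_inv_cancel_right] at hg
    apply eq_one_of_odd_of_sq hyo
    conv_lhs => rw [hg]
    rw [inv_mul_eq_one]
    exact hg
  have hTc : (T : Subgroup D).Characteristic := T.characteristic_of_normal hTn
  have hT2n : ((T : Subgroup D).map D.subtype).Normal := inferInstance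
  have hTbot : (((T : Subgroup D).map D.subtype).map Cs.subtype) = ⊥ := by
    apply h.eq_bot_of_centralizer hxo hxt
    · exact (T.2.map _).map _
    · rintro d hd _ ⟨m, hm, rfl⟩
      have hdC : d ∈ Cs := Or.inl (by rw [hd, mul_inv_cancel_right])
      exact ⟨⟨d, hdC⟩ * m * ⟨d, hdC⟩⁻¹, hT2n.conj_mem m hm _, rfl⟩
  have hDodd : ∀ y ∈ D, Odd (orderOf y) := by
    intro y hy
    obtain ⟨k, m, hm, hkm⟩ := Nat.exists_eq_two_pow_mul_odd (orderOf_pos (⟨y, hy⟩ : D)).ne'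
    have h1 : ((⟨y, hy⟩ : D) ^ m) ∈ T := by
      apply Cfsg.Agent.Transfer.mem_sylow_of_mem_normalizer (k := k)
      · have := normalizer_eq_top_iff.2 hTn
        change _ ∈ normalizer ((T : Subgroup D) : Set D)
        rw [this]; trivial
      · rw [← pow_mul, mul_comm, ← hkm, pow_orderOf_eq_one]
    have h2 : ((y ^ m : Cs) : Γ) ∈ (((T : Subgroup D).map D.subtype).map Cs.subtype) :=
      ⟨y ^ m, ⟨_, h1, rfl⟩, rfl⟩
    rw [hTbot, mem_bot] at h2
    have h3 : y ^ m = 1 := Subtype.ext h2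
    exact Odd.of_dvd_nat hm (orderOf_dvd_of_pow_eq_one h3)
  have hfin : t' * (⟨c, hcC⟩ * t' * ⟨c, hcC⟩⁻¹) ∈ D := by
    exact ⟨mul_mem htN (hMn.conj_mem _ htN _), (hCc _).2 (hcomm2 _ _ hxt (hconjinv ⟨c, hcC⟩))⟩
  exact hDx _ hfin (hDodd _ hfin)


omit [Finite V] [Finite Γ] in
theorem orderOf_mul_two {t x z : Γ} (ht : orderOf t = 2) (hxo : Odd (orderOf x))
    (hxt : t * x * t⁻¹ = x⁻¹) (hz : z ∈ zpowers x) : orderOf (z * t) = 2 := by
  have h1 := inverts_of_mem_zpowers hxt hz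
  apply orderOf_two_of_sq
  · have e : z * t * (z * t) = z * (t * z * t⁻¹) * (t * t) := by group
    rw [e, h1, sq_of_orderOf_two ht, mul_one, mul_inv_cancel]
  · intro hc
    have h2 : t = z⁻¹ := (inv_eq_of_mul_eq_one_right hc).symm
    have h3 := odd_of_mem_zpowers hxo (inv_mem hz)
    rw [← h2, ht] at h3
    exact absurd h3 (by decide)

/-- S8, existence -/
theorem exists_fix (h : TwoSpread φ) {t x : Γ} (ht : orderOf t = 2) (hx : IsMaxInv t x) (v : V)
    (hv : v ≠ 1) : ∃ z ∈ zpowers x, φ (z * t) v = v := by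
  have : Fact (Nat.Prime 2) := ⟨Nat.prime_two⟩
  obtain ⟨P, hP1, hP2⟩ := h.syl v hv
  have htp : IsPGroup 2 (zpowers t) := IsPGroup.of_card (n := 1) (by rw [Nat.card_zpowers, ht, pow_one])
  obtain ⟨Q, hQ⟩ := htp.exists_le_sylow
  obtain ⟨c, hc, hcQ⟩ := h.trans hx.1 hx.2.1 Q P
  have h1 : c * t * c⁻¹ ∈ P := by
    rw [← hcQ, mem_smul_sylow]
    have e : c⁻¹ * (c * t * c⁻¹) * c = t := by group
    rw [e]
    exact hQ (mem_zpowers t)
  have h2 := h.comm_mem_zpowers ht hx hc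
  refine ⟨(t * (c * t * c⁻¹))⁻¹, inv_mem h2, ?_⟩
  have e : (t * (c * t * c⁻¹))⁻¹ * t = (c * t * c⁻¹)⁻¹ := by
    rw [mul_inv_rev, inv_of_orderOf_two ht, mul_assoc, sq_of_orderOf_two ht, mul_one]
  rw [e]
  exact hP1 _ (inv_mem h1)

/-- S8, uniqueness -/
theorem unique_fix (h : TwoSpread φ) {t x : Γ} (hx : IsMaxInv t x) (v : V)
    (hv : v ≠ 1) {z z' : Γ} (hz : z ∈ zpowers x) (hz' : z' ∈ zpowers x) (h1 : φ (z * t) v = v)
    (h2 : φ (z' * t) v = v) : z = z' := by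
  by_contra hne
  apply hv
  have h3 : z * z'⁻¹ ∈ zpowers x := mul_mem hz (inv_mem hz')
  apply h.free (z * z'⁻¹) t (odd_of_mem_zpowers hx.1 h3) (inverts_of_mem_zpowers hx.2.1 h3)
    (fun hc => hne (mul_inv_eq_one.1 hc)) v
  have e : z * z'⁻¹ = (z * t) * (z' * t)⁻¹ := by group
  rw [e]
  exact mul_mem (show z * t ∈ vst φ v from h1) (inv_mem (show z' * t ∈ vst φ v from h2))

theorem card_subtype_ne_one {W : Type*} [Group W] [Finite W] (F : Subgroup W) :
    Nat.card {v : W // v ∈ F ∧ v ≠ 1} = Nat.card F - 1 := by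
  classical
  have e : {v : W // v ∈ F ∧ v ≠ 1} ≃ {v : F // v ≠ 1} :=
    { toFun := fun v => ⟨⟨v.1, v.2.1⟩, fun hc => v.2.2 (congrArg Subtype.val hc)⟩
      invFun := fun v => ⟨v.1.1, v.1.2, fun hc => v.2 (Subtype.ext hc)⟩
      left_inv := fun v => rfl
      right_inv := fun v => rfl }
  rw [Nat.card_congr e]
  have : Fintype F := Fintype.ofFinite _
  rw [Nat.card_eq_fintype_card, Nat.card_eq_fintype_card, Fintype.card_subtype_compl]
  simp

/-- S8 -/
theorem orderOf_max (h : TwoSpread φ) {m : ℕ} (hm0 : 0 < m) (hV : Nat.card V = 2 ^ m * 2 ^ m)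
    (hF : ∀ t : Γ, orderOf t = 2 → Nat.card (vfx φ t) = 2 ^ m)
    {t x : Γ} (ht : orderOf t = 2) (hx : IsMaxInv t x) : orderOf x = 2 ^ m + 1 := by
  classical
  let f : (Σ z : zpowers x, {v : V // v ∈ vfx φ ((z : Γ) * t) ∧ v ≠ 1}) → {v : V // v ∈ (⊤ : Subgroup V) ∧ v ≠ 1} :=
    fun s => ⟨s.2.1, trivial, s.2.2.2⟩
  have hf : Function.Bijective f := by
    constructor
    · rintro ⟨z, v, hv1, hv2⟩ ⟨z', v', hv1', hv2'⟩ he
      have h1 : v = v' := congrArg (fun w : {v : V // v ∈ (⊤ : Subgroup V) ∧ v ≠ 1} => w.1) he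
      subst h1
      have h2 : z = z' := Subtype.ext (h.unique_fix hx v hv2 z.2 z'.2 hv1 hv1')
      subst h2
      rfl
    · rintro ⟨v, -, hv⟩
      obtain ⟨z, hz, hzv⟩ := h.exists_fix ht hx v hv
      exact ⟨⟨⟨z, hz⟩, v, hzv, hv⟩, rfl⟩
  have h1 := Nat.card_eq_of_bijective f hf
  have : Fintype (zpowers x) := Fintype.ofFinite _
  rw [Nat.card_sigma, card_subtype_ne_one, Subgroup.card_top, hV] at h1
  have h2 : ∀ z : zpowers x, Nat.card {v : V // v ∈ vfx φ ((z : Γ) * t) ∧ v ≠ 1} = 2 ^ m - 1 := by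
    intro z
    rw [card_subtype_ne_one, hF _ (orderOf_mul_two ht hx.1 hx.2.1 z.2)]
  rw [Finset.sum_congr rfl (fun z _ => h2 z), Finset.sum_const, smul_eq_mul, Finset.card_univ,
    ← Nat.card_eq_fintype_card, Nat.card_zpowers] at h1
  have h3 : 2 ≤ 2 ^ m := by
    calc 2 = 2 ^ 1 := (pow_one 2).symm
      _ ≤ 2 ^ m := Nat.pow_le_pow_right (by norm_num) hm0
  obtain ⟨c, hc⟩ : ∃ c, 2 ^ m = c + 1 := ⟨2 ^ m - 1, by omega⟩
  rw [hc] at h1 h3 ⊢
  have h4 : (c + 1) * (c + 1) - 1 = (c + 1 + 1) * c := by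
    have : (c + 1) * (c + 1) = (c + 1 + 1) * c + 1 := by ring
    omega
  rw [h4, Nat.add_sub_cancel] at h1
  exact Nat.eq_of_mul_eq_mul_right (by omega) h1

theorem pow_lemma {m k : ℕ} (hk : 0 < k) (hkm : k ≤ 2 * m) (h : 2 ^ m + 1 ∣ 2 ^ k - 1) : k = 2 * m := by
  have hk1 : 2 ≤ 2 ^ k := by
    calc 2 = 2 ^ 1 := (pow_one 2).symm
      _ ≤ 2 ^ k := Nat.pow_le_pow_right (by norm_num) hk
  rcases Nat.lt_or_ge m k with hlt | hge
  · by_contra hne
    have hlt2 : k - m < m := by omega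
    -- 2^k = 2^(k-m) * 2^m
    have h1 : 2 ^ k = 2 ^ (k - m) * 2 ^ m := by rw [← pow_add]; congr 1; omega
    have h2 : 2 ^ (k - m) * (2 ^ m + 1) = (2 ^ k - 1) + (2 ^ (k - m) + 1) := by
      rw [mul_add, mul_one, ← h1]; omega
    have h3 : 2 ^ m + 1 ∣ 2 ^ (k - m) + 1 := by
      rw [← Nat.dvd_add_right h, ← h2]
      exact dvd_mul_left _ _
    have h4 := Nat.le_of_dvd (by positivity) h3
    have h5 : 2 ^ (k - m) < 2 ^ m := Nat.pow_lt_pow_right (by norm_num) hlt2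
    omega
  · exfalso
    have h4 := Nat.le_of_dvd (by omega) h
    have h5 : 2 ^ k ≤ 2 ^ m := Nat.pow_le_pow_right (by norm_num) hge
    omega

/-- S9: the centralizer of `x` acts freely -/
theorem free_centralizer (h : TwoSpread φ) {m : ℕ} (hm0 : 0 < m) (hV : Nat.card V = 2 ^ m * 2 ^ m)
    (hF : ∀ t : Γ, orderOf t = 2 → Nat.card (vfx φ t) = 2 ^ m)
    {t x : Γ} (ht : orderOf t = 2) (hx : IsMaxInv t x) {g : Γ} (hg : g * x = x * g) {v : V}
    (hv : v ≠ 1) (hgv : φ g v = v) : g = 1 := by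
  have : Fact (Nat.Prime 2) := ⟨Nat.prime_two⟩
  have h1 : orderOf x ∣ Nat.card (vfx φ g) - 1 := by
    apply h.orderOf_dvd_of_real hx.1 hx.2.1
    intro w hw
    rw [mem_vfx, ← act_mul, hg, act_mul, (show φ g w = w from hw)]
  rw [h.orderOf_max hm0 hV hF ht hx] at h1
  obtain ⟨k, hk⟩ := IsPGroup.iff_card.1 (h.pgroup.to_subgroup (vfx φ g))
  rw [hk] at h1
  have hk0 : 0 < k := by
    rcases Nat.eq_zero_or_pos k with rfl | hk0
    · exfalso
      rw [pow_zero, Subgroup.card_eq_one] at hk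
      have : v ∈ vfx φ g := hgv
      rw [hk, mem_bot] at this
      exact hv this
    · exact hk0
  have hk2 : k ≤ 2 * m := by
    have h2 : Nat.card (vfx φ g) ∣ Nat.card V := card_subgroup_dvd_card _
    rw [hk, hV, ← pow_add, Nat.pow_dvd_pow_iff_le_right (by norm_num)] at h2
    omega
  have h3 := pow_lemma hk0 hk2 h1
  have h4 : vfx φ g = ⊤ := by
    apply Subgroup.eq_top_of_card_eq
    rw [hk, hV, h3, two_mul, pow_add]
  apply h.inj
  rw [map_one]
  ext w
  have : w ∈ vfx φ g := by rw [h4]; trivial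
  exact this


theorem two_lemma {m n : ℕ} (h1 : n ∣ 2 ^ m + 1) (h2 : n ∣ 2 ^ m - 1) : n ∣ 2 := by
  have h3 : 1 ≤ 2 ^ m := Nat.one_le_two_pow
  have h4 : 2 ^ m + 1 = (2 ^ m - 1) + 2 := by omega
  rw [h4] at h1
  exact (Nat.dvd_add_right h2).1 h1

theorem eq_one_of_odd_of_dvd_two {n : ℕ} (h1 : Odd n) (h2 : n ∣ 2) : n = 1 := by
  rcases (Nat.dvd_prime Nat.prime_two).1 h2 with h | h
  · exact h
  · rw [h] at h1; exact absurd h1 (by decide)

/-- S10 -/
theorem not_comm (h : TwoSpread φ) {m : ℕ} (hm0 : 0 < m) (hV : Nat.card V = 2 ^ m * 2 ^ m)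
    (hF : ∀ t : Γ, orderOf t = 2 → Nat.card (vfx φ t) = 2 ^ m)
    {t b τ : Γ} (ht : orderOf t = 2) (hb : Odd (orderOf b)) (hbt : t * b * t⁻¹ = b⁻¹) (hb1 : b ≠ 1)
    (hτ : orderOf τ = 2) (hc : τ * b = b * τ) : False := by
  obtain ⟨x, hx, hbx⟩ := h.exists_max ht hb hbt
  have h1 : orderOf b ∣ 2 ^ m + 1 := by
    rw [← h.orderOf_max hm0 hV hF ht hx]
    obtain ⟨k, rfl⟩ := mem_zpowers_iff.1 hbx
    exact orderOf_dvd_of_pow_eq_one (by
      rw [← zpow_natCast, ← zpow_mul, mul_comm, zpow_mul, zpow_natCast, pow_orderOf_eq_one, one_zpow])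
  have h2 : orderOf b ∣ 2 ^ m - 1 := by
    rw [← hF τ hτ]
    apply h.orderOf_dvd_of_real hb hbt
    intro w hw
    rw [mem_vfx, ← act_mul, hc, act_mul, (show φ τ w = w from hw)]
  exact hb1 (orderOf_eq_one_iff.1 (eq_one_of_odd_of_dvd_two hb (two_lemma h1 h2)))

theorem exists_involution_of_two {G : Type*} [Group G] [Finite G] {w : G} (hw : ∃ k : ℕ, w ^ 2 ^ k = 1)
    (hw1 : w ≠ 1) : ∃ τ ∈ zpowers w, orderOf τ = 2 := by
  obtain ⟨k, hk⟩ := hw
  obtain ⟨j, -, hj⟩ := (Nat.dvd_prime_pow Nat.prime_two).1 (orderOf_dvd_of_pow_eq_one hk)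
  rcases Nat.eq_zero_or_pos j with rfl | hj0
  · rw [pow_zero, orderOf_eq_one_iff] at hj
    exact absurd hj hw1
  · refine ⟨w ^ 2 ^ (j - 1), pow_mem (mem_zpowers w) _, ?_⟩
    have e : 2 ^ j = 2 ^ (j - 1) * 2 := by rw [← pow_succ]; congr 1; omega
    rw [orderOf_pow, hj, Nat.gcd_eq_right (by rw [e]; exact dvd_mul_right _ _), e,
      Nat.mul_div_cancel_left _ (by positivity)]

/-- S11 -/
theorem conj_involutions (h : TwoSpread φ) {m : ℕ} (hm0 : 0 < m) (hV : Nat.card V = 2 ^ m * 2 ^ m)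
    (hF : ∀ t : Γ, orderOf t = 2 → Nat.card (vfx φ t) = 2 ^ m) (P : Sylow 2 Γ)
    {t₁ t₂ : Γ} (ht₁ : orderOf t₁ = 2) (hP₁ : t₁ ∈ P) (ht₂ : orderOf t₂ = 2) (hP₂ : t₂ ∈ P) :
    ∃ g : Γ, g • P = P ∧ g * t₂ * g⁻¹ = t₁ := by
  classical
  have : Fact (Nat.Prime 2) := ⟨Nat.prime_two⟩
  obtain ⟨x₁, hx₁, -⟩ := h.exists_max (b := 1) ht₁ (by simp) (by simp)
  obtain ⟨x₂, hx₂, -⟩ := h.exists_max (b := 1) ht₂ (by simp) (by simp)
  have ho₁ := h.orderOf_max hm0 hV hF ht₁ hx₁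
  have ho₂ := h.orderOf_max hm0 hV hF ht₂ hx₂
  set q := Nat.minFac (2 ^ m + 1) with hq
  have hqp : q.Prime := Nat.minFac_prime (by have := Nat.one_le_two_pow (n := m); omega)
  have hqd : q ∣ 2 ^ m + 1 := Nat.minFac_dvd _
  have : Fact q.Prime := ⟨hqp⟩
  obtain ⟨r, hr⟩ := hqd
  have hr0 : 0 < r := Nat.pos_of_ne_zero (by rintro rfl; rw [mul_zero] at hr; exact absurd hr (by positivity))
  set b₂ := x₂ ^ r with hb₂
  have hob₂ : orderOf b₂ = q := by
    rw [hb₂, orderOf_pow, ho₂, hr, Nat.gcd_eq_right (dvd_mul_left _ _), Nat.mul_div_cancel _ hr0]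
  have hqodd : Odd q := by
    apply Odd.of_dvd_nat _ (Dvd.intro _ hr.symm)
    exact Even.add_one ((Nat.even_pow' hm0.ne').2 even_two)
  -- the index
  obtain ⟨v, hv⟩ := h.nt
  set C₁ := centralizer ({x₁} : Set Γ) with hC₁
  have hcop := h.cop x₁ t₁ hx₁.1 hx₁.2.1 v hv
  have hidx : (vst φ v).index = Nat.card C₁ := by
    rw [← Cfsg.Agent.H72.relIndex_eq_index_of_coprime hcop.symm]
    have h1 : (vst φ v).subgroupOf C₁ = ⊥ := by
      rw [eq_bot_iff]
      intro g hg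
      have h2 : φ (g : Γ) v = v := hg
      have h3 := h.free_centralizer hm0 hV hF ht₁ hx₁ (mem_centralizer_singleton_iff.1 g.2) hv h2
      rw [mem_bot]
      exact Subtype.ext h3
    rw [Subgroup.relIndex, h1, Subgroup.index_bot]
  have hqC : ¬ q ∣ C₁.index := by
    intro hd
    have h1 : q ∣ Nat.card C₁ := by
      have h2 : orderOf (⟨x₁, mem_centralizer_singleton_iff.2 rfl⟩ : C₁) ∣ Nat.card C₁ :=
        orderOf_dvd_natCard _
      have h3 : orderOf (⟨x₁, mem_centralizer_singleton_iff.2 rfl⟩ : C₁) = orderOf x₁ :=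
        (orderOf_injective C₁.subtype C₁.subtype_injective _).symm
      rw [h3, ho₁, hr] at h2
      exact (dvd_mul_right _ _).trans h2
    rw [← hidx] at h1
    have h4 := Nat.dvd_gcd hd h1
    rw [hcop] at h4
    exact hqp.one_lt.ne' (Nat.dvd_one.1 h4)
  -- a conjugate of `b₂` in `C₁`
  obtain ⟨g, hg⟩ : ∃ g : Γ, g⁻¹ * b₂ * g ∈ C₁ := by
    have hbp : IsPGroup q (zpowers b₂) := IsPGroup.of_card (n := 1) (by
      rw [Nat.card_zpowers, hob₂, pow_one])
    obtain ⟨y, hy⟩ := hbp.nonempty_fixed_point_of_prime_not_dvd_card (Γ ⧸ C₁) hqC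
    obtain ⟨g, rfl⟩ := QuotientGroup.mk_surjective y
    refine ⟨g, ?_⟩
    have h1 := hy ⟨b₂, mem_zpowers b₂⟩
    have h2 : ((b₂ * g : Γ) : Γ ⧸ C₁) = (g : Γ ⧸ C₁) := h1
    rw [QuotientGroup.eq] at h2
    have h3 := inv_mem h2
    have e : ((b₂ * g)⁻¹ * g)⁻¹ = g⁻¹ * b₂ * g := by group
    rwa [e] at h3
  set d := g⁻¹ * b₂ * g with hd
  have hdx : d * x₁ = x₁ * d := mem_centralizer_singleton_iff.1 hg
  have hod : orderOf d = q := by
    rw [← hob₂, hd]
    have := Cfsg.Agent.H67.orderOf_conj_eq g⁻¹ b₂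
    rwa [inv_inv] at this
  have hz := h.comm_mem_zpowers ht₁ hx₁ hdx
  obtain ⟨s, hs, hsz⟩ := exists_sqrt (odd_of_mem_zpowers hx₁.1 hz)
  have hs' : s ∈ zpowers x₁ := (zpowers_le.2 hz) hs
  have hsd : s * d = d * s := by
    obtain ⟨k, rfl⟩ := mem_zpowers_iff.1 hs'
    exact ((show Commute x₁ d from hdx.symm).zpow_left k)
  have hst : t₁ * s * t₁⁻¹ = s⁻¹ := inverts_of_mem_zpowers hx₁.2.1 hs'
  have ht₁i := inv_of_orderOf_two ht₁
  -- `y = s d` commutes with `t₁`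
  have hyt : (s * d) * t₁ = t₁ * (s * d) := by
    have e1 : d * t₁ = t₁ * (s * s) * d := by
      rw [hsz]
      have : t₁ * (t₁ * (d * t₁ * d⁻¹)) * d = (t₁ * t₁) * (d * t₁) := by group
      rw [this, sq_of_orderOf_two ht₁, one_mul]
    have e2 : s * t₁ = t₁ * s⁻¹ := by
      rw [← hst, ht₁i]
      have : t₁ * (t₁ * s * t₁) = (t₁ * t₁) * s * t₁ := by group
      rw [this, sq_of_orderOf_two ht₁, one_mul]
    calc s * d * t₁ = s * (d * t₁) := by group
      _ = (s * t₁) * (s * s) * d := by rw [e1]; group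
      _ = t₁ * s⁻¹ * (s * s) * d := by rw [e2]
      _ = t₁ * (s * d) := by group
  have hyx : (s * d) * x₁ = x₁ * (s * d) := by
    have hsx : s * x₁ = x₁ * s := by
      obtain ⟨k, rfl⟩ := mem_zpowers_iff.1 hs'
      exact ((Commute.refl x₁).zpow_left k)
    rw [mul_assoc, hdx, ← mul_assoc, hsx, mul_assoc]
  have hyq : (s * d) ^ q = 1 := by
    have h1 : (s * d) ^ q = s ^ q := by
      rw [(show Commute s d from hsd).mul_pow, ← hod, pow_orderOf_eq_one, mul_one]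
    have h2 : s ^ q ∈ zpowers x₁ := pow_mem hs' q
    have h3 := inverts_of_mem_zpowers hx₁.2.1 h2
    have h4 : t₁ * s ^ q * t₁⁻¹ = s ^ q := by
      rw [← h1]
      have : Commute t₁ ((s * d) ^ q) := (show Commute t₁ (s * d) from hyt.symm).pow_right q
      rw [this.eq, mul_inv_cancel_right]
    rw [h4] at h3
    rw [h1]
    apply eq_one_of_odd_of_sq (odd_of_mem_zpowers hx₁.1 h2)
    rw [← inv_eq_iff_mul_eq_one]
    exact h3.symm
  have hy1 : s * d = 1 := by
    by_contra hy1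
    have h1 : orderOf (s * d) = q := by
      rcases (Nat.dvd_prime hqp).1 (orderOf_dvd_of_pow_eq_one hyq) with h1 | h1
      · exact absurd (orderOf_eq_one_iff.1 h1) hy1
      · exact h1
    have h2 : q ∣ 2 ^ m - 1 := by
      rw [← hF t₁ ht₁, ← h1, ← Nat.card_zpowers]
      apply card_dvd_of_free φ (zpowers (s * d)) (vfx φ t₁)
      · intro z hz w hw
        have hzt : t₁ * z = z * t₁ := by
          obtain ⟨k, rfl⟩ := mem_zpowers_iff.1 hz
          exact ((show Commute t₁ (s * d) from hyt.symm).zpow_right k)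
        rw [mem_vfx, ← act_mul, hzt, act_mul, (show φ t₁ w = w from hw)]
      · intro z hz w hw hzw hw1
        have hzx : z * x₁ = x₁ * z := by
          obtain ⟨k, rfl⟩ := mem_zpowers_iff.1 hz
          exact ((show Commute (s * d) x₁ from hyx).zpow_left k)
        exact h.free_centralizer hm0 hV hF ht₁ hx₁ hzx hw1 hzw
    have h3 := eq_one_of_odd_of_dvd_two hqodd (two_lemma (Dvd.intro _ hr.symm) h2)
    exact hqp.one_lt.ne' h3
  have hdx1 : d ∈ zpowers x₁ := by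
    have : d = s⁻¹ := (inv_eq_of_mul_eq_one_right hy1).symm
    rw [this]; exact inv_mem hs'
  have hdt := inverts_of_mem_zpowers hx₁.2.1 hdx1
  have hdo : Odd (orderOf d) := by rw [hod]; exact hqodd
  obtain ⟨c, hcd, hcP⟩ := h.trans hdo hdt (g⁻¹ • P) P
  have hgP : (c * g⁻¹) • P = P := by rw [mul_smul, hcP]
  refine ⟨c * g⁻¹, hgP, ?_⟩
  set t₂' := (c * g⁻¹) * t₂ * (c * g⁻¹)⁻¹ with ht₂'
  have h1 : t₂' ∈ P := by
    rw [← hgP, mem_smul_sylow]
    have e : (c * g⁻¹)⁻¹ * t₂' * (c * g⁻¹) = t₂ := by rw [ht₂']; group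
    rw [e]; exact hP₂
  have h2 : t₂' * d * t₂'⁻¹ = d⁻¹ := by
    have e0 := inverts_of_mem_zpowers hx₂.2.1 (pow_mem (mem_zpowers x₂) r : x₂ ^ r ∈ zpowers x₂)
    have e1 : c⁻¹ * d * c = d := by rw [mul_assoc, ← hcd, inv_mul_cancel_left]
    have e2 : t₂' * d * t₂'⁻¹ = c * (g⁻¹ * (t₂ * (g * (c⁻¹ * d * c) * g⁻¹) * t₂⁻¹) * g) * c⁻¹ := by
      rw [ht₂']; group
    have e3 : g * d * g⁻¹ = b₂ := by rw [hd]; group
    rw [e2, e1, e3, e0]
    have e4 : c * (g⁻¹ * b₂⁻¹ * g) * c⁻¹ = (c * d * c⁻¹)⁻¹ := by rw [hd]; group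
    rw [e4, hcd, mul_inv_cancel_right]
  have h3 : (t₁ * t₂') * d = d * (t₁ * t₂') := by
    rw [← mul_inv_eq_iff_eq_mul]
    have e : t₁ * t₂' * d * (t₁ * t₂')⁻¹ = t₁ * (t₂' * d * t₂'⁻¹) * t₁⁻¹ := by group
    rw [e, h2]
    have := congrArg (fun z => z⁻¹) hdt
    simp only [mul_inv_rev, inv_inv] at this
    rw [← mul_assoc] at this
    exact this
  have h4 : t₁ * t₂' = 1 := by
    by_contra hne
    have h5 : t₁ * t₂' ∈ P := mul_mem hP₁ h1
    obtain ⟨k, hk⟩ := P.2 ⟨_, h5⟩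
    obtain ⟨τ, hτ, hτ2⟩ := exists_involution_of_two ⟨k, congrArg Subtype.val hk⟩ hne
    have hd1 : d ≠ 1 := by
      intro hc
      rw [hc, orderOf_one] at hod
      exact hqp.one_lt.ne hod
    apply h.not_comm hm0 hV hF ht₁ hdo hdt hd1 hτ2
    obtain ⟨k, rfl⟩ := mem_zpowers_iff.1 hτ
    exact ((show Commute (t₁ * t₂') d from h3).zpow_left k)
  have h5 : t₂' = t₁⁻¹ := (inv_eq_of_mul_eq_one_right h4).symm
  rw [h5, ht₁i]


/-- S12 -/
theorem central_involution (h : TwoSpread φ) {m : ℕ} (hm0 : 0 < m) (hV : Nat.card V = 2 ^ m * 2 ^ m)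
    (hF : ∀ t : Γ, orderOf t = 2 → Nat.card (vfx φ t) = 2 ^ m) (P : Sylow 2 Γ)
    {t : Γ} (ht : orderOf t = 2) (hP : t ∈ P) {p : Γ} (hp : p ∈ P) : t * p = p * t := by
  have : Fact (Nat.Prime 2) := ⟨Nat.prime_two⟩
  have hnt : Nontrivial P := ⟨⟨t, hP⟩, 1, fun hc => by
    have h1 : t = 1 := congrArg Subtype.val hc
    rw [h1, orderOf_one] at ht
    exact absurd ht (by norm_num)⟩
  have hcn := P.2.center_nontrivial
  have hcp : IsPGroup 2 (center P) := P.2.to_subgroup _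
  obtain ⟨n, hn0, hn⟩ := (hcp.nontrivial_iff_card).1 hcn
  obtain ⟨z, hz⟩ := exists_prime_orderOf_dvd_card' (G := center P) 2 (by
    rw [hn]; exact dvd_pow_self 2 hn0.ne')
  have hz2 : orderOf ((z : P) : Γ) = 2 := by
    have e1 := orderOf_injective (center P).subtype (center P).subtype_injective z
    have e2 := orderOf_injective (P : Subgroup Γ).subtype (P : Subgroup Γ).subtype_injective (z : P)
    exact e2.trans (e1.trans hz)
  obtain ⟨g, hgP, hg⟩ := h.conj_involutions hm0 hV hF P hz2 (z : P).2 ht hP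
  have h1 : g * p * g⁻¹ ∈ P := by
    rw [← hgP, mem_smul_sylow]
    have e : g⁻¹ * (g * p * g⁻¹) * g = p := by group
    rw [e]; exact hp
  have h2 : ((z : P) : Γ) * (g * p * g⁻¹) = (g * p * g⁻¹) * ((z : P) : Γ) := by
    have := mem_center_iff.1 z.2 ⟨_, h1⟩
    exact (congrArg Subtype.val this).symm
  rw [← hg] at h2
  have h3 := congrArg (fun w => g⁻¹ * w * g) h2
  have e1 : g⁻¹ * (g * t * g⁻¹ * (g * p * g⁻¹)) * g = t * p := by group
  have e2 : g⁻¹ * (g * p * g⁻¹ * (g * t * g⁻¹)) * g = p * t := by group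
  simp only [e1, e2] at h3
  exact h3

/-- S13 -/
theorem odd_or_comm (h : TwoSpread φ) {m : ℕ} (hm0 : 0 < m) (hV : Nat.card V = 2 ^ m * 2 ^ m)
    (hF : ∀ t : Γ, orderOf t = 2 → Nat.card (vfx φ t) = 2 ^ m)
    {a b : Γ} (ha : orderOf a = 2) (hb : orderOf b = 2) : Odd (orderOf (a * b)) ∨ a * b = b * a := by
  have : Fact (Nat.Prime 2) := ⟨Nat.prime_two⟩
  rcases Nat.even_or_odd (orderOf (a * b)) with he | ho
  swap
  · exact Or.inl ho
  right
  have hai := inv_of_orderOf_two ha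
  have hbi := inv_of_orderOf_two hb
  obtain ⟨k, n, hn, hkn⟩ := Nat.exists_eq_two_pow_mul_odd (orderOf_pos (a * b)).ne'
  have hk0 : k ≠ 0 := by
    rintro rfl
    rw [pow_zero, one_mul] at hkn
    rw [hkn] at he
    exact absurd hn (Nat.not_odd_iff_even.2 he)
  have hinv : a * (a * b) * a⁻¹ = (a * b)⁻¹ := by
    rw [mul_inv_rev, hai, hbi, ← mul_assoc, sq_of_orderOf_two ha, one_mul]
  have h2 : orderOf ((a * b) ^ (2 ^ k)) = n := by
    rw [orderOf_pow, hkn, Nat.gcd_eq_right (dvd_mul_right _ _),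
      Nat.mul_div_cancel_left _ (by positivity)]
  have h3 : (a * b) ^ (2 ^ k) = 1 := by
    by_contra hne
    have h4 : orderOf ((a * b) ^ n) = 2 ^ k := by
      rw [orderOf_pow, hkn, Nat.gcd_eq_right (dvd_mul_left _ _),
        Nat.mul_div_cancel _ hn.pos]
    obtain ⟨τ, hτ, hτ2⟩ := exists_involution_of_two (w := (a * b) ^ n)
      ⟨k, by rw [← h4, pow_orderOf_eq_one]⟩ (by
        intro hc
        rw [hc, orderOf_one] at h4
        exact (Nat.one_lt_two_pow hk0).ne h4)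
    apply h.not_comm hm0 hV hF ha (b := (a * b) ^ (2 ^ k)) (by rw [h2]; exact hn) (by
      rw [← conj_pow, hinv, inv_pow]) hne hτ2
    obtain ⟨i, rfl⟩ := mem_zpowers_iff.1 hτ
    exact (((Commute.refl (a * b)).pow_pow n (2 ^ k)).zpow_left i)
  have h4 := Cfsg.Agent.H67.isPGroup_closure_pair_of_involutions (t := a) (u := b)
    (by rw [pow_two, sq_of_orderOf_two ha]) (by rw [pow_two, sq_of_orderOf_two hb]) (by
      obtain ⟨j, -, hj⟩ := (Nat.dvd_prime_pow Nat.prime_two).1 (orderOf_dvd_of_pow_eq_one h3)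
      exact ⟨j, hj⟩)
  obtain ⟨P, hP⟩ := h4.exists_le_sylow
  exact h.central_involution hm0 hV hF P ha (hP (subset_closure (by simp)))
    (hP (subset_closure (by simp)))

/-- S14 -/
theorem comm_trans (h : TwoSpread φ) {m : ℕ} (hm0 : 0 < m) (hV : Nat.card V = 2 ^ m * 2 ^ m)
    (hF : ∀ t : Γ, orderOf t = 2 → Nat.card (vfx φ t) = 2 ^ m)
    {a b c : Γ} (ha : orderOf a = 2) (hb : orderOf b = 2) (hc : orderOf c = 2)
    (hab : a * b = b * a) (hbc : b * c = c * b) : a * c = c * a := by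
  rcases h.odd_or_comm hm0 hV hF ha hc with ho | ho
  swap
  · exact ho
  by_cases h1 : a * c = 1
  · have : c = a⁻¹ := (inv_eq_of_mul_eq_one_right h1).symm
    rw [this]; simp
  exfalso
  apply h.not_comm hm0 hV hF ha ho (b := a * c) _ h1 hb _
  · rw [mul_inv_rev, inv_of_orderOf_two ha, inv_of_orderOf_two hc, ← mul_assoc,
      sq_of_orderOf_two ha, one_mul]
  · rw [← mul_assoc, ← hab, mul_assoc, hbc, mul_assoc]

/-- S15 -/
theorem mem_sylow_of_comm (h : TwoSpread φ) {m : ℕ} (hm0 : 0 < m) (hV : Nat.card V = 2 ^ m * 2 ^ m)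
    (hF : ∀ t : Γ, orderOf t = 2 → Nat.card (vfx φ t) = 2 ^ m)
    {a b : Γ} (ha : orderOf a = 2) (hb : orderOf b = 2) (hab : a * b = b * a) (P : Sylow 2 Γ)
    (haP : a ∈ P) : b ∈ P := by
  classical
  have : Fact (Nat.Prime 2) := ⟨Nat.prime_two⟩
  have hcomm : ∀ x y : Γ, x * x = 1 → x * a = a * x → y * y = 1 → y * a = a * y → x * y = y * x := by
    intro x y hx hxa hy hya
    by_cases hx1 : x = 1
    · rw [hx1]; simp
    by_cases hy1 : y = 1
    · rw [hy1]; simp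
    exact h.comm_trans hm0 hV hF (orderOf_two_of_sq hx hx1) ha (orderOf_two_of_sq hy hy1) hxa hya.symm
  let E : Subgroup Γ :=
    { carrier := {x | x * x = 1 ∧ x * a = a * x}
      one_mem' := ⟨by simp, by simp⟩
      mul_mem' := by
        rintro x y ⟨hx1, hx2⟩ ⟨hy1, hy2⟩
        have hxy := hcomm x y hx1 hx2 hy1 hy2
        refine ⟨?_, ?_⟩
        · have e : x * y * (x * y) = x * (y * x) * y := by group
          rw [e, ← hxy]
          have e2 : x * (x * y) * y = (x * x) * (y * y) := by group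
          rw [e2, hx1, hy1, one_mul]
        · rw [mul_assoc, hy2, ← mul_assoc, hx2, mul_assoc]
      inv_mem' := by
        rintro x ⟨hx1, hx2⟩
        have : x⁻¹ = x := inv_eq_of_mul_eq_one_left hx1
        rw [this]; exact ⟨hx1, hx2⟩ }
  have hE : ∀ x, x ∈ E ↔ x * x = 1 ∧ x * a = a * x := fun x => Iff.rfl
  have hEp : IsPGroup 2 E := fun x => ⟨1, by
    rw [pow_one, pow_two]; exact Subtype.ext x.2.1⟩
  obtain ⟨Q, hQ⟩ := hEp.exists_le_sylow
  obtain ⟨g, hg⟩ := MulAction.exists_smul_eq Γ P Q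
  let SP : Set Γ := {x | x ∈ P ∧ x * x = 1}
  let SQ : Set Γ := {x | x ∈ Q ∧ x * x = 1}
  have h1 : SP ⊆ (E : Set Γ) := by
    rintro x ⟨hx, hx2⟩
    refine ⟨hx2, ?_⟩
    exact (h.central_involution hm0 hV hF P ha haP hx).symm
  have h2 : (E : Set Γ) ⊆ SQ := fun x hx => ⟨hQ hx, hx.1⟩
  have h3 : SP.ncard = SQ.ncard := by
    have : SQ = (fun x => g * x * g⁻¹) '' SP := by
      ext x
      constructor
      · rintro ⟨hx, hx2⟩
        rw [← hg, mem_smul_sylow] at hx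
        refine ⟨g⁻¹ * x * g, ⟨hx, ?_⟩, by group⟩
        have e : g⁻¹ * x * g * (g⁻¹ * x * g) = g⁻¹ * (x * x) * g := by group
        rw [e, hx2]; group
      · rintro ⟨y, ⟨hy, hy2⟩, rfl⟩
        refine ⟨?_, ?_⟩
        · rw [← hg, mem_smul_sylow]
          have e : g⁻¹ * (g * y * g⁻¹) * g = y := by group
          rw [e]; exact hy
        · have e : g * y * g⁻¹ * (g * y * g⁻¹) = g * (y * y) * g⁻¹ := by group
          rw [e, hy2]; group
    rw [this]
    symm
    apply Set.ncard_image_of_injective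
    intro x y hxy
    simpa using hxy
  have h4 : SP = SQ := Set.eq_of_subset_of_ncard_le (h1.trans h2) h3.symm.le (Set.toFinite _)
  have h5 : b ∈ SP := by
    rw [h4]
    exact h2 ⟨sq_of_orderOf_two hb, hab.symm⟩
  exact h5.1

/-- S16 -/
theorem vfx_eq_of_comm (h : TwoSpread φ) {m : ℕ} (hm0 : 0 < m) (hV : Nat.card V = 2 ^ m * 2 ^ m)
    (hF : ∀ t : Γ, orderOf t = 2 → Nat.card (vfx φ t) = 2 ^ m)
    {a b : Γ} (ha : orderOf a = 2) (hb : orderOf b = 2) (hab : a * b = b * a) :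
    vfx φ a = vfx φ b := by
  apply Subgroup.eq_of_le_of_card_ge
  · intro v hv
    by_cases hv1 : v = 1
    · rw [hv1]; exact one_mem _
    obtain ⟨P, hP1, hP2⟩ := h.syl v hv1
    have h1 : a ∈ P := mem_of_two hP2 ⟨1, by rw [pow_one, pow_two, sq_of_orderOf_two ha]⟩ hv
    exact hP1 b (h.mem_sylow_of_comm hm0 hV hF ha hb hab P h1)
  · rw [hF a ha, hF b hb]

theorem comm_of_fix (h : TwoSpread φ) {m : ℕ} (hm0 : 0 < m) (hV : Nat.card V = 2 ^ m * 2 ^ m)
    (hF : ∀ t : Γ, orderOf t = 2 → Nat.card (vfx φ t) = 2 ^ m)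
    {a b : Γ} (ha : orderOf a = 2) (hb : orderOf b = 2) {v : V} (hv : v ≠ 1)
    (hav : φ a v = v) (hbv : φ b v = v) : a * b = b * a := by
  obtain ⟨P, hP1, hP2⟩ := h.syl v hv
  have h1 : a ∈ P := mem_of_two hP2 ⟨1, by rw [pow_one, pow_two, sq_of_orderOf_two ha]⟩ hav
  have h2 : b ∈ P := mem_of_two hP2 ⟨1, by rw [pow_one, pow_two, sq_of_orderOf_two hb]⟩ hbv
  exact h.central_involution hm0 hV hF P ha h1 h2

theorem exists_ne_one_of_vfx (h : TwoSpread φ) {m : ℕ} (hm0 : 0 < m)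
    (hF : ∀ t : Γ, orderOf t = 2 → Nat.card (vfx φ t) = 2 ^ m)
    {a : Γ} (ha : orderOf a = 2) : ∃ v : V, v ≠ 1 ∧ φ a v = v := by
  by_contra hcon
  push Not at hcon
  have h1 : vfx φ a = ⊥ := by
    rw [eq_bot_iff]
    intro v hv
    rw [mem_bot]
    by_contra hv1
    exact hcon v hv1 hv
  have h2 := hF a ha
  rw [h1, Subgroup.card_bot] at h2
  exact (Nat.one_lt_two_pow hm0.ne').ne h2


/-- S17 -/
theorem conj_inj (h : TwoSpread φ) {m : ℕ} (hm0 : 0 < m) (hV : Nat.card V = 2 ^ m * 2 ^ m)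
    (hF : ∀ t : Γ, orderOf t = 2 → Nat.card (vfx φ t) = 2 ^ m)
    {a t₁ t₂ : Γ} (ha : orderOf a = 2) (ht₁ : orderOf t₁ = 2) (ht₂ : orderOf t₂ = 2)
    (hn₁ : t₁ * a ≠ a * t₁)
    (he : vfx φ (t₁ * a * t₁⁻¹) = vfx φ (t₂ * a * t₂⁻¹)) : t₁ = t₂ := by
  have hmap : ∀ g v, v ∈ vfx φ (g * a * g⁻¹) ↔ (φ g)⁻¹ v ∈ vfx φ a := fun g v => vfx_conj g a v
  have ht₁i := inv_of_orderOf_two ht₁
  have ht₂i := inv_of_orderOf_two ht₂
  set g := t₂ * t₁ with hg
  have hgF : ∀ v ∈ vfx φ a, φ g v ∈ vfx φ a := by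
    intro v hv
    have h1 : φ t₁ v ∈ vfx φ (t₁ * a * t₁⁻¹) := by
      rw [hmap, MulAut.inv_apply_self]; exact hv
    rw [he, hmap, ← map_inv, ht₂i, ← act_mul] at h1
    exact h1
  have hinv : t₁ * g * t₁⁻¹ = g⁻¹ := by
    rw [hg, mul_inv_rev, ht₁i, ht₂i, mul_assoc, mul_assoc, sq_of_orderOf_two ht₁, mul_one]
  rcases h.odd_or_comm hm0 hV hF ht₂ ht₁ with ho | hc
  · have h1 : orderOf g ∣ 2 ^ m - 1 := by
      rw [← hF a ha]
      exact h.orderOf_dvd_of_real ho hinv _ hgF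
    obtain ⟨x, hx, hgx⟩ := h.exists_max ht₁ ho hinv
    have h2 : orderOf g ∣ 2 ^ m + 1 := by
      rw [← h.orderOf_max hm0 hV hF ht₁ hx]
      obtain ⟨k, hk⟩ := mem_zpowers_iff.1 hgx
      exact orderOf_dvd_of_pow_eq_one (by
        rw [hg, ← hk, ← zpow_natCast, ← zpow_mul, mul_comm, zpow_mul, zpow_natCast,
          pow_orderOf_eq_one, one_zpow])
    have h3 := orderOf_eq_one_iff.1 (eq_one_of_odd_of_dvd_two ho (two_lemma h2 h1))
    have h4 : t₁ = t₂⁻¹ := (inv_eq_of_mul_eq_one_right h3).symm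
    rw [h4, ht₂i]
  · by_contra hne
    have hg1 : g ≠ 1 := by
      intro hc1
      apply hne
      have h4 : t₁ = t₂⁻¹ := (inv_eq_of_mul_eq_one_right hc1).symm
      rw [h4, ht₂i]
    have hgg : g * g = 1 := by
      have e : g * g = t₂ * (t₁ * t₂) * t₁ := by rw [hg]; group
      rw [e, ← hc]
      have e2 : t₂ * (t₂ * t₁) * t₁ = (t₂ * t₂) * (t₁ * t₁) := by group
      rw [e2, sq_of_orderOf_two ht₂, sq_of_orderOf_two ht₁, one_mul]
    have hg2 := orderOf_two_of_sq hgg hg1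
    -- a fixed vector of `g` in the space of `a`
    obtain ⟨s, hs1, hsa, hsg⟩ : ∃ s : V, s ≠ 1 ∧ φ a s = s ∧ φ g s = s := by
      obtain ⟨u, hu1, hua⟩ := h.exists_ne_one_of_vfx hm0 hF ha
      by_cases hv : u * φ g u = 1
      · refine ⟨u, hu1, hua, ?_⟩
        rw [mul_eq_one_iff_eq_inv', h.inv_eq] at hv
        exact hv
      · refine ⟨u * φ g u, hv, ?_, ?_⟩
        · exact mul_mem (show u ∈ vfx φ a from hua) (hgF u hua)
        · rw [map_mul, ← act_mul, hgg, map_one, MulAut.one_apply, mul_comm]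
    have h1 := h.comm_of_fix hm0 hV hF ha hg2 hs1 hsa hsg
    have h2 : g * t₁ = t₁ * g := by
      rw [hg, mul_assoc, ← mul_assoc t₁, ← hc, mul_assoc]
    apply hn₁
    exact (h.comm_trans hm0 hV hF ha hg2 ht₁ h1 h2).symm

/-- S18 -/
theorem involutions (h : TwoSpread φ) {m : ℕ} (hm0 : 0 < m) (hV : Nat.card V = 2 ^ m * 2 ^ m)
    (hF : ∀ t : Γ, orderOf t = 2 → Nat.card (vfx φ t) = 2 ^ m)
    {a x : Γ} (ha : orderOf a = 2) (hx : IsMaxInv a x) {t : Γ} (ht : orderOf t = 2)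
    (hta : t * a ≠ a * t) : ∃ z ∈ zpowers x, t = z * a := by
  classical
  let I : Set Γ := {t | orderOf t = 2 ∧ t * a ≠ a * t}
  let J : Set Γ := {t | ∃ z ∈ zpowers x, z ≠ 1 ∧ t = z * a}
  have hJI : J ⊆ I := by
    rintro _ ⟨z, hz, hz1, rfl⟩
    refine ⟨orderOf_mul_two ha hx.1 hx.2.1 hz, ?_⟩
    intro hc
    apply hz1
    have h1 := inverts_of_mem_zpowers hx.2.1 hz
    rw [mul_assoc, sq_of_orderOf_two ha, mul_one] at hc
    have h2 : a * (z * a) = z⁻¹ := by
      rw [← h1, inv_of_orderOf_two ha, mul_assoc]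
    rw [h2] at hc
    apply eq_one_of_odd_of_sq (odd_of_mem_zpowers hx.1 hz)
    rw [← inv_eq_iff_mul_eq_one]
    exact hc.symm
  -- the map
  have hex : ∀ t ∈ I, ∃ z ∈ zpowers x, z ≠ 1 ∧ vfx φ (t * a * t⁻¹) = vfx φ (z * a) := by
    rintro t ⟨ht, hta⟩
    have h1 : orderOf (t * a * t⁻¹) = 2 := by rw [Cfsg.Agent.H67.orderOf_conj_eq]; exact ha
    obtain ⟨v, hv1, hv⟩ := h.exists_ne_one_of_vfx hm0 hF h1
    obtain ⟨z, hz, hzv⟩ := h.exists_fix ha hx v hv1
    have h2 := orderOf_mul_two ha hx.1 hx.2.1 hz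
    refine ⟨z, hz, ?_, ?_⟩
    · rintro rfl
      rw [one_mul] at hzv
      have h3 := h.comm_of_fix hm0 hV hF h1 ha hv1 hv hzv
      have hti := inv_of_orderOf_two ht
      rcases h.odd_or_comm hm0 hV hF ht ha with ho | hc
      · rw [hti] at h3
        have h4 : (t * a) * (t * a) = ((t * a) * (t * a))⁻¹ := by
          rw [mul_inv_rev, mul_inv_rev, inv_of_orderOf_two ha, hti]
          calc t * a * (t * a) = t * a * t * a := by group
            _ = a * (t * a * t) := h3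
            _ = a * t * (a * t) := by group
        have h5 : Odd (orderOf ((t * a) * (t * a))) := by
          apply odd_of_mem_zpowers ho
          exact mul_mem (mem_zpowers _) (mem_zpowers _)
        have h6 := eq_one_of_odd_of_sq h5 (by
          rw [← inv_eq_iff_mul_eq_one]; exact h4.symm)
        have h7 := eq_one_of_odd_of_sq ho h6
        apply hta
        have h8 : a = t⁻¹ := (inv_eq_of_mul_eq_one_right h7).symm
        rw [h8]; simp
      · exact hta hc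
    · exact h.vfx_eq_of_comm hm0 hV hF h1 h2 (h.comm_of_fix hm0 hV hF h1 h2 hv1 hv hzv)
  choose! f hf1 hf2 hf3 using hex
  have hinj : Set.InjOn (fun t => f t * a) I := by
    intro t₁ h₁ t₂ h₂ he
    have he' : f t₁ * a = f t₂ * a := he
    apply h.conj_inj hm0 hV hF ha h₁.1 h₂.1 h₁.2
    rw [hf3 t₁ h₁, hf3 t₂ h₂, he']
  have hle : I.ncard ≤ J.ncard :=
    Set.ncard_le_ncard_of_injOn (fun t => f t * a) (fun t ht => ⟨f t, hf1 t ht, hf2 t ht, rfl⟩) hinj
      (Set.toFinite _)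
  have hIJ : J = I := Set.eq_of_subset_of_ncard_le hJI hle (Set.toFinite _)
  have h1 : t ∈ J := by rw [hIJ]; exact ⟨ht, hta⟩
  obtain ⟨z, hz, -, e⟩ := h1
  exact ⟨z, hz, e⟩

theorem comm_eq (h : TwoSpread φ) {m : ℕ} (hm0 : 0 < m) (hV : Nat.card V = 2 ^ m * 2 ^ m)
    (hF : ∀ t : Γ, orderOf t = 2 → Nat.card (vfx φ t) = 2 ^ m)
    {a b : Γ} (ha : orderOf a = 2) (hb : orderOf b = 2) (hab : a * b = b * a) : a = b := by
  obtain ⟨x, hx, -⟩ := h.exists_max (b := 1) ha (by simp) (by simp)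
  by_contra hne
  set t := x * a with ht
  have ht2 : orderOf t = 2 := orderOf_mul_two ha hx.1 hx.2.1 (mem_zpowers x)
  have hai := inv_of_orderOf_two ha
  have hxa := hx.2.1
  have hxa' : ∀ y ∈ zpowers x, t * y * t⁻¹ = a * y * a⁻¹ := by
    intro y hy
    have h1 : a * y * a⁻¹ ∈ zpowers x := by
      rw [inverts_of_mem_zpowers hxa hy]; exact inv_mem hy
    have h2 : x * (a * y * a⁻¹) = (a * y * a⁻¹) * x := by
      obtain ⟨k, hk⟩ := mem_zpowers_iff.1 h1
      rw [← hk]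
      exact ((Commute.refl x).zpow_right k)
    have e : t * y * t⁻¹ = x * (a * y * a⁻¹) * x⁻¹ := by rw [ht]; group
    rw [e, h2, mul_inv_cancel_right]
  have hmaxt : IsMaxInv t x := by
    refine ⟨hx.1, by rw [hxa' x (mem_zpowers x)]; exact hxa, hx.2.2.1, ?_⟩
    intro y hyo hyx hyt
    apply hx.2.2.2 y hyo hyx
    have e : t * y * t⁻¹ = x * (a * y * a⁻¹) * x⁻¹ := by rw [ht]; group
    rw [e] at hyt
    -- conjugate by `x⁻¹`
    have e2 : a * y * a⁻¹ = x⁻¹ * y⁻¹ * x := by rw [← hyt]; group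
    rw [e2]
    have : Commute y x := hyx
    rw [mul_assoc, this.inv_left.eq, inv_mul_cancel_left]
  have htb : b * t ≠ t * b := by
    intro hc
    have h1 := h.comm_trans hm0 hV hF ha hb ht2 hab hc
    -- a x a = x a a
    rw [ht] at h1
    have h2 : a * (x * a) = x⁻¹ := by
      rw [← hxa, hai, mul_assoc]
    rw [h2, mul_assoc, sq_of_orderOf_two ha, mul_one] at h1
    apply hx.2.2.1
    apply eq_one_of_odd_of_sq hx.1
    rw [← inv_eq_iff_mul_eq_one]
    exact h1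
  obtain ⟨z, hz, e⟩ := h.involutions hm0 hV hF ht2 hmaxt hb htb
  have hw : z * x ∈ zpowers x := mul_mem hz (mem_zpowers x)
  have e1 : b = (z * x) * a := by rw [e, ht, mul_assoc]
  have h1 := inverts_of_mem_zpowers hxa hw
  have h2 : z * x = 1 := by
    apply eq_one_of_odd_of_sq (odd_of_mem_zpowers hx.1 hw)
    rw [← inv_eq_iff_mul_eq_one, ← h1, hai, mul_assoc, ← e1, hab, e1, mul_assoc,
      sq_of_orderOf_two ha, mul_one]
  rw [h2, one_mul] at e1
  exact hne e1.symm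

/-- The main theorem: a normal cyclic subgroup of odd order whose centralizer acts freely. -/
theorem exists_normal_cyclic (h : TwoSpread φ) : ∃ x : Γ, (zpowers x).Normal ∧ x ≠ 1 ∧
    Odd (orderOf x) ∧ ∀ g : Γ, g * x = x * g → ∀ v : V, v ≠ 1 → φ g v = v → g = 1 := by
  obtain ⟨m, hm0, hV, hF⟩ := h.exists_param
  obtain ⟨a, ha⟩ := h.even
  obtain ⟨x, hx, -⟩ := h.exists_max (b := 1) ha (by simp) (by simp)
  have hall : ∀ t : Γ, orderOf t = 2 → ∃ z ∈ zpowers x, t = z * a := by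
    intro t ht
    by_cases hta : t * a = a * t
    · have := h.comm_eq hm0 hV hF ht ha hta
      exact ⟨1, one_mem _, by rw [this, one_mul]⟩
    · exact h.involutions hm0 hV hF ha hx ht hta
  refine ⟨x, ?_, hx.2.2.1, hx.1, fun g hg v hv hgv =>
    h.free_centralizer hm0 hV hF ha hx hg hv hgv⟩
  have hgx : ∀ g : Γ, g * x * g⁻¹ ∈ zpowers x := by
    intro g
    have h1 : orderOf (g * (x * a) * g⁻¹) = 2 := by
      rw [Cfsg.Agent.H67.orderOf_conj_eq]
      exact orderOf_mul_two ha hx.1 hx.2.1 (mem_zpowers x)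
    have h2 : orderOf (g * a * g⁻¹) = 2 := by
      rw [Cfsg.Agent.H67.orderOf_conj_eq]; exact ha
    obtain ⟨z₁, hz₁, e₁⟩ := hall _ h1
    obtain ⟨z₂, hz₂, e₂⟩ := hall _ h2
    have e : g * x * g⁻¹ = (g * (x * a) * g⁻¹) * (g * a * g⁻¹)⁻¹ := by group
    rw [e, e₁, e₂]
    have e3 : z₁ * a * (z₂ * a)⁻¹ = z₁ * z₂⁻¹ := by group
    rw [e3]
    exact mul_mem hz₁ (inv_mem hz₂)
  refine ⟨fun y hy g => ?_⟩
  obtain ⟨k, rfl⟩ := mem_zpowers_iff.1 hy
  rw [← conj_zpow]
  exact zpow_mem (hgx g) k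

end TwoSpread

end Cfsg.Agent.H70
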