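import Mathlib
import Cfsg.Agent.H70.RealSpread
import Cfsg.Agent.H70.RealLift
import Cfsg.Agent.H72.ClassSize

/-!
# Real class sizes: two families of primes. Owner: helper70.
-/

set_option autoImplicit false

namespace Cfsg.Agent.H70

open Subgroup Cfsg.Agent.H72

open scoped Pointwise

/-- all prime divisors of `n` are in `π` -/
def PiN (π : Set ℕ) (n : ℕ) : Prop := ∀ p : ℕ, p.Prime → p ∣ n → p ∈ π

theorem PiN.coprime {π₁ π₂ : Set ℕ} (hd : Disjoint π₁ π₂) {m n : ℕ} (hm : PiN π₁ m)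
    (hn : PiN π₂ n) : m.Coprime n :=
  Nat.coprime_of_dvd fun k hk h1 h2 => Set.disjoint_left.1 hd (hm k hk h1) (hn k hk h2)

theorem PiN.of_dvd {π : Set ℕ} {m n : ℕ} (hn : PiN π n) (h : m ∣ n) : PiN π m :=
  fun p hp hpm => hn p hp (hpm.trans h)

section General

variable {G : Type*} [Group G] [Finite G]

theorem two_dvd_card_of_perm {α : Type*} [Finite α] (σ : Equiv.Perm α) (h2 : ∀ a, σ (σ a) = a)
    (h1 : ∀ a, σ a ≠ a) : 2 ∣ Nat.card α := by
  classical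
  have : Fact (Nat.Prime 2) := ⟨Nat.prime_two⟩
  have : Fintype α := Fintype.ofFinite _
  by_contra hcon
  rw [Nat.card_eq_fintype_card] at hcon
  have hσ : σ ^ 2 ^ 1 = 1 := by
    rw [pow_one, pow_two]
    ext a
    rw [Equiv.Perm.mul_apply, h2]; rfl
  obtain ⟨a, ha⟩ := Equiv.Perm.exists_fixed_point_of_prime hcon hσ
  exact h1 a ha

/-- L1 -/
theorem two_dvd_cs {x g : G} (hg : g * x * g⁻¹ = x⁻¹) (hx : x * x ≠ 1) :
    2 ∣ (centralizer ({x} : Set G)).index := by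
  rw [← card_Cl]
  have hinv : ∀ y ∈ Cl x, y⁻¹ ∈ Cl x := by
    rintro _ ⟨k, rfl⟩
    refine ⟨k * g, ?_⟩
    change k * g * x * (k * g)⁻¹ = (k * x * k⁻¹)⁻¹
    have e : k * g * x * (k * g)⁻¹ = k * (g * x * g⁻¹) * k⁻¹ := by group
    rw [e, hg]; group
  apply two_dvd_card_of_perm (α := Cl x)
    { toFun := fun y => ⟨(y : G)⁻¹, hinv y y.2⟩
      invFun := fun y => ⟨(y : G)⁻¹, hinv y y.2⟩
      left_inv := fun y => Subtype.ext (inv_inv _)
      right_inv := fun y => Subtype.ext (inv_inv _) }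
  · intro y; exact Subtype.ext (inv_inv _)
  · rintro ⟨y, hy⟩ he
    have h1 : y⁻¹ = y := congrArg Subtype.val he
    obtain ⟨k, hk⟩ := hy
    apply hx
    have h2 : y * y = 1 := by rw [← inv_eq_iff_mul_eq_one]; exact h1
    have h3 : k * (x * x) * k⁻¹ = 1 := by
      rw [← h2, ← hk]; group
    rw [mul_inv_eq_one, mul_eq_left] at h3
    exact h3

/-- right multiplication by an involution -/
theorem two_dvd_cs_of_mul {x v : G} (hv : v * v = 1) (hv1 : v ≠ 1)
    (h : ∀ y ∈ Cl x, y * v ∈ Cl x) : 2 ∣ (centralizer ({x} : Set G)).index := by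
  rw [← card_Cl]
  have e : ∀ y : G, y * v * v = y := fun y => by rw [mul_assoc, hv, mul_one]
  apply two_dvd_card_of_perm (α := Cl x)
    { toFun := fun y => ⟨(y : G) * v, h y y.2⟩
      invFun := fun y => ⟨(y : G) * v, h y y.2⟩
      left_inv := fun y => Subtype.ext (e _)
      right_inv := fun y => Subtype.ext (e _) }
  · intro y; exact Subtype.ext (e _)
  · rintro ⟨y, hy⟩ he
    have h1 : y * v = y := congrArg Subtype.val he
    exact hv1 (mul_eq_left.1 h1)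

theorem cs_dvd {x y : G} (h : y ∈ zpowers x) :
    (centralizer ({y} : Set G)).index ∣ (centralizer ({x} : Set G)).index := by
  apply index_dvd_of_le
  intro g hg
  rw [mem_centralizer_singleton_iff] at hg ⊢
  obtain ⟨k, rfl⟩ := mem_zpowers_iff.1 h
  exact ((show Commute g x from hg).zpow_right k)

/-- L3 -/
theorem exists_conj {x y : G}
    (hc : (centralizer ({x} : Set G)).index.Coprime (centralizer ({y} : Set G)).index) (g : G) :
    ∃ c : G, c * x = x * c ∧ g * y * g⁻¹ = c * y * c⁻¹ := by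
  obtain ⟨a, ha, b, hb, e⟩ := exists_mul_of_coprime_index hc g
  refine ⟨a, mem_centralizer_singleton_iff.1 ha, ?_⟩
  have hb' := mem_centralizer_singleton_iff.1 hb
  have e2 : g * y * g⁻¹ = a * (b * y) * b⁻¹ * a⁻¹ := by rw [e]; group
  rw [e2, hb']; group

/-- a 2-element centralizes some conjugate of `y` -/
theorem exists_comm_conj {y : G} (hy : ¬ 2 ∣ (centralizer ({y} : Set G)).index) {s : G}
    (hs : ∃ k : ℕ, s ^ 2 ^ k = 1) : ∃ g : G, s * (g * y * g⁻¹) = (g * y * g⁻¹) * s := by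
  have : Fact (Nat.Prime 2) := ⟨Nat.prime_two⟩
  obtain ⟨k, hk⟩ := hs
  have hsp : IsPGroup 2 (zpowers s) := by
    rintro ⟨_, ⟨i, rfl⟩⟩
    refine ⟨k, ?_⟩
    apply Subtype.ext
    change (s ^ i) ^ 2 ^ k = 1
    rw [← zpow_natCast, ← zpow_mul, mul_comm, zpow_mul, zpow_natCast, hk, one_zpow]
  obtain ⟨q, hq⟩ := hsp.nonempty_fixed_point_of_prime_not_dvd_card
    (G ⧸ centralizer ({y} : Set G)) hy
  obtain ⟨g, rfl⟩ := QuotientGroup.mk_surjective q
  refine ⟨g, ?_⟩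
  have h1 := hq ⟨s, mem_zpowers s⟩
  have h2 : ((s * g : G) : G ⧸ centralizer ({y} : Set G)) = g := h1
  rw [QuotientGroup.eq, mem_centralizer_singleton_iff] at h2
  have e1 : (s * g)⁻¹ * g = g⁻¹ * s⁻¹ * g := by group
  rw [e1] at h2
  have h3 : s⁻¹ * (g * y * g⁻¹) = (g * y * g⁻¹) * s⁻¹ := by
    calc s⁻¹ * (g * y * g⁻¹) = g * (g⁻¹ * s⁻¹ * g * y) * g⁻¹ := by group
      _ = g * (y * (g⁻¹ * s⁻¹ * g)) * g⁻¹ := by rw [h2]
      _ = _ := by group
  have h4 : Commute s⁻¹ (g * y * g⁻¹) := h3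
  exact (Commute.inv_left_iff.1 h4)

/-- for `x` and `y` of coprime class sizes: a 2-element `s` has a conjugate `c⁻¹ s c`, `c ∈ C(x)`,
centralizing `y` -/
theorem exists_comm_conj' {x y : G}
    (hc : (centralizer ({x} : Set G)).index.Coprime (centralizer ({y} : Set G)).index)
    (hy : ¬ 2 ∣ (centralizer ({y} : Set G)).index) {s : G}
    (hs : ∃ k : ℕ, s ^ 2 ^ k = 1) : ∃ c : G, c * x = x * c ∧ (c⁻¹ * s * c) * y = y * (c⁻¹ * s * c) := by
  obtain ⟨g, hg⟩ := exists_comm_conj hy hs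
  obtain ⟨c, hc1, hc2⟩ := exists_conj hc g
  refine ⟨c, hc1, ?_⟩
  rw [hc2] at hg
  calc c⁻¹ * s * c * y = c⁻¹ * (s * (c * y * c⁻¹)) * c := by group
    _ = c⁻¹ * (c * y * c⁻¹ * s) * c := by rw [hg]
    _ = _ := by group

/-- L4 -/
theorem comm_of_two {x y : G}
    (hc : (centralizer ({x} : Set G)).index.Coprime (centralizer ({y} : Set G)).index)
    (hy : ¬ 2 ∣ (centralizer ({y} : Set G)).index) (hx : ∃ k : ℕ, x ^ 2 ^ k = 1) : x * y = y * x := by
  obtain ⟨c, h1, h2⟩ := exists_comm_conj' hc hy hx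
  have e : c⁻¹ * x * c = x := by rw [mul_assoc, ← h1, inv_mul_cancel_left]
  rw [e] at h2
  exact h2

/-- a real element is inverted by a 2-element -/
theorem exists_two_inverts {x g : G} (hg : g * x * g⁻¹ = x⁻¹) :
    ∃ s ∈ zpowers g, (∃ k : ℕ, s ^ 2 ^ k = 1) ∧ s * x * s⁻¹ = x⁻¹ := by
  obtain ⟨k, m, hm, hkm⟩ := Nat.exists_eq_two_pow_mul_odd (orderOf_pos g).ne'
  exact ⟨g ^ m, pow_mem (mem_zpowers g) m, ⟨k, by rw [← pow_mul, mul_comm, ← hkm, pow_orderOf_eq_one]⟩,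
    odd_pow_inverts hg hm⟩

end General

structure RHyp (G : Type*) [Group G] (π₁ π₂ : Set ℕ) : Prop where
  disj : Disjoint π₁ π₂
  two : 2 ∉ π₂
  dich : ∀ x g : G, g * x * g⁻¹ = x⁻¹ →
    PiN π₁ (centralizer ({x} : Set G)).index ∨ PiN π₂ (centralizer ({x} : Set G)).index

namespace RHyp

variable {G : Type*} [Group G] [Finite G] {π₁ π₂ : Set ℕ}

theorem pi1_of_even (h : RHyp G π₁ π₂) {x g : G} (hg : g * x * g⁻¹ = x⁻¹)
    (h2 : 2 ∣ (centralizer ({x} : Set G)).index) : PiN π₁ (centralizer ({x} : Set G)).index := by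
  rcases h.dich x g hg with h1 | h1
  · exact h1
  · exact absurd (h1 2 Nat.prime_two h2) h.two

theorem pi1_of_sq (h : RHyp G π₁ π₂) {x g : G} (hg : g * x * g⁻¹ = x⁻¹)
    (h2 : x * x ≠ 1) : PiN π₁ (centralizer ({x} : Set G)).index :=
  h.pi1_of_even hg (two_dvd_cs hg h2)

theorem pi1_of_odd (h : RHyp G π₁ π₂) {x g : G} (hg : g * x * g⁻¹ = x⁻¹)
    (h2 : Odd (orderOf x)) : PiN π₁ (centralizer ({x} : Set G)).index := by
  by_cases h1 : x * x = 1
  · have := eq_one_of_odd_of_sq h2 h1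
    subst this
    intro p hp hd
    have e : (centralizer ({1} : Set G)).index = 1 := by
      rw [Subgroup.index_eq_one, eq_top_iff]
      intro g _
      rw [mem_centralizer_singleton_iff]; simp
    rw [e] at hd
    exact absurd (Nat.dvd_one.1 hd) hp.one_lt.ne'
  · exact h.pi1_of_sq hg h1

omit [Finite G] in
theorem not_two (h : RHyp G π₁ π₂) {y : G} (hy : PiN π₂ (centralizer ({y} : Set G)).index) :
    ¬ 2 ∣ (centralizer ({y} : Set G)).index := fun h2 => h.two (hy 2 Nat.prime_two h2)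

/-- L6 -/
theorem sq_of_pi2 (h : RHyp G π₁ π₂) {y g : G} (hg : g * y * g⁻¹ = y⁻¹)
    (hy : PiN π₂ (centralizer ({y} : Set G)).index) : y * y = 1 := by
  by_contra hne
  exact h.not_two hy (two_dvd_cs hg hne)

/-- L5 -/
theorem not_comm (h : RHyp G π₁ π₂) {x g y : G} (hx : Odd (orderOf x)) (hx1 : x ≠ 1)
    (hg : g * x * g⁻¹ = x⁻¹) (hy : PiN π₂ (centralizer ({y} : Set G)).index) (hyy : y * y = 1)
    (hyc : y ∉ center G) (hc : x * y = y * x) : False := by
  obtain ⟨s, -, hs, hsx⟩ := exists_two_inverts hg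
  have hx2 : x * x ≠ 1 := fun hc => hx1 (eq_one_of_odd_of_sq hx hc)
  have h1 := h.pi1_of_odd hg hx
  have hcop := h1.coprime h.disj hy
  obtain ⟨c, hcx, hcy⟩ := exists_comm_conj' hcop (h.not_two hy) hs
  set s' := c⁻¹ * s * c with hs'
  have hyi : y⁻¹ = y := inv_eq_of_mul_eq_one_left hyy
  have h2 : s' * x * s'⁻¹ = x⁻¹ := by
    have e : s' * x * s'⁻¹ = c⁻¹ * (s * (c * x * c⁻¹) * s⁻¹) * c := by rw [hs']; group
    rw [e, hcx, mul_inv_cancel_right, hsx]
    have : Commute c x := hcx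
    have h3 : Commute c x⁻¹ := this.inv_right
    rw [mul_assoc, ← h3.eq, inv_mul_cancel_left]
  have h3 : s' * (x * y) * s'⁻¹ = (x * y)⁻¹ := by
    have e : s' * (x * y) * s'⁻¹ = (s' * x * s'⁻¹) * (s' * y * s'⁻¹) := by group
    rw [e, h2, hcy, mul_inv_cancel_right, mul_inv_rev, hyi]
    have : Commute x y := hc
    exact this.inv_left.eq
  have hcom : Commute x y := hc
  -- `x` and `y` are powers of `x y`
  obtain ⟨n, hn⟩ := hx
  have hxm : x ∈ zpowers (x * y) := by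
    have e : (x * y) ^ (2 * (n + 1)) = x := by
      rw [hcom.mul_pow, pow_mul y, pow_two y, hyy, one_pow, mul_one]
      have : 2 * (n + 1) = orderOf x + 1 := by omega
      rw [this, pow_succ, pow_orderOf_eq_one, one_mul]
    have h4 : (x * y) ^ (2 * (n + 1)) ∈ zpowers (x * y) := pow_mem (mem_zpowers _) _
    rwa [e] at h4
  have hym : y ∈ zpowers (x * y) := by
    have e : (x * y) ^ (2 * n + 1) = y := by
      rw [hcom.mul_pow, ← hn, pow_orderOf_eq_one, one_mul, hn, pow_succ, pow_mul, pow_two, hyy,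
        one_pow, one_mul]
    have h4 : (x * y) ^ (2 * n + 1) ∈ zpowers (x * y) := pow_mem (mem_zpowers _) _
    rwa [e] at h4
  have h5 := h.pi1_of_even h3 ((two_dvd_cs hg hx2).trans (cs_dvd hxm))
  have h6 : (centralizer ({y} : Set G)).index ≠ 1 := fun hc => hyc (Cx_index_eq_one_iff.1 hc)
  obtain ⟨p, hp, hpd⟩ := Nat.exists_prime_and_dvd h6
  exact Set.disjoint_left.1 h.disj (h5 p hp (hpd.trans (cs_dvd hym))) (hy p hp hpd)

/-- L7 -/
theorem exists_sylow (h : RHyp G π₁ π₂) {y : G} (hy : PiN π₂ (centralizer ({y} : Set G)).index)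
    (hyy : y * y = 1) (hyc : y ∉ center G) :
    ∃ P : Sylow 2 G, (∀ g ∈ P, g * y = y * g) ∧
      (∀ g, g * y = y * g → g ∈ normalizer (P : Set G)) := by
  have : Fact (Nat.Prime 2) := ⟨Nat.prime_two⟩
  set C := centralizer ({y} : Set G) with hC
  let T : Sylow 2 C := default
  have hTn : (T : Subgroup C).Normal := by
    apply Cfsg.Agent.H67.sylow_two_normal_of_no_odd_real
    intro x g hx hg
    by_contra hx1
    have h1 : Odd (orderOf (x : G)) := by
      have : orderOf (x : G) = orderOf x := orderOf_injective C.subtype C.subtype_injective x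
      rw [this]; exact hx
    exact h.not_comm h1 (fun hc => hx1 (Subtype.ext hc)) (congrArg Subtype.val hg) hy hyy hyc
      (mem_centralizer_singleton_iff.1 x.2)
  have hTi : ¬ 2 ∣ ((T : Subgroup C).map C.subtype).index := by
    rw [Subgroup.index_map, C.ker_subtype, sup_bot_eq, C.range_subtype]
    intro hd
    rcases (Nat.Prime.dvd_mul Nat.prime_two).1 hd with h1 | h1
    · exact T.not_dvd_index h1
    · exact h.not_two hy h1
  let P : Sylow 2 G := IsPGroup.toSylow (T.2.map C.subtype) hTi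
  have hPc : (P : Subgroup G) = (T : Subgroup C).map C.subtype := IsPGroup.toSylow_coe _ _
  refine ⟨P, ?_, ?_⟩
  · intro g hg
    have h1 : g ∈ (T : Subgroup C).map C.subtype := by rw [← hPc]; exact hg
    obtain ⟨z, -, rfl⟩ := h1
    exact mem_centralizer_singleton_iff.1 z.2
  · intro g hg
    have hgC : g ∈ C := mem_centralizer_singleton_iff.2 hg
    change g ∈ normalizer ((P : Subgroup G) : Set G)
    rw [hPc, mem_normalizer_iff]
    intro x
    constructor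
    · rintro ⟨z, hz, rfl⟩
      exact ⟨⟨g, hgC⟩ * z * ⟨g, hgC⟩⁻¹, hTn.conj_mem z hz _, rfl⟩
    · rintro ⟨z, hz, hzx⟩
      refine ⟨⟨g, hgC⟩⁻¹ * z * ⟨g, hgC⟩, ?_, ?_⟩
      · have := hTn.conj_mem z hz ⟨g, hgC⟩⁻¹
        rwa [inv_inv] at this
      · change g⁻¹ * (z : G) * g = x
        have hzx' : (z : G) = g * x * g⁻¹ := hzx
        rw [hzx']; group


omit [Finite G] in
theorem isConj_mem_Cl {x y : G} (hy : y ∈ Cl x) : ∃ g, y = g * x * g⁻¹ := by
  obtain ⟨g, hg⟩ := hy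
  exact ⟨g, hg.symm⟩

/-- A9: right multiplication by `y₁ y₂⁻¹`, `y₁, y₂` conjugates of `y` -/
theorem mul_mem_Cl {x y : G}
    (hc : (centralizer ({x} : Set G)).index.Coprime (centralizer ({y} : Set G)).index)
    (hc' : (centralizer ({x * y} : Set G)).index.Coprime (centralizer ({y} : Set G)).index)
    (g k : G) : ∀ z ∈ Cl x, z * ((g * y * g⁻¹) * (k * y * k⁻¹)⁻¹) ∈ Cl x := by
  rintro _ ⟨l, rfl⟩
  -- reduce to `l = 1`
  obtain ⟨c, hc1, hc2⟩ := exists_conj hc (l⁻¹ * g)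
  obtain ⟨d, hd1, hd2⟩ := exists_conj hc' (c⁻¹ * l⁻¹ * k)
  refine ⟨l * c * d, ?_⟩
  have e1 : g * y * g⁻¹ = l * (c * y * c⁻¹) * l⁻¹ := by rw [← hc2]; group
  have e2 : k * y * k⁻¹ = l * c * (d * y * d⁻¹) * c⁻¹ * l⁻¹ := by rw [← hd2]; group
  change l * c * d * x * (l * c * d)⁻¹ = l * x * l⁻¹ * (g * y * g⁻¹ * (k * y * k⁻¹)⁻¹)
  rw [e1, e2]
  have e3 : l * x * l⁻¹ * (l * (c * y * c⁻¹) * l⁻¹ * (l * c * (d * y * d⁻¹) * c⁻¹ * l⁻¹)⁻¹) =
      l * (x * c) * y * d * y⁻¹ * d⁻¹ * c⁻¹ * l⁻¹ := by group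
  rw [e3, ← hc1]
  have e4 : l * (c * x) * y * d * y⁻¹ * d⁻¹ * c⁻¹ * l⁻¹ =
      l * c * ((x * y) * d) * y⁻¹ * d⁻¹ * c⁻¹ * l⁻¹ := by group
  rw [e4, ← hd1]; group

/-- if moreover the conjugates of `y` are commuting involutions then `y` is central -/
theorem central_of_commuting {x y : G}
    (hc : (centralizer ({x} : Set G)).index.Coprime (centralizer ({y} : Set G)).index)
    (hc' : (centralizer ({x * y} : Set G)).index.Coprime (centralizer ({y} : Set G)).index)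
    (hx : ¬ 2 ∣ (centralizer ({x} : Set G)).index) (hyy : y * y = 1)
    (hcom : ∀ g k : G, (g * y * g⁻¹) * (k * y * k⁻¹) = (k * y * k⁻¹) * (g * y * g⁻¹)) :
    y ∈ center G := by
  rw [mem_center_iff]
  intro g
  have h1 : ∀ k : G, (k * y * k⁻¹) * (k * y * k⁻¹) = 1 := by
    intro k
    have e : (k * y * k⁻¹) * (k * y * k⁻¹) = k * (y * y) * k⁻¹ := by group
    rw [e, hyy]; group
  have h2 : ((g * y * g⁻¹) * (1 * y * 1⁻¹)⁻¹) = 1 := by
    by_contra hne
    apply hx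
    apply two_dvd_cs_of_mul (v := (g * y * g⁻¹) * (1 * y * 1⁻¹)⁻¹) _ hne
    · exact mul_mem_Cl hc hc' g 1
    · have e1 : (1 * y * 1⁻¹)⁻¹ = 1 * y * 1⁻¹ := inv_eq_of_mul_eq_one_left (h1 1)
      rw [e1]
      have e2 : g * y * g⁻¹ * (1 * y * 1⁻¹) * (g * y * g⁻¹ * (1 * y * 1⁻¹)) =
        g * y * g⁻¹ * ((1 * y * 1⁻¹) * (g * y * g⁻¹)) * (1 * y * 1⁻¹) := by group
      rw [e2, hcom 1 g]
      have e3 : g * y * g⁻¹ * (g * y * g⁻¹ * (1 * y * 1⁻¹)) * (1 * y * 1⁻¹) =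
        ((g * y * g⁻¹) * (g * y * g⁻¹)) * ((1 * y * 1⁻¹) * (1 * y * 1⁻¹)) := by group
      rw [e3, h1, h1, one_mul]
  rw [mul_inv_eq_one] at h2
  have h3 : g * y * g⁻¹ = y := by rw [h2]; group
  exact mul_inv_eq_iff_eq_mul.1 h3

end RHyp

/-- Part (i) -/
theorem exists_even_class {G : Type*} [Group G] [Finite G] {π₁ π₂ : Set ℕ} (hd : Disjoint π₁ π₂)
    (hdich : ∀ x g : G, g * x * g⁻¹ = x⁻¹ →
      PiN π₁ (centralizer ({x} : Set G)).index ∨ PiN π₂ (centralizer ({x} : Set G)).index)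
    {x₁ g₁ : G} (hx₁ : g₁ * x₁ * g₁⁻¹ = x₁⁻¹) {x₂ g₂ : G} (hx₂ : g₂ * x₂ * g₂⁻¹ = x₂⁻¹)
    (h1 : ¬ PiN π₂ (centralizer ({x₁} : Set G)).index)
    (h2 : ¬ PiN π₁ (centralizer ({x₂} : Set G)).index) :
    ∃ x g : G, g * x * g⁻¹ = x⁻¹ ∧ 2 ∣ (centralizer ({x} : Set G)).index := by
  by_contra hcon
  push Not at hcon
  have hsq : ∀ x g : G, g * x * g⁻¹ = x⁻¹ → x * x = 1 := by
    intro x g hg
    by_contra hne
    exact hcon x g hg (two_dvd_cs hg hne)
  have h1' : PiN π₁ (centralizer ({x₁} : Set G)).index := (hdich x₁ g₁ hx₁).resolve_right h1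
  have h2' : PiN π₂ (centralizer ({x₂} : Set G)).index := (hdich x₂ g₂ hx₂).resolve_left h2
  have hx₁1 := hsq x₁ g₁ hx₁
  have hx₂1 := hsq x₂ g₂ hx₂
  -- commuting
  have hcomm : ∀ a b : G, a * a = 1 → b * b = 1 → a * b = b * a := by
    intro a b ha hb
    have hai : a⁻¹ = a := inv_eq_of_mul_eq_one_left ha
    have hbi : b⁻¹ = b := inv_eq_of_mul_eq_one_left hb
    have h3 : a * (a * b) * a⁻¹ = (a * b)⁻¹ := by
      rw [mul_inv_rev, hai, hbi, ← mul_assoc, ha, one_mul]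
    have h4 := hsq (a * b) a h3
    rw [← inv_eq_iff_mul_eq_one, mul_inv_rev, hai, hbi] at h4
    exact h4.symm
  have hconj : ∀ a g : G, a * a = 1 → (g * a * g⁻¹) * (g * a * g⁻¹) = 1 := by
    intro a g ha
    have e : (g * a * g⁻¹) * (g * a * g⁻¹) = g * (a * a) * g⁻¹ := by group
    rw [e, ha]; group
  have hreal : ∀ a : G, a * a = 1 → 1 * a * 1⁻¹ = a⁻¹ := by
    intro a ha
    rw [inv_eq_of_mul_eq_one_left ha]; group
  have h12 := hcomm x₁ x₂ hx₁1 hx₂1
  have hp : (x₁ * x₂) * (x₁ * x₂) = 1 := by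
    have e : (x₁ * x₂) * (x₁ * x₂) = x₁ * (x₂ * x₁) * x₂ := by group
    rw [e, ← h12]
    have e2 : x₁ * (x₁ * x₂) * x₂ = (x₁ * x₁) * (x₂ * x₂) := by group
    rw [e2, hx₁1, hx₂1, one_mul]
  have hone : ∀ y : G, y ∈ center G → (centralizer ({y} : Set G)).index = 1 := fun y hy =>
    Cx_index_eq_one_iff.2 hy
  have hPi1 : ∀ (π : Set ℕ) (y : G), y ∈ center G → PiN π (centralizer ({y} : Set G)).index := by
    intro π y hy p hp hpd
    rw [hone y hy] at hpd
    exact absurd (Nat.dvd_one.1 hpd) hp.one_lt.ne'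
  rcases hdich (x₁ * x₂) 1 (hreal _ hp) with h3 | h3
  · -- `x₂` is central
    apply h2
    apply hPi1
    apply RHyp.central_of_commuting (x := x₁) (h1'.coprime hd h2') (h3.coprime hd h2')
      (hcon x₁ g₁ hx₁) hx₂1
    intro g k
    exact hcomm _ _ (hconj _ _ hx₂1) (hconj _ _ hx₂1)
  · apply h1
    apply hPi1
    have h3' : PiN π₂ (centralizer ({x₂ * x₁} : Set G)).index := by rw [← h12]; exact h3
    apply RHyp.central_of_commuting (x := x₂) (h1'.coprime hd h2').symm (h1'.coprime hd h3').symm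
      (hcon x₂ g₂ hx₂) hx₁1
    intro g k
    exact hcomm _ _ (hconj _ _ hx₁1) (hconj _ _ hx₁1)

end Cfsg.Agent.H70
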