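import Mathlib
import Cfsg.Agent.H70.RealClass
import Cfsg.Agent.S0200

/-!
# Real class sizes, the case of an involution outside `O_2(G)`. Owner: helper70.
-/

set_option autoImplicit false

namespace Cfsg.Agent.H70

open Subgroup Cfsg.Agent.H72

namespace RHyp

variable {G : Type*} [Group G] [Finite G] {π₁ π₂ : Set ℕ}

theorem caseA (h : RHyp G π₁ π₂) {y : G} (hy : PiN π₂ (centralizer ({y} : Set G)).index)
    (hyy : y * y = 1) (hyc : y ∉ center G)
    (hO : ∀ N : Subgroup G, N.Normal → IsPGroup 2 N → y ∉ N) :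
    ∃ (A : Subgroup G) (P : Sylow 2 G), A.Normal ∧ (∀ a ∈ A, y * a * y⁻¹ = a⁻¹) ∧
      PiN π₂ (Nat.card A) ∧ (A ⊔ (P : Subgroup G)).Normal := by
  classical
  have hyi : y⁻¹ = y := inv_eq_of_mul_eq_one_left hyy
  have hy1 : y ≠ 1 := by rintro rfl; exact hyc (one_mem _)
  have hy2 : orderOf y = 2 := orderOf_two_of_sq hyy hy1
  have hyn := h.not_two hy
  -- Step 1
  have hstep1 : ∀ u : G, Odd (orderOf u) → ∀ k : G,
      (k * y * k⁻¹) * u * (k * y * k⁻¹)⁻¹ = u⁻¹ → y * u * y⁻¹ = u⁻¹ := by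
    intro u hu k hk
    have hcop := (h.pi1_of_odd hk hu).coprime h.disj hy
    obtain ⟨d, hd1, hd2⟩ := exists_conj hcop k
    rw [hd2] at hk
    have e : y * u * y⁻¹ = d⁻¹ * ((d * y * d⁻¹) * (d * u * d⁻¹) * (d * y * d⁻¹)⁻¹) * d := by group
    rw [e, hd1, mul_inv_cancel_right, hk]
    have : Commute d u⁻¹ := (show Commute d u from hd1).inv_right
    rw [mul_assoc, ← this.eq, inv_mul_cancel_left]
  have hstep1' : ∀ u : G, Odd (orderOf u) → y * u * y⁻¹ = u⁻¹ → ∀ g : G,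
      (g * y * g⁻¹) * u * (g * y * g⁻¹)⁻¹ = u⁻¹ := by
    intro u hu hk g
    have hcop := (h.pi1_of_odd hk hu).coprime h.disj hy
    obtain ⟨c, hc1, hc2⟩ := exists_conj hcop g
    rw [hc2]
    have hc1' : c⁻¹ * u * c = u := by rw [mul_assoc, ← hc1, inv_mul_cancel_left]
    have e : c * y * c⁻¹ * u * (c * y * c⁻¹)⁻¹ = c * (y * (c⁻¹ * u * c) * y⁻¹) * c⁻¹ := by group
    rw [e, hc1', hk]
    have : Commute c u⁻¹ := (show Commute c u from hc1).inv_right
    rw [this.eq, mul_inv_cancel_right]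
  obtain ⟨u₀, hu₀1, hu₀o, hu₀y⟩ := Cfsg.Agent.S0200.result y hy2 hO
  have hconj2 : ∀ g : G, (g * y * g⁻¹) * (g * y * g⁻¹) = 1 := by
    intro g
    have e : (g * y * g⁻¹) * (g * y * g⁻¹) = g * (y * y) * g⁻¹ := by group
    rw [e, hyy]; group
  have hconji : ∀ g : G, (g * y * g⁻¹)⁻¹ = g * y * g⁻¹ := fun g =>
    inv_eq_of_mul_eq_one_left (hconj2 g)
  -- Step 3
  have hodd : ∀ g : G, Odd (orderOf (g * y * g⁻¹ * y)) := by
    intro g
    set y' := g * y * g⁻¹ with hy'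
    set v := y' * y with hv
    have hvy : y * v * y⁻¹ = v⁻¹ := by
      have e : y * (y' * y) * y⁻¹ = y * y' := by group
      rw [hv, e, mul_inv_rev, hyi, hy', hconji g]
    obtain ⟨k, m, hm, hkm⟩ := Nat.exists_eq_two_pow_mul_odd (orderOf_pos v).ne'
    obtain ⟨i, j, hij, hi, hj⟩ := Cfsg.Agent.H67.exists_decomp v (2 ^ k) m hkm
      ((Nat.coprime_two_left.2 hm).pow_left k)
    set w := v ^ i with hw
    set a := v ^ j with ha
    have haw : Commute a w := (Commute.refl v).pow_pow j i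
    have hay : y * a * y⁻¹ = a⁻¹ := inverts_of_mem_zpowers hvy (pow_mem (mem_zpowers v) j)
    have hwy : y * w * y⁻¹ = w⁻¹ := inverts_of_mem_zpowers hvy (pow_mem (mem_zpowers v) i)
    have hao : Odd (orderOf a) := by rw [hj]; exact hm
    obtain ⟨b, hb, hba⟩ := exists_sqrt hao
    have hby := inverts_of_mem_zpowers hay hb
    have hy₁ : b * y * b⁻¹ = a * y := by
      have e : y * b⁻¹ = b * y := by
        have h1 := inverts_of_mem_zpowers hay (inv_mem hb)
        rw [inv_inv] at h1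
        exact mul_inv_eq_iff_eq_mul.1 h1
      rw [mul_assoc, e, ← mul_assoc, hba]
    have hy'1 : y' = w * (a * y) := by
      rw [← mul_assoc, ← hij, hv, mul_assoc, hyy, mul_one]
    suffices hw1 : w = 1 by
      have : v = a := by rw [hij, hw1, one_mul]
      rw [this]; exact hao
    by_contra hw1
    have hwinv : (a * y) * w * (a * y)⁻¹ = w⁻¹ := by
      have e : (a * y) * w * (a * y)⁻¹ = a * (y * w * y⁻¹) * a⁻¹ := by group
      rw [e, hwy, (haw.inv_right).eq, mul_inv_cancel_right]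
    have hayi : (a * y)⁻¹ = a * y := by rw [← hy₁]; exact hconji b
    have hwt : ∃ k : ℕ, w ^ 2 ^ k = 1 := ⟨k, by rw [← hi, pow_orderOf_eq_one]⟩
    -- type 1
    have htype1 : ¬ PiN π₁ (centralizer ({w} : Set G)).index := by
      intro h1
      have hcop := h1.coprime h.disj hy
      have hwc := comm_of_two hcop hyn hwt
      have hwc1 : w * (a * y) = (a * y) * w := by
        rw [← mul_assoc, ← haw.eq, mul_assoc, hwc, mul_assoc]
      have hww : w * w = 1 := by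
        rw [← hwc1, mul_inv_cancel_right] at hwinv
        rw [← inv_eq_iff_mul_eq_one]; exact hwinv.symm
      apply hyn
      apply two_dvd_cs_of_mul hww hw1
      rintro _ ⟨l, rfl⟩
      obtain ⟨c₁, hc₁, e₁⟩ := exists_conj hcop l
      obtain ⟨c₂, hc₂, e₂⟩ := exists_conj hcop b
      change l * y * l⁻¹ * w ∈ Cl y
      refine ⟨c₁ * c₂⁻¹ * g, ?_⟩
      have e3 : g * y * g⁻¹ = (c₂ * y * c₂⁻¹) * w := by
        rw [← e₂, hy₁, ← hwc1, ← hy'1]
      have hc₂' : c₂⁻¹ * w * c₂ = w := by rw [mul_assoc, ← hc₂, inv_mul_cancel_left]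
      have hc₁' : c₁ * w * c₁⁻¹ = w := by rw [hc₁, mul_inv_cancel_right]
      change c₁ * c₂⁻¹ * g * y * (c₁ * c₂⁻¹ * g)⁻¹ = l * y * l⁻¹ * w
      have e4 : c₁ * c₂⁻¹ * g * y * (c₁ * c₂⁻¹ * g)⁻¹ = c₁ * c₂⁻¹ * (g * y * g⁻¹) * c₂ * c₁⁻¹ := by group
      rw [e4, e3, e₁]
      have e5 : c₁ * c₂⁻¹ * (c₂ * y * c₂⁻¹ * w) * c₂ * c₁⁻¹ = c₁ * y * (c₂⁻¹ * w * c₂) * c₁⁻¹ := by group
      rw [e5, hc₂']
      have e6 : c₁ * y * w * c₁⁻¹ = c₁ * y * c₁⁻¹ * (c₁ * w * c₁⁻¹) := by group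
      rw [e6, hc₁']
    rcases h.dich w (a * y) hwinv with h1 | h2
    · exact htype1 h1
    · by_cases hwc : w ∈ center G
      · apply htype1
        intro p hp hpd
        rw [Cx_index_eq_one_iff.2 hwc] at hpd
        exact absurd (Nat.dvd_one.1 hpd) hp.one_lt.ne'
      · have hww := h.sq_of_pi2 hwinv h2
        apply h.not_comm hu₀o hu₀1 hu₀y h2 hww hwc
        -- `u₀` commutes with `w = y' (a y)`
        have e1 : w = y' * (b * y * b⁻¹) := by
          rw [hy₁]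
          have : y' * (a * y) = w * ((a * y) * (a * y)) := by rw [hy'1, mul_assoc]
          rw [this, ← hy₁, hconj2 b, mul_one]
        have h3 := hstep1' u₀ hu₀o hu₀y g
        have h4 := hstep1' u₀ hu₀o hu₀y b
        rw [← hy'] at h3
        have h5 : w * u₀ * w⁻¹ = u₀ := by
          rw [e1]
          have e2 : y' * (b * y * b⁻¹) * u₀ * (y' * (b * y * b⁻¹))⁻¹ =
            y' * ((b * y * b⁻¹) * u₀ * (b * y * b⁻¹)⁻¹) * y'⁻¹ := by group
          rw [e2, h4]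
          have := congrArg (fun z => z⁻¹) h3
          simp only [mul_inv_rev, inv_inv] at this
          rw [← mul_assoc] at this
          exact this
        exact (mul_inv_eq_iff_eq_mul.1 h5).symm
  have hyinv : ∀ g : G, y * (g * y * g⁻¹ * y) * y⁻¹ = (g * y * g⁻¹ * y)⁻¹ := by
    intro g
    have e : y * (g * y * g⁻¹ * y) * y⁻¹ = y * (g * y * g⁻¹) := by group
    rw [e, mul_inv_rev (g * y * g⁻¹) y, hconji g, hyi]
  -- the square root
  have hroot : ∀ g : G, ∃ b ∈ zpowers (g * y * g⁻¹ * y), b * b = g * y * g⁻¹ * y :=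
    fun g => exists_sqrt (hodd g)
  let A : Subgroup G :=
    { carrier := {z | ∃ g, g * y * g⁻¹ * y = z}
      one_mem' := ⟨1, by rw [one_mul, inv_one, mul_one, hyy]⟩
      mul_mem' := by
        rintro _ _ ⟨g, rfl⟩ ⟨k, rfl⟩
        obtain ⟨b, hb, hbb⟩ := hroot g
        have h1 : (k * y * k⁻¹) * b * (k * y * k⁻¹)⁻¹ = b⁻¹ :=
          inverts_of_mem_zpowers (hstep1' _ (hodd g) (hyinv g) k) hb
        refine ⟨b * k, ?_⟩
        have e1 : (k * y * k⁻¹) * b⁻¹ = b * (k * y * k⁻¹) := by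
          have h2 : b⁻¹ * (k * y * k⁻¹) = (k * y * k⁻¹) * b := by
            rw [← h1, inv_mul_cancel_right]
          calc (k * y * k⁻¹) * b⁻¹ = b * (b⁻¹ * (k * y * k⁻¹)) * b⁻¹ := by group
            _ = b * (k * y * k⁻¹) := by rw [h2]; group
        calc b * k * y * (b * k)⁻¹ * y = b * ((k * y * k⁻¹) * b⁻¹) * y := by group
          _ = (b * b) * (k * y * k⁻¹) * y := by rw [e1]; group
          _ = g * y * g⁻¹ * y * (k * y * k⁻¹ * y) := by rw [hbb]; group
      inv_mem' := by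
        rintro _ ⟨g, rfl⟩
        refine ⟨y * g, ?_⟩
        rw [mul_inv_rev (g * y * g⁻¹) y, hconji g, mul_inv_rev y g, hyi]
        calc y * g * y * (g⁻¹ * y) * y = y * (g * y * g⁻¹) * (y * y) := by group
          _ = y * (g * y * g⁻¹) := by rw [hyy, mul_one] }
  have hAmem : ∀ z : G, z ∈ A ↔ ∃ g, g * y * g⁻¹ * y = z := fun z => Iff.rfl
  have hAn : A.Normal := by
    constructor
    rintro _ ⟨g, rfl⟩ k
    have e : k * (g * y * g⁻¹ * y) * k⁻¹ =
        (k * g * y * (k * g)⁻¹ * y) * (k * y * k⁻¹ * y)⁻¹ := by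
      rw [mul_inv_rev (k * y * k⁻¹), hconji k, hyi]
      calc k * (g * y * g⁻¹ * y) * k⁻¹ = k * g * y * (k * g)⁻¹ * (k * y * k⁻¹) := by group
        _ = k * g * y * (k * g)⁻¹ * (y * y) * (k * y * k⁻¹) := by rw [hyy, mul_one]
        _ = _ := by group
    rw [e]
    exact A.mul_mem ⟨k * g, rfl⟩ (A.inv_mem ⟨k, rfl⟩)
  have hAinv : ∀ a ∈ A, y * a * y⁻¹ = a⁻¹ := by
    rintro _ ⟨g, rfl⟩
    exact hyinv g
  have hAcard : Nat.card A = (centralizer ({y} : Set G)).index := by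
    rw [← card_Cl]
    apply Nat.card_congr
    refine ⟨fun a => ⟨(a : G) * y, ?_⟩, fun z => ⟨(z : G) * y, ?_⟩, ?_, ?_⟩
    · obtain ⟨a, g, rfl⟩ := a
      refine ⟨g, ?_⟩
      change g * y * g⁻¹ = g * y * g⁻¹ * y * y
      rw [mul_assoc (g * y * g⁻¹), hyy, mul_one]
    · obtain ⟨a, g, rfl⟩ := z
      exact ⟨g, rfl⟩
    · intro a
      apply Subtype.ext
      change (a : G) * y * y = a
      rw [mul_assoc, hyy, mul_one]
    · intro a
      apply Subtype.ext
      change (a : G) * y * y = a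
      rw [mul_assoc, hyy, mul_one]
  obtain ⟨P, hP1, hP2⟩ := h.exists_sylow hy hyy hyc
  refine ⟨A, P, hAn, hAinv, by rw [hAcard]; exact hy, ?_⟩
  constructor
  have hconjP : ∀ p ∈ (P : Subgroup G), ∀ g : G, g * p * g⁻¹ ∈ A ⊔ (P : Subgroup G) := by
    intro p hp g
    obtain ⟨b, hb, hbb⟩ := hroot g
    have hbA : b ∈ A := (zpowers_le.2 (show g * y * g⁻¹ * y ∈ A from ⟨g, rfl⟩)) hb
    have h1 : y * b * y⁻¹ = b⁻¹ := hAinv b hbA
    have h2 : y * b⁻¹ = b * y := by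
      have h3 := hAinv b⁻¹ (A.inv_mem hbA)
      rw [inv_inv] at h3
      exact mul_inv_eq_iff_eq_mul.1 h3
    have hc : (b⁻¹ * g) * y = y * (b⁻¹ * g) := by
      have h4 : g * y * g⁻¹ = b * y * b⁻¹ := by
        rw [mul_assoc b, h2, ← mul_assoc, hbb, mul_assoc (g * y * g⁻¹), hyy, mul_one]
      calc (b⁻¹ * g) * y = b⁻¹ * (g * y * g⁻¹) * g := by group
        _ = y * (b⁻¹ * g) := by rw [h4]; group
    have hcN := hP2 _ hc
    have h5 : (b⁻¹ * g) * p * (b⁻¹ * g)⁻¹ ∈ (P : Subgroup G) := by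
      change b⁻¹ * g ∈ normalizer ((P : Subgroup G) : Set G) at hcN
      rw [mem_normalizer_iff] at hcN
      exact (hcN p).1 hp
    have e : g * p * g⁻¹ = b * ((b⁻¹ * g) * p * (b⁻¹ * g)⁻¹) * b⁻¹ := by group
    rw [e]
    have hbA' : b ∈ A ⊔ (P : Subgroup G) := le_sup_left (a := A) hbA
    exact mul_mem (mul_mem hbA' (le_sup_right (a := A) h5)) (inv_mem hbA')
  intro z hz g
  rw [← SetLike.mem_coe, Subgroup.normal_mul] at hz
  obtain ⟨a, ha, p, hp, rfl⟩ := hz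
  have e : g * ((fun x1 x2 => x1 * x2) a p) * g⁻¹ = (g * a * g⁻¹) * (g * p * g⁻¹) := by
    change g * (a * p) * g⁻¹ = _
    group
  rw [e]
  exact mul_mem (le_sup_left (a := A) (hAn.conj_mem a ha g)) (hconjP p hp g)

end RHyp

end Cfsg.Agent.H70
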