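import Mathlib
import Cfsg.Agent.H70.RealClass
import Cfsg.Agent.H91.GenCent

/-!
# Real class sizes, the case where all `π₂`-involutions are in `O_2(G)`. Owner: helper70.
-/

set_option autoImplicit false

namespace Cfsg.Agent.H70

open Subgroup Cfsg.Agent.H72

open scoped Pointwise

section General

variable {G : Type*} [Group G] [Finite G]

theorem normal_two_le {N : Subgroup G} (hN : N.Normal) (hp : IsPGroup 2 N) (P : Sylow 2 G) :
    N ≤ P := by
  have : Fact (Nat.Prime 2) := ⟨Nat.prime_two⟩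
  obtain ⟨Q, hQ⟩ := hp.exists_le_sylow
  obtain ⟨g, hg⟩ := MulAction.exists_smul_eq G Q P
  intro x hx
  rw [← hg]
  apply (mem_smul_sylow Q g x).2
  apply hQ
  have := hN.conj_mem x hx g⁻¹
  rwa [inv_inv] at this

/-- decomposition into a 2-part and an odd part -/
theorem exists_two_odd (g : G) : ∃ i j : ℕ, g = g ^ i * g ^ j ∧ (∃ k : ℕ, (g ^ i) ^ 2 ^ k = 1) ∧
    Odd (orderOf (g ^ j)) := by
  obtain ⟨k, m, hm, hkm⟩ := Nat.exists_eq_two_pow_mul_odd (orderOf_pos g).ne'
  obtain ⟨i, j, hij, hi, hj⟩ := Cfsg.Agent.H67.exists_decomp g (2 ^ k) m hkm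
    ((Nat.coprime_two_left.2 hm).pow_left k)
  exact ⟨i, j, hij, ⟨k, by rw [← hi, pow_orderOf_eq_one]⟩, by rw [hj]; exact hm⟩

omit [Finite G] in
theorem two_elt_one {x : G} (hx : Odd (orderOf x)) (h : ∃ k : ℕ, x ^ 2 ^ k = 1) : x = 1 := by
  obtain ⟨k, hk⟩ := h
  have h1 : orderOf x ∣ 2 ^ k := orderOf_dvd_of_pow_eq_one hk
  have h2 : (orderOf x).Coprime (2 ^ k) := (Nat.coprime_two_left.2 hx).symm.pow_right k
  exact orderOf_eq_one_iff.1 (Nat.Coprime.eq_one_of_dvd h2 h1)

/-- a normal subgroup without real elements of odd order: its 2-elements form a normal subgroup -/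
theorem two_core_of_no_real (N : Subgroup G) [hN : N.Normal]
    (h : ∀ b g : G, b ∈ N → Odd (orderOf b) → g * b * g⁻¹ = b⁻¹ → b = 1) :
    ∃ T : Subgroup G, T.Normal ∧ IsPGroup 2 T ∧ T ≤ N ∧
      ∀ x ∈ N, (∃ k : ℕ, x ^ 2 ^ k = 1) → x ∈ T := by
  have : Fact (Nat.Prime 2) := ⟨Nat.prime_two⟩
  let T : Sylow 2 N := default
  have hTn : (T : Subgroup N).Normal := by
    apply Cfsg.Agent.H67.sylow_two_normal_of_no_odd_real
    intro x g hx hg
    apply Subtype.ext
    apply h x g x.2 _ (congrArg Subtype.val hg)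
    have : orderOf (x : G) = orderOf x := orderOf_injective N.subtype N.subtype_injective x
    rw [this]; exact hx
  have hTc : (T : Subgroup N).Characteristic := T.characteristic_of_normal hTn
  refine ⟨(T : Subgroup N).map N.subtype, inferInstance, T.2.map _, ?_, ?_⟩
  · rintro _ ⟨z, -, rfl⟩
    exact z.2
  · rintro x hx ⟨k, hk⟩
    refine ⟨⟨x, hx⟩, ?_, rfl⟩
    apply Cfsg.Agent.Transfer.mem_sylow_of_mem_normalizer (k := k)
    · have h1 : normalizer ((T : Subgroup N) : Set N) = ⊤ := normalizer_eq_top_iff.2 hTn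
      change _ ∈ normalizer ((T : Subgroup N) : Set N)
      rw [h1]; exact mem_top _
    · exact Subtype.ext hk

end General

section Lift

variable {G V : Type*} [Group G] [Finite G] [CommGroup V] [Finite V]

theorem twoSpread_kerLift (φ : G →* MulAut V) (b1 : ∀ v : V, v * v = 1) (b2 : ∃ v : V, v ≠ 1)
    (b3 : ∀ v : V, v ≠ 1 → ∃ P : Sylow 2 G, (∀ g ∈ P, φ g v = v) ∧
      (∀ g, φ g v = v → g ∈ normalizer (P : Set G)))
    (b4 : ∀ b g : G, Odd (orderOf b) → g * b * g⁻¹ = b⁻¹ → b ≠ 1 → ∀ v, φ b v = v → v = 1)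
    (b5 : ∀ b g : G, Odd (orderOf b) → g * b * g⁻¹ = b⁻¹ → ∀ v : V, v ≠ 1 →
      (centralizer ({b} : Set G)).index.Coprime (vst φ v).index)
    (b6 : ∃ b g : G, Odd (orderOf b) ∧ b ≠ 1 ∧ g * b * g⁻¹ = b⁻¹) :
    TwoSpread (QuotientGroup.kerLift φ) := by
  have : Fact (Nat.Prime 2) := ⟨Nat.prime_two⟩
  set N := φ.ker with hN
  have hsurj : Function.Surjective (QuotientGroup.mk' N) := QuotientGroup.mk'_surjective N
  obtain ⟨v₀, hv₀⟩ := b2
  have hreal : ∀ b g : G, b ∈ N → Odd (orderOf b) → g * b * g⁻¹ = b⁻¹ → b = 1 := by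
    intro b g hb ho hg
    by_contra hb1
    apply hv₀
    apply b4 b g ho hg hb1
    rw [MonoidHom.mem_ker.1 hb, MulAut.one_apply]
  have hlift : ∀ g : G, QuotientGroup.kerLift φ (QuotientGroup.mk' N g) = φ g := fun g => rfl
  refine ⟨b1, ⟨v₀, hv₀⟩, QuotientGroup.kerLift_injective φ, ?_, ?_, ?_, ?_, ?_⟩
  · -- core
    intro M hMn hM
    set M' := M.comap (QuotientGroup.mk' N) with hM'
    have hM'n : M'.Normal := hMn.comap _
    have hodd : ∀ b ∈ M', Odd (orderOf b) → b ∈ N := by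
      intro b hb ho
      have h1 : QuotientGroup.mk' N b = 1 := by
        apply two_elt_one
        · exact Odd.of_dvd_nat ho (orderOf_map_dvd _ b)
        · obtain ⟨k, hk⟩ := hM ⟨_, hb⟩
          exact ⟨k, congrArg Subtype.val hk⟩
      rwa [QuotientGroup.mk'_apply, QuotientGroup.eq_one_iff] at h1
    obtain ⟨T, hTn, hTp, hTM, hT⟩ := two_core_of_no_real M' (fun b g hb ho hg =>
      hreal b g (hodd b hb ho) ho hg)
    have hTN : T ≤ N := by
      intro x hx
      rw [hN, MonoidHom.mem_ker]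
      ext v
      rw [MulAut.one_apply]
      by_cases hv : v = 1
      · rw [hv, map_one]
      · obtain ⟨P, hP, -⟩ := b3 v hv
        exact hP x (normal_two_le hTn hTp P hx)
    rw [eq_bot_iff]
    intro y hy
    obtain ⟨x, rfl⟩ := hsurj y
    obtain ⟨i, j, hij, hi, hj⟩ := exists_two_odd x
    have hx : x ∈ M' := hy
    have h1 : x ^ i ∈ N := hTN (hT _ (pow_mem hx i) hi)
    have h2 : x ^ j ∈ N := hodd _ (pow_mem hx j) hj
    have h3 : x ∈ N := by rw [hij]; exact mul_mem h1 h2
    rw [mem_bot, QuotientGroup.mk'_apply, QuotientGroup.eq_one_iff]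
    exact h3
  · -- even
    obtain ⟨b, g, ho, hb1, hg⟩ := b6
    obtain ⟨t, -, ⟨k, hk⟩, ht⟩ := exists_two_inverts hg
    have h1 : QuotientGroup.mk' N t ≠ 1 := by
      intro h1
      have h2 : QuotientGroup.mk' N (b * b) = 1 := by
        have h3 := congrArg (QuotientGroup.mk' N) ht
        rw [map_mul, map_mul, map_inv, map_inv, h1, one_mul, inv_one, mul_one] at h3
        rw [map_mul, ← inv_eq_iff_mul_eq_one, ← h3]
      rw [QuotientGroup.mk'_apply, QuotientGroup.eq_one_iff] at h2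
      have h4 : b ∈ zpowers (b ^ 2) := Cfsg.Agent.H67.mem_zpowers_pow_of_coprime
          (Nat.coprime_two_right.2 ho)
      rw [pow_two] at h4
      exact hb1 (hreal b g (zpowers_le.2 h2 h4) ho hg)
    obtain ⟨s, -, hs⟩ := TwoSpread.exists_involution_of_two (w := QuotientGroup.mk' N t)
      ⟨k, by rw [← map_pow, hk, map_one]⟩ h1
    exact ⟨s, hs⟩
  · -- syl
    intro v hv
    obtain ⟨P, hP, hP'⟩ := b3 v hv
    refine ⟨P.mapSurjective hsurj, ?_, ?_⟩
    · rintro _ ⟨g, hg, rfl⟩
      exact hP g hg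
    · intro g hg
      obtain ⟨g, rfl⟩ := hsurj g
      have h1 := hP' g hg
      change _ ∈ normalizer (((P : Subgroup G).map (QuotientGroup.mk' N) : Subgroup (G ⧸ N)) :
        Set (G ⧸ N))
      change g ∈ normalizer ((P : Subgroup G) : Set G) at h1
      exact le_normalizer_map _ (mem_map_of_mem _ h1)
  · -- free
    intro b g ho hg hb1 v hv
    obtain ⟨x, k, hx, hxo, hxk⟩ := real_lift N b ho g hg
    apply b4 x k hxo hxk _ v
    · rw [← hlift, hx]; exact hv
    · rintro rfl
      exact hb1 (by rw [← hx, map_one])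
  · -- cop
    intro b g ho hg v hv
    obtain ⟨x, k, hx, hxo, hxk⟩ := real_lift N b ho g hg
    have h1 := b5 x k hxo hxk v hv
    have h2 : (centralizer ({b} : Set (G ⧸ N))).index ∣ (centralizer ({x} : Set G)).index := by
      have h3 : (centralizer ({x} : Set G)).map (QuotientGroup.mk' N) ≤
          centralizer ({b} : Set (G ⧸ N)) := by
        rintro _ ⟨c, hc, rfl⟩
        rw [mem_centralizer_singleton_iff]
        have hc' : c ∈ centralizer ({x} : Set G) := hc
        rw [mem_centralizer_singleton_iff] at hc'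
        rw [← hx, ← map_mul, ← map_mul, hc']
      exact (index_dvd_of_le h3).trans (index_map_dvd _ hsurj)
    have h3 : (vst (QuotientGroup.kerLift φ) v).index = (vst φ v).index := by
      have h4 : vst φ v = (vst (QuotientGroup.kerLift φ) v).comap (QuotientGroup.mk' N) := rfl
      rw [h4, index_comap_of_surjective _ hsurj]
    rw [h3]
    exact h1.coprime_dvd_left h2

end Lift

end Cfsg.Agent.H70
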