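import Mathlib
import Cfsg.Agent.H70.RealCaseB

/-!
# Real class sizes, the case where all `π₂`-involutions are in `O_2(G)`, part 2. Owner: helper70.
-/

set_option autoImplicit false

namespace Cfsg.Agent.H70

open Subgroup Cfsg.Agent.H72

open scoped Pointwise

section General

variable {G : Type*} [Group G]

theorem cs_conj (g w : G) : (centralizer ({g * w * g⁻¹} : Set G)).index =
    (centralizer ({w} : Set G)).index := by
  rw [← card_Cl, ← card_Cl]
  congr 2
  ext u
  constructor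
  · rintro ⟨k, rfl⟩
    exact ⟨k * g, by group⟩
  · rintro ⟨k, rfl⟩
    exact ⟨k * g⁻¹, by group⟩

theorem conj_pow_center {w g z : G} (hz : z ∈ center G) (hg : g * w * g⁻¹ = w * z) (k : ℕ) :
    g ^ k * w * (g ^ k)⁻¹ = w * z ^ k := by
  induction k with
  | zero => rw [pow_zero, pow_zero, mul_one, one_mul, inv_one, mul_one]
  | succ k ih =>
    have hzc : ∀ x : G, x * z = z * x := fun x => mem_center_iff.1 hz x
    have e : g ^ (k + 1) * w * (g ^ (k + 1))⁻¹ = g ^ k * (g * w * g⁻¹) * (g ^ k)⁻¹ := by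
      rw [pow_succ]; group
    rw [e, hg]
    have e2 : g ^ k * (w * z) * (g ^ k)⁻¹ = g ^ k * w * (g ^ k)⁻¹ * z := by
      rw [mul_assoc (g ^ k * w), hzc (g ^ k)⁻¹, ← mul_assoc, ← mul_assoc]
    rw [e2, ih, pow_succ, mul_assoc]

/-- in the quotient by `O`: 2-elements centralize `N / O` -/
theorem comm_two [Finite G] (N O : Subgroup G) [O.Normal] [hNn : N.Normal] (hOp : IsPGroup 2 O)
    (hON : O ≤ N) (h2 : ∀ x ∈ N, (∃ k : ℕ, x ^ 2 ^ k = 1) → x ∈ O)
    (hreal : ∀ b g : G, b ∈ N → Odd (orderOf b) → g * b * g⁻¹ = b⁻¹ → b = 1) :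
    ∀ (k : ℕ) (t : G), t ^ 2 ^ k = 1 → ∀ n ∈ N, t * n * t⁻¹ * n⁻¹ ∈ O := by
  intro k
  induction k with
  | zero =>
    intro t ht n _
    rw [pow_zero, pow_one] at ht
    rw [ht, one_mul, inv_one, mul_one, mul_inv_cancel]
    exact one_mem _
  | succ k ih =>
    intro t ht n hn
    have ht2 : (t ^ 2) ^ 2 ^ k = 1 := by rw [← pow_mul, ← pow_succ']; exact ht
    have h1 := ih (t ^ 2) ht2 n hn
    set m := t * n * t⁻¹ * n⁻¹ with hm
    have hmN : m ∈ N := mul_mem (hNn.conj_mem n hn t) (inv_mem hn)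
    have hmodd : Odd (orderOf (QuotientGroup.mk' O m)) := by
      obtain ⟨i, j, hij, hi, hj⟩ := exists_two_odd m
      have h3 : m ^ i ∈ O := h2 _ (pow_mem hmN i) hi
      have h4 : QuotientGroup.mk' O m = QuotientGroup.mk' O (m ^ j) := by
        conv_lhs => rw [hij]
        rw [map_mul]
        have h5 : QuotientGroup.mk' O (m ^ i) = 1 := by
          rw [QuotientGroup.mk'_apply, QuotientGroup.eq_one_iff]; exact h3
        rw [h5, one_mul]
      rw [h4]
      exact Odd.of_dvd_nat hj (orderOf_map_dvd _ _)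
    have hinv : QuotientGroup.mk' O t * QuotientGroup.mk' O m * (QuotientGroup.mk' O t)⁻¹ =
        (QuotientGroup.mk' O m)⁻¹ := by
      rw [← map_inv, ← map_mul, ← map_mul, ← map_inv]
      rw [QuotientGroup.mk'_apply, QuotientGroup.mk'_apply]
      rw [QuotientGroup.eq_iff_div_mem, div_eq_mul_inv, inv_inv, hm]
      have e : t * (t * n * t⁻¹ * n⁻¹) * t⁻¹ * (t * n * t⁻¹ * n⁻¹) =
        (t ^ 2 * n * (t ^ 2)⁻¹ * n⁻¹) * (n * (t * n⁻¹ * t⁻¹ * (t * n * t⁻¹)) * n⁻¹) := by
        rw [pow_two]; group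
      have e2 : t * n⁻¹ * t⁻¹ * (t * n * t⁻¹) = 1 := by group
      rw [e, e2, mul_one, mul_inv_cancel, mul_one]
      exact h1
    obtain ⟨x, hx, hxo, m', hm', hxi⟩ := real_lift_two O hOp (QuotientGroup.mk' O m) hmodd t hinv
    have hxN : x ∈ N := by
      rw [QuotientGroup.mk'_apply, QuotientGroup.mk'_apply, QuotientGroup.eq_iff_div_mem,
        div_eq_mul_inv] at hx
      have h3 := mul_mem (hON hx) hmN
      rwa [inv_mul_cancel_right] at h3
    have hx1 := hreal x _ hxN (by rw [hxo]; exact hmodd) hxi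
    rw [hx1, map_one] at hx
    rw [← QuotientGroup.eq_one_iff, ← QuotientGroup.mk'_apply, ← hx]

end General

namespace RHyp

variable {G : Type*} [Group G] [Finite G] {π₁ π₂ : Set ℕ}

theorem comm_of_center (h : RHyp G π₁ π₂) {w : G} (hw : PiN π₂ (centralizer ({w} : Set G)).index)
    (hww : w * w = 1) (hwc : w ∉ center G) {g z : G} (hz : z ∈ center G)
    (hg : g * w * g⁻¹ = w * z) : g * w = w * g := by
  have : Fact (Nat.Prime 2) := ⟨Nat.prime_two⟩
  obtain ⟨P, hP1, hP2⟩ := h.exists_sylow hw hww hwc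
  have hzc : ∀ x : G, x * z = z * x := fun x => mem_center_iff.1 hz x
  have hzz : z * z = 1 := by
    have h1 : (g * w * g⁻¹) * (g * w * g⁻¹) = 1 := by
      have e : (g * w * g⁻¹) * (g * w * g⁻¹) = g * (w * w) * g⁻¹ := by group
      rw [e, hww]; group
    rw [hg] at h1
    have e : w * z * (w * z) = (w * w) * (z * z) := by
      rw [mul_assoc w z, ← mul_assoc z w, ← hzc w]; group
    rwa [e, hww, one_mul] at h1
  have hpow := conj_pow_center hz hg
  obtain ⟨i, j, hij, ⟨k, hk⟩, hj⟩ := exists_two_odd g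
  have hzk : ∀ k : ℕ, z ^ k ∈ center G := fun k => pow_mem hz k
  -- odd part
  have hodd : g ^ j * w = w * g ^ j := by
    have h1 := conj_pow_center (hzk j) (hpow j) (orderOf (g ^ j))
    rw [pow_orderOf_eq_one, one_mul, inv_one, mul_one] at h1
    have h2 : (z ^ j) ^ orderOf (g ^ j) = 1 := by
      have := h1.symm
      rwa [mul_eq_left] at this
    have h3 : (z ^ j) * (z ^ j) = 1 := by
      rw [← pow_add, ← two_mul, pow_mul, pow_two, hzz, one_pow]
    have h4 : Odd (orderOf (z ^ j)) := Odd.of_dvd_nat hj (orderOf_dvd_of_pow_eq_one h2)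
    have h5 := eq_one_of_odd_of_sq h4 h3
    have h6 := hpow j
    rw [h5, mul_one] at h6
    exact mul_inv_eq_iff_eq_mul.1 h6
  -- 2-part
  have hC2 : ∀ c ∈ P, c ∈ P := fun c hc => hc
  have heven : g ^ i * w = w * g ^ i := by
    apply hP1
    apply Cfsg.Agent.Transfer.mem_sylow_of_mem_normalizer (k := k) _ hk
    change _ ∈ normalizer ((P : Subgroup G) : Set G)
    apply mem_normalizer_fintype
    intro x hx
    have hxP : x ∈ P := hx
    have hxw := hP1 x hxP
    obtain ⟨l, hl⟩ := P.2 ⟨x, hxP⟩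
    have hl' : x ^ 2 ^ l = 1 := congrArg Subtype.val hl
    apply Cfsg.Agent.Transfer.mem_sylow_of_mem_normalizer (k := l)
    · apply hP2
      have h1 := hpow i
      set s := g ^ i with hs
      set y := z ^ i with hy
      have hyc : ∀ x : G, x * y = y * x := fun x => mem_center_iff.1 (hzk i) x
      have h2 : s * w = w * y * s := mul_inv_eq_iff_eq_mul.1 h1
      have h3 : s⁻¹ * (w * y) = w * s⁻¹ := by
        rw [eq_mul_inv_iff_mul_eq, mul_assoc, ← h2, inv_mul_cancel_left]
      have h4 : s⁻¹ * w = w * s⁻¹ * y⁻¹ := by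
        rw [← h3]; group
      calc s * x * s⁻¹ * w = s * x * (s⁻¹ * w) := by group
        _ = s * (x * w) * s⁻¹ * y⁻¹ := by rw [h4]; group
        _ = (s * w) * x * s⁻¹ * y⁻¹ := by rw [hxw]; group
        _ = w * (y * (s * x * s⁻¹)) * y⁻¹ := by rw [h2]; group
        _ = w * (s * x * s⁻¹) := by rw [← hyc]; group
    · rw [conj_pow, hl', mul_one, mul_inv_cancel]
  calc g * w = g ^ i * g ^ j * w := by rw [← hij]
    _ = w * (g ^ i * g ^ j) := by rw [mul_assoc, hodd, ← mul_assoc, heven, mul_assoc]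
    _ = w * g := by rw [← hij]

end RHyp

end Cfsg.Agent.H70
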