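import Mathlib
import Cfsg.Agent.H70.RealCaseC

/-!
# Real class sizes, the case where all `π₂`-involutions are in `O_2(G)`, part 3. Owner: helper70.
-/

set_option autoImplicit false

namespace Cfsg.Agent.H70

open Subgroup Cfsg.Agent.H72

open scoped Pointwise

namespace RHyp

variable {G : Type*} [Group G] [Finite G] {π₁ π₂ : Set ℕ}

/-- the subgroup of `π₂`-involutions centralizing `O` -/
theorem exists_U (h : RHyp G π₁ π₂) (O : Subgroup G) (hOn : O.Normal) :
    ∃ U : Subgroup G, U.Normal ∧ ∀ w : G, w ∈ U ↔ (w ∈ O ∧ (∀ o ∈ O, o * w = w * o) ∧ w * w = 1 ∧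
      PiN π₂ (centralizer ({w} : Set G)).index) := by
  refine ⟨
    { carrier := {w | w ∈ O ∧ (∀ o ∈ O, o * w = w * o) ∧ w * w = 1 ∧
        PiN π₂ (centralizer ({w} : Set G)).index}
      one_mem' := ?_
      mul_mem' := ?_
      inv_mem' := ?_ }, ?_, fun w => Iff.rfl⟩
  · rintro w w' ⟨h1, h2, h3, h4⟩ ⟨h1', h2', h3', h4'⟩
    have h5 : w * w' ∈ O := mul_mem h1 h1'
    have h6 : ∀ o ∈ O, o * (w * w') = (w * w') * o := by
      intro o ho
      rw [← mul_assoc, h2 o ho, mul_assoc, h2' o ho, mul_assoc]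
    have h7 : (w * w') * (w * w') = 1 := by
      have e : (w * w') * (w * w') = w * (w' * w) * w' := by group
      rw [e, h2 w' h1']
      have e2 : w * (w * w') * w' = (w * w) * (w' * w') := by group
      rw [e2, h3, h3', one_mul]
    refine ⟨h5, h6, h7, ?_⟩
    rcases h.dich (w * w') 1 (by rw [inv_eq_of_mul_eq_one_left h7]; group) with h8 | h8
    · have h9 : w * w' ∈ center G := by
        apply central_of_commuting (x := w) (h8.coprime h.disj h4).symm _ (h.not_two h4) h7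
        · intro g k
          have h10 : k⁻¹ * (g * (w * w') * g⁻¹) * k ∈ O := by
            have h11 := hOn.conj_mem _ (hOn.conj_mem _ h5 g) k⁻¹
            rwa [inv_inv] at h11
          have h12 := h6 _ h10
          calc g * (w * w') * g⁻¹ * (k * (w * w') * k⁻¹) =
              k * (k⁻¹ * (g * (w * w') * g⁻¹) * k * (w * w')) * k⁻¹ := by group
            _ = k * (w * w') * k⁻¹ * (g * (w * w') * g⁻¹) := by rw [h12]; group
        · have e : w * (w * w') = w' := by rw [← mul_assoc, h3, one_mul]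
          rw [e]
          exact (h8.coprime h.disj h4').symm
      intro p hp hpd
      rw [Cx_index_eq_one_iff.2 h9] at hpd
      exact absurd (Nat.dvd_one.1 hpd) hp.one_lt.ne'
    · exact h8
  · refine ⟨one_mem _, fun o _ => by rw [mul_one, one_mul], one_mul 1, ?_⟩
    intro p hp hpd
    rw [Cx_index_eq_one_iff.2 (one_mem _)] at hpd
    exact absurd (Nat.dvd_one.1 hpd) hp.one_lt.ne'
  · rintro w ⟨h1, h2, h3, h4⟩
    rw [inv_eq_of_mul_eq_one_left h3]
    exact ⟨h1, h2, h3, h4⟩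
  · constructor
    rintro w ⟨h1, h2, h3, h4⟩ g
    refine ⟨hOn.conj_mem w h1 g, ?_, ?_, ?_⟩
    · intro o ho
      have h5 := h2 (g⁻¹ * o * g) (by
        have := hOn.conj_mem o ho g⁻¹
        rwa [inv_inv] at this)
      calc o * (g * w * g⁻¹) = g * (g⁻¹ * o * g * w) * g⁻¹ := by group
        _ = g * w * g⁻¹ * o := by rw [h5]; group
    · have e : (g * w * g⁻¹) * (g * w * g⁻¹) = g * (w * w) * g⁻¹ := by group
      rw [e, h3]; group
    · rw [cs_conj]; exact h4

theorem caseB (h : RHyp G π₁ π₂) (O : Subgroup G) (hOn : O.Normal) (hOp : IsPGroup 2 O)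
    (hOmax : ∀ T : Subgroup G, T.Normal → IsPGroup 2 T → T ≤ O)
    (hO : ∀ y : G, y * y = 1 → y ∉ center G → PiN π₂ (centralizer ({y} : Set G)).index → y ∈ O)
    {y₀ : G} (hy₀ : PiN π₂ (centralizer ({y₀} : Set G)).index) (hy₀y : y₀ * y₀ = 1)
    (hy₀c : y₀ ∉ center G)
    (hb : ∃ b g : G, Odd (orderOf b) ∧ b ≠ 1 ∧ g * b * g⁻¹ = b⁻¹) :
    ∃ N C : Subgroup G, N.Normal ∧ C.Normal ∧ O ≤ N ∧ N ≤ C ∧
      (∀ x ∈ N, (∃ k : ℕ, x ^ 2 ^ k = 1) → x ∈ O) ∧
      (∀ t : G, (∃ k : ℕ, t ^ 2 ^ k = 1) → ∀ n ∈ N, t * n * t⁻¹ * n⁻¹ ∈ O) ∧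
      (∀ a b : G, a * b * a⁻¹ * b⁻¹ ∈ C) ∧ PiN π₂ (N.relIndex C) := by
  classical
  obtain ⟨U, hUn, hU⟩ := h.exists_U O hOn
  let W : Subgroup U := (center G).subgroupOf U
  have hWn : W.Normal := inferInstance
  have hcommU : ∀ a b : U, a * b = b * a := by
    intro a b
    apply Subtype.ext
    exact ((hU b).1 b.2).2.1 a ((hU a).1 a.2).1
  let inst : CommGroup (U ⧸ W) :=
    { (inferInstance : Group (U ⧸ W)) with
      mul_comm := by
        intro a b
        obtain ⟨a, rfl⟩ := QuotientGroup.mk_surjective a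
        obtain ⟨b, rfl⟩ := QuotientGroup.mk_surjective b
        change ((a * b : U) : U ⧸ W) = ((b * a : U) : U ⧸ W)
        rw [hcommU] }
  let Φ : G →* MulAut (U ⧸ W) := Cfsg.Agent.H91.quotAct (MulAut.conjNormal : G →* MulAut U) W (by
    intro a x hx
    rw [mem_subgroupOf] at hx ⊢
    rw [MulAut.conjNormal_apply, (mem_center_iff.1 hx a), mul_inv_cancel_right]
    exact hx)
  have hΦ : ∀ (g : G) (w : U), Φ g (w : U ⧸ W) = ((MulAut.conjNormal g w : U) : U ⧸ W) :=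
    fun g w => rfl
  have hfix : ∀ (g : G) (w : U), (w : G) ∉ center G →
      (Φ g (w : U ⧸ W) = (w : U ⧸ W) ↔ g * w = w * g) := by
    intro g w hw
    constructor
    · intro he
      rw [hΦ] at he
      have h1 := QuotientGroup.eq.1 he.symm
      rw [mem_subgroupOf] at h1
      have h2 : ((w⁻¹ * MulAut.conjNormal g w : U) : G) = (w : G)⁻¹ * (g * w * g⁻¹) := by
        rw [Subgroup.coe_mul, Subgroup.coe_inv, MulAut.conjNormal_apply]
      rw [h2] at h1
      obtain ⟨-, -, h3, h4⟩ := (hU w).1 w.2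
      apply h.comm_of_center h4 h3 hw h1
      rw [mul_inv_cancel_left]
    · intro he
      rw [hΦ]
      congr 1
      apply Subtype.ext
      rw [MulAut.conjNormal_apply, he, mul_inv_cancel_right]
  have hne : ∀ w : U, (w : U ⧸ W) ≠ 1 → (w : G) ∉ center G := by
    intro w hw hc
    exact hw ((QuotientGroup.eq_one_iff w).2 (mem_subgroupOf.2 hc))
  have hy₀U : y₀ ∈ U := by
    have h1 := hO y₀ hy₀y hy₀c hy₀
    refine (hU y₀).2 ⟨h1, ?_, hy₀y, hy₀⟩
    obtain ⟨P, hP, -⟩ := h.exists_sylow hy₀ hy₀y hy₀c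
    intro o ho
    exact hP o (normal_two_le hOn hOp P ho)
  have hb2 : ∃ v : U ⧸ W, v ≠ 1 := by
    refine ⟨((⟨y₀, hy₀U⟩ : U) : U ⧸ W), ?_⟩
    intro he
    rw [QuotientGroup.eq_one_iff, mem_subgroupOf] at he
    exact hy₀c he
  have hb4 : ∀ b g : G, Odd (orderOf b) → g * b * g⁻¹ = b⁻¹ → b ≠ 1 → ∀ v, Φ b v = v → v = 1 := by
    intro b g ho hg hb1 v hv
    by_contra hv1
    obtain ⟨w, rfl⟩ := QuotientGroup.mk_surjective v
    have hwc := hne w hv1
    obtain ⟨-, -, h3, h4⟩ := (hU w).1 w.2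
    exact h.not_comm ho hb1 hg h4 h3 hwc ((hfix b w hwc).1 hv)
  have hvst : ∀ w : U, (w : U ⧸ W) ≠ 1 → vst Φ (w : U ⧸ W) = centralizer ({(w : G)} : Set G) := by
    intro w hw
    ext g
    rw [mem_centralizer_singleton_iff, ← hfix g w (hne w hw)]
    exact Iff.rfl
  have hTS : TwoSpread (QuotientGroup.kerLift Φ) := by
    apply twoSpread_kerLift Φ _ hb2 _ hb4 _ hb
    · intro v
      obtain ⟨w, rfl⟩ := QuotientGroup.mk_surjective v
      obtain ⟨-, -, h3, h4⟩ := (hU w).1 w.2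
      have h5 : w * w = 1 := Subtype.ext h3
      change ((w * w : U) : U ⧸ W) = 1
      rw [h5]; rfl
    · intro v hv
      obtain ⟨w, rfl⟩ := QuotientGroup.mk_surjective v
      have hwc := hne w hv
      obtain ⟨-, -, h3, h4⟩ := (hU w).1 w.2
      obtain ⟨P, hP1, hP2⟩ := h.exists_sylow h4 h3 hwc
      exact ⟨P, fun g hg => (hfix g w hwc).2 (hP1 g hg), fun g hg => hP2 g ((hfix g w hwc).1 hg)⟩
    · intro b g ho hg v hv
      obtain ⟨w, rfl⟩ := QuotientGroup.mk_surjective v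
      rw [hvst w hv]
      exact (h.pi1_of_odd hg ho).coprime h.disj ((hU w).1 w.2).2.2.2
  obtain ⟨x, hxn, hx1, hxo, hx⟩ := hTS.exists_normal_cyclic
  have hsurj : Function.Surjective (QuotientGroup.mk' Φ.ker) := QuotientGroup.mk'_surjective Φ.ker
  have hreal : ∀ b g : G, b ∈ Φ.ker → Odd (orderOf b) → g * b * g⁻¹ = b⁻¹ → b = 1 := by
    intro b g hb ho hg
    by_contra hb1
    obtain ⟨v, hv⟩ := hb2
    apply hv
    apply hb4 b g ho hg hb1
    rw [MonoidHom.mem_ker.1 hb, MulAut.one_apply]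
  have hON : O ≤ Φ.ker := by
    intro o ho
    rw [MonoidHom.mem_ker]
    ext v
    obtain ⟨w, rfl⟩ := QuotientGroup.mk_surjective v
    rw [hΦ, MulAut.one_apply]
    congr 1
    apply Subtype.ext
    rw [MulAut.conjNormal_apply, ((hU w).1 w.2).2.1 o ho, mul_inv_cancel_right]
  have h2N : ∀ x ∈ Φ.ker, (∃ k : ℕ, x ^ 2 ^ k = 1) → x ∈ O := by
    obtain ⟨T, hTn, hTp, -, hT⟩ := two_core_of_no_real Φ.ker hreal
    exact fun x hx hk => hOmax T hTn hTp (hT x hx hk)
  obtain ⟨Cb, hCb⟩ : ∃ Cb : Subgroup (G ⧸ Φ.ker),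
    Cb = centralizer ((zpowers x : Subgroup (G ⧸ Φ.ker)) : Set (G ⧸ Φ.ker)) := ⟨_, rfl⟩
  have hCbn : Cb.Normal := by
    have := hxn
    rw [hCb]
    exact normal_centralizer
  have hmemCb : ∀ g : G ⧸ Φ.ker, g ∈ Cb ↔ g * x = x * g := by
    intro g
    rw [hCb, mem_centralizer_iff]
    constructor
    · intro hg
      exact (hg x (mem_zpowers x)).symm
    · rintro hg _ ⟨k, rfl⟩
      exact ((show Commute g x from hg).zpow_right k).eq.symm
  have hkerC : Φ.ker ≤ Cb.comap (QuotientGroup.mk' Φ.ker) := by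
    intro n hn
    rw [mem_comap, QuotientGroup.mk'_apply, (QuotientGroup.eq_one_iff n).2 hn]
    exact one_mem _
  refine ⟨Φ.ker, Cb.comap (QuotientGroup.mk' Φ.ker), inferInstance, hCbn.comap _, hON, hkerC,
    h2N, ?_, ?_, ?_⟩
  · rintro t ⟨k, hk⟩ n hn
    exact comm_two Φ.ker O hOp hON h2N hreal k t hk n hn
  · have hcc : ∀ a b : G ⧸ Φ.ker, (a * b) * x * (a * b)⁻¹ = (b * a) * x * (b * a)⁻¹ := by
      intro a' b'
      obtain ⟨m, hm⟩ := mem_zpowers_iff.1 (hxn.conj_mem x (mem_zpowers x) a')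
      obtain ⟨n, hn⟩ := mem_zpowers_iff.1 (hxn.conj_mem x (mem_zpowers x) b')
      have e2 : (a' * b') * x * (a' * b')⁻¹ = a' * (b' * x * b'⁻¹) * a'⁻¹ := by group
      have e3 : (b' * a') * x * (b' * a')⁻¹ = b' * (a' * x * a'⁻¹) * b'⁻¹ := by group
      rw [e2, e3, ← hm, ← hn, ← conj_zpow, ← conj_zpow, ← hm, ← hn, ← zpow_mul, ← zpow_mul,
        mul_comm]
    intro a b
    rw [mem_comap, map_mul, map_mul, map_mul, map_inv, map_inv, hmemCb]
    generalize QuotientGroup.mk' Φ.ker a = a'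
    generalize QuotientGroup.mk' Φ.ker b = b'
    have e := hcc a'⁻¹ b'⁻¹
    calc a' * b' * a'⁻¹ * b'⁻¹ * x =
        (a' * b') * ((a'⁻¹ * b'⁻¹) * x * (a'⁻¹ * b'⁻¹)⁻¹) * (a'⁻¹ * b'⁻¹) := by group
      _ = x * (a' * b' * a'⁻¹ * b'⁻¹) := by rw [e]; group
  · -- freeness
    obtain ⟨v, hv⟩ := hb2
    obtain ⟨w, rfl⟩ := QuotientGroup.mk_surjective v
    have hwU := ((hU w).1 w.2).2.2.2
    have h1 : Φ.ker = centralizer ({(w : G)} : Set G) ⊓ Cb.comap (QuotientGroup.mk' Φ.ker) := by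
      apply le_antisymm
      · refine le_inf ?_ hkerC
        intro n hn
        rw [← hvst w hv, mem_vst, MonoidHom.mem_ker.1 hn, MulAut.one_apply]
      · rintro c ⟨hc1', hc2'⟩
        have hc1 : c ∈ centralizer ({(w : G)} : Set G) := hc1'
        have hc2 : c ∈ Cb.comap (QuotientGroup.mk' Φ.ker) := hc2'
        rw [← hvst w hv, mem_vst] at hc1
        rw [mem_comap, hmemCb] at hc2
        have h2 := hx _ hc2 _ hv hc1
        rwa [QuotientGroup.mk'_apply, QuotientGroup.eq_one_iff] at h2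
    have h2 : Φ.ker.relIndex (Cb.comap (QuotientGroup.mk' Φ.ker)) =
        (centralizer ({(w : G)} : Set G)).relIndex (Cb.comap (QuotientGroup.mk' Φ.ker)) :=
      (congrArg (fun K => K.relIndex (Cb.comap (QuotientGroup.mk' Φ.ker))) h1).trans
        (inf_relIndex_right _ _)
    have hn : (Cb.comap (QuotientGroup.mk' Φ.ker)).Normal := hCbn.comap _
    rw [h2, Cfsg.Agent.Transfer.relIndex_eq_relIndex_sup]
    exact hwU.of_dvd (relIndex_dvd_index_of_le le_sup_left)

end RHyp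

end Cfsg.Agent.H70
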