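import Mathlib
import Cfsg.Agent.H70.RealCaseA
import Cfsg.Agent.H70.RealCaseD

/-!
# Real class sizes: the structure of the group. Owner: helper70.
-/

set_option autoImplicit false

namespace Cfsg.Agent.H70

open Subgroup Cfsg.Agent.H72

open scoped Pointwise

/-- generated by 2-elements, `p`-elements central modulo a normal 2-subgroup: `p` does not divide -/
theorem not_dvd_of_central {K : Type*} [Group K] [Finite K] (S : Set K) (hS : closure S = ⊤)
    (hS2 : ∀ s ∈ S, ∃ k : ℕ, s ^ 2 ^ k = 1) (O : Subgroup K) [O.Normal] (hO : IsPGroup 2 O)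
    {p : ℕ} (hp : p.Prime) (hp2 : p ≠ 2)
    (hc : ∀ r : K, (∃ k : ℕ, r ^ p ^ k = 1) → ∀ g : K, g * r * g⁻¹ * r⁻¹ ∈ O) :
    ¬ p ∣ Nat.card K := by
  intro hdvd
  have : Fact p.Prime := ⟨hp⟩
  have hsurj := QuotientGroup.mk'_surjective O
  obtain ⟨r, hr⟩ := exists_prime_orderOf_dvd_card' (G := K) p hdvd
  let R : Sylow p K := default
  have hcen : ∀ r : K, (∃ k : ℕ, r ^ p ^ k = 1) → QuotientGroup.mk' O r ∈ center (K ⧸ O) := by
    intro r hr
    rw [mem_center_iff]
    intro g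
    obtain ⟨g, rfl⟩ := hsurj g
    have h1 := hc r hr g
    rw [← QuotientGroup.eq_one_iff, ← QuotientGroup.mk'_apply, map_mul, map_mul, map_mul, map_inv,
      map_inv, mul_inv_eq_one, mul_inv_eq_iff_eq_mul] at h1
    exact h1
  have hidx : ¬ p ∣ (center (K ⧸ O)).index := by
    intro hd
    have h1 : (center (K ⧸ O)).index ∣ ((R.mapSurjective hsurj : Sylow p (K ⧸ O)) :
        Subgroup (K ⧸ O)).index := by
      apply index_dvd_of_le
      rintro _ ⟨s, hs, rfl⟩
      apply hcen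
      obtain ⟨k, hk⟩ := R.2 ⟨s, hs⟩
      exact ⟨k, congrArg Subtype.val hk⟩
    exact (R.mapSurjective hsurj).not_dvd_index (hd.trans h1)
  have hall : ∀ g : K, ∃ k : ℕ, (QuotientGroup.mk' O g) ^ (center (K ⧸ O)).index ^ 1 = 
      (QuotientGroup.mk' O g) ^ (center (K ⧸ O)).index ∧
      ((QuotientGroup.mk' O g) ^ (center (K ⧸ O)).index) ^ 2 ^ k = 1 := by
    intro g
    have hg : g ∈ closure S := by rw [hS]; exact mem_top g
    induction hg using closure_induction with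
    | mem s hs =>
      obtain ⟨k, hk⟩ := hS2 s hs
      refine ⟨k, by rw [pow_one], ?_⟩
      rw [← pow_mul, mul_comm, pow_mul, ← map_pow, hk, map_one, one_pow]
    | one => exact ⟨0, by rw [pow_one], by rw [map_one, one_pow, one_pow]⟩
    | mul a b _ _ ha hb =>
      obtain ⟨k, -, hk⟩ := ha
      obtain ⟨l, -, hl⟩ := hb
      refine ⟨k + l, by rw [pow_one], ?_⟩
      have e := congrArg (Subtype.val) (map_mul (MonoidHom.transferCenterPow (K ⧸ O))
        (QuotientGroup.mk' O a) (QuotientGroup.mk' O b))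
      rw [Subgroup.coe_mul] at e
      change (QuotientGroup.mk' O a * QuotientGroup.mk' O b) ^ (center (K ⧸ O)).index =
        (QuotientGroup.mk' O a) ^ (center (K ⧸ O)).index *
        (QuotientGroup.mk' O b) ^ (center (K ⧸ O)).index at e
      rw [map_mul, e]
      have hcomm : Commute ((QuotientGroup.mk' O a) ^ (center (K ⧸ O)).index)
        ((QuotientGroup.mk' O b) ^ (center (K ⧸ O)).index) := by
        have h1 : (QuotientGroup.mk' O b) ^ (center (K ⧸ O)).index ∈ center (K ⧸ O) :=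
          (MonoidHom.transferCenterPow (K ⧸ O) (QuotientGroup.mk' O b)).2
        exact mem_center_iff.1 h1 _
      rw [hcomm.mul_pow, pow_add, pow_mul, hk, one_pow, one_mul, mul_comm (2 ^ k), pow_mul, hl,
        one_pow]
    | inv a _ ha =>
      obtain ⟨k, -, hk⟩ := ha
      refine ⟨k, by rw [pow_one], ?_⟩
      rw [map_inv, inv_pow, inv_pow, hk, inv_one]
  obtain ⟨k, -, hk⟩ := hall r
  have hr1 : orderOf (QuotientGroup.mk' O r) = p := by
    have h1 : orderOf (QuotientGroup.mk' O r) ∣ p := by rw [← hr]; exact orderOf_map_dvd _ _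
    rcases (Nat.dvd_prime hp).1 h1 with h2 | h2
    · exfalso
      rw [orderOf_eq_one_iff, QuotientGroup.mk'_apply, QuotientGroup.eq_one_iff] at h2
      obtain ⟨l, hl⟩ := hO ⟨r, h2⟩
      have h3 : r ^ 2 ^ l = 1 := congrArg Subtype.val hl
      have h4 := orderOf_dvd_of_pow_eq_one h3
      rw [hr] at h4
      exact hp2 ((Nat.prime_dvd_prime_iff_eq hp Nat.prime_two).1 (hp.dvd_of_dvd_pow h4))
    · exact h2
  rw [← pow_mul] at hk
  have h1 := orderOf_dvd_of_pow_eq_one hk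
  rw [hr1] at h1
  rcases (Nat.Prime.dvd_mul hp).1 h1 with h2 | h2
  · exact hidx h2
  · exact hp2 ((Nat.prime_dvd_prime_iff_eq hp Nat.prime_two).1 (hp.dvd_of_dvd_pow h2))

section General

variable {G : Type*} [Group G] [Finite G]

/-- the subgroup generated by the 2-elements -/
abbrev twoGen (G : Type*) [Group G] : Subgroup G :=
  closure {g : G | ∃ k : ℕ, orderOf g = 2 ^ k}

omit [Finite G] in
theorem two_pow_of_orderOf {g : G} (h : ∃ k : ℕ, orderOf g = 2 ^ k) : ∃ k : ℕ, g ^ 2 ^ k = 1 := by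
  obtain ⟨k, hk⟩ := h
  exact ⟨k, by rw [← hk, pow_orderOf_eq_one]⟩

omit [Finite G] in
theorem orderOf_of_two_pow {g : G} (h : ∃ k : ℕ, g ^ 2 ^ k = 1) : ∃ k : ℕ, orderOf g = 2 ^ k := by
  obtain ⟨k, hk⟩ := h
  obtain ⟨j, -, hj⟩ := (Nat.dvd_prime_pow Nat.prime_two).1 (orderOf_dvd_of_pow_eq_one hk)
  exact ⟨j, hj⟩

omit [Finite G] in
theorem mem_twoGen {g : G} (h : ∃ k : ℕ, g ^ 2 ^ k = 1) : g ∈ twoGen G :=
  subset_closure (orderOf_of_two_pow h)

omit [Finite G] in
theorem twoGen_le {M : Subgroup G} (h : ∀ g : G, (∃ k : ℕ, g ^ 2 ^ k = 1) → g ∈ M) :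
    twoGen G ≤ M :=
  (closure_le _).2 fun g hg => h g (two_pow_of_orderOf hg)

omit [Finite G] in
theorem twoGen_normal : (twoGen G).Normal := by
  constructor
  intro x hx g
  have h1 : twoGen G ≤ (twoGen G).comap (MulAut.conj g).toMonoidHom := by
    apply twoGen_le
    rintro x ⟨k, hk⟩
    rw [mem_comap]
    change g * x * g⁻¹ ∈ twoGen G
    exact mem_twoGen ⟨k, by rw [conj_pow, hk, mul_one, mul_inv_cancel]⟩
  exact h1 hx

theorem twoGen_le_of_sylow {M : Subgroup G} (hM : M.Normal) (P : Sylow 2 G) (hP : P ≤ M) :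
    twoGen G ≤ M := by
  have : Fact (Nat.Prime 2) := ⟨Nat.prime_two⟩
  apply twoGen_le
  rintro g ⟨k, hk⟩
  have h1 : IsPGroup 2 (zpowers g) := by
    rintro ⟨_, ⟨m, rfl⟩⟩
    refine ⟨k, ?_⟩
    ext
    change (g ^ m) ^ 2 ^ k = 1
    rw [← zpow_natCast, ← zpow_mul, mul_comm, zpow_mul, zpow_natCast, hk, one_zpow]
  obtain ⟨Q, hQ⟩ := h1.exists_le_sylow
  obtain ⟨c, hc⟩ := MulAction.exists_smul_eq G P Q
  have h2 : g ∈ Q := hQ (mem_zpowers g)
  rw [← hc, mem_smul_sylow] at h2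
  have h3 := hM.conj_mem _ (hP h2) c
  have e : c * (c⁻¹ * g * c) * c⁻¹ = g := by group
  rwa [e] at h3

end General

namespace RHyp

variable {G : Type*} [Group G] [Finite G] {π₁ π₂ : Set ℕ}

theorem struct (h : RHyp G π₁ π₂) {y₀ g₀ : G} (hg₀ : g₀ * y₀ * g₀⁻¹ = y₀⁻¹)
    (hy₀ : PiN π₂ (centralizer ({y₀} : Set G)).index) (hy₀c : y₀ ∉ center G)
    (hb : ∃ b g : G, Odd (orderOf b) ∧ b ≠ 1 ∧ g * b * g⁻¹ = b⁻¹) :
    (∃ (A : Subgroup G) (P : Sylow 2 G), A.Normal ∧ (∀ a ∈ A, ∀ b ∈ A, a * b = b * a) ∧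
      PiN π₂ (Nat.card A) ∧ (A ⊔ (P : Subgroup G)).Normal) ∨
    (∃ O N C : Subgroup G, O.Normal ∧ IsPGroup 2 O ∧ N.Normal ∧ C.Normal ∧ O ≤ N ∧ N ≤ C ∧
      (∀ x ∈ N, (∃ k : ℕ, x ^ 2 ^ k = 1) → x ∈ O) ∧
      (∀ t : G, (∃ k : ℕ, t ^ 2 ^ k = 1) → ∀ n ∈ N, t * n * t⁻¹ * n⁻¹ ∈ O) ∧
      (∀ a b : G, a * b * a⁻¹ * b⁻¹ ∈ C) ∧ PiN π₂ (N.relIndex C)) := by
  have hy₀y := h.sq_of_pi2 hg₀ hy₀
  let Q : Sylow 2 G := default
  have hOp : IsPGroup 2 (Q : Subgroup G).normalCore := Q.2.to_le (normalCore_le _)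
  have hOmax : ∀ T : Subgroup G, T.Normal → IsPGroup 2 T → T ≤ (Q : Subgroup G).normalCore := by
    intro T hTn hTp
    have := hTn
    exact normal_le_normalCore.2 (normal_two_le hTn hTp Q)
  by_cases hcase : ∃ y : G, y * y = 1 ∧ y ∉ center G ∧ PiN π₂ (centralizer ({y} : Set G)).index ∧
    y ∉ (Q : Subgroup G).normalCore
  · left
    obtain ⟨y, hyy, hyc, hy, hyO⟩ := hcase
    obtain ⟨A, P, hAn, hA, hAc, hAP⟩ := h.caseA hy hyy hyc
      (fun N hNn hNp hyN => hyO (hOmax N hNn hNp hyN))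
    refine ⟨A, P, hAn, ?_, hAc, hAP⟩
    intro a ha b hb
    have h1 := hA (a * b) (mul_mem ha hb)
    have h2 : y * (a * b) * y⁻¹ = (y * a * y⁻¹) * (y * b * y⁻¹) := by group
    rw [h2, hA a ha, hA b hb, mul_inv_rev] at h1
    have h3 := congrArg (fun z => z⁻¹) h1
    simp only [mul_inv_rev, inv_inv] at h3
    exact h3.symm
  · right
    push Not at hcase
    obtain ⟨N, C, hN, hC, h1, h2, h3, h4, h5, h6⟩ := h.caseB (Q : Subgroup G).normalCore
      inferInstance hOp hOmax hcase hy₀ hy₀y hy₀c hb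
    exact ⟨_, N, C, inferInstance, hOp, hN, hC, h1, h2, h3, h4, h5, h6⟩

/-- the primes dividing the order of the subgroup generated by the 2-elements -/
theorem prime_dvd_twoGen (h : RHyp G π₁ π₂) {y₀ g₀ : G} (hg₀ : g₀ * y₀ * g₀⁻¹ = y₀⁻¹)
    (hy₀ : PiN π₂ (centralizer ({y₀} : Set G)).index) (hy₀c : y₀ ∉ center G)
    (hb : ∃ b g : G, Odd (orderOf b) ∧ b ≠ 1 ∧ g * b * g⁻¹ = b⁻¹)
    {p : ℕ} (hp : p.Prime) (hpd : p ∣ Nat.card (twoGen G)) : p = 2 ∨ p ∈ π₂ := by
  have : Fact (Nat.Prime 2) := ⟨Nat.prime_two⟩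
  rcases h.struct hg₀ hy₀ hy₀c hb with ⟨A, P, hAn, -, hAc, hAP⟩ |
    ⟨O, N, C, hOn, hOp, hNn, hCn, hON, hNC, h2, hcomm, hab, hidx⟩
  · have hle : twoGen G ≤ A ⊔ (P : Subgroup G) := twoGen_le_of_sylow hAP P le_sup_right
    have h1 : p ∣ Nat.card (A ⊔ (P : Subgroup G) : Subgroup G) :=
      hpd.trans (card_dvd_of_le hle)
    have h2 : Nat.card (A ⊔ (P : Subgroup G) : Subgroup G) =
        Nat.card A * A.relIndex (P : Subgroup G) := by
      rw [← relIndex_bot_left, ← relIndex_mul_relIndex _ A _ bot_le le_sup_left, relIndex_bot_left,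
        relIndex_sup_left]
    rw [h2] at h1
    rcases (Nat.Prime.dvd_mul hp).1 h1 with h3 | h3
    · exact Or.inr (hAc p hp h3)
    · left
      have h4 : A.relIndex (P : Subgroup G) ∣ Nat.card (P : Subgroup G) := relIndex_dvd_card _ _
      obtain ⟨n, hn⟩ := P.2.exists_card_eq
      rw [hn] at h4
      exact (Nat.prime_dvd_prime_iff_eq hp Nat.prime_two).1 (hp.dvd_of_dvd_pow (h3.trans h4))
  · by_contra hcon
    push Not at hcon
    obtain ⟨hp2, hpπ⟩ := hcon
    apply not_dvd_of_central (K := twoGen G)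
      (((↑) : twoGen G → G) ⁻¹' {g : G | ∃ k : ℕ, orderOf g = 2 ^ k}) closure_closure_coe_preimage
      _ (O.subgroupOf (twoGen G)) _ hp hp2 _ hpd
    · rintro ⟨s, hs'⟩ hs
      obtain ⟨k, hk⟩ := two_pow_of_orderOf hs
      exact ⟨k, Subtype.ext hk⟩
    · rintro ⟨⟨o, ho'⟩, ho⟩
      obtain ⟨k, hk⟩ := hOp ⟨o, ho⟩
      refine ⟨k, ?_⟩
      apply Subtype.ext
      apply Subtype.ext
      have h9 : o ^ 2 ^ k = 1 := congrArg Subtype.val hk
      exact h9
    · rintro ⟨r, hr⟩ ⟨l, hl⟩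
      have hl' : r ^ p ^ l = 1 := congrArg Subtype.val hl
      -- `r ∈ C`
      have h5 : ∀ g ∈ twoGen G, ∃ k : ℕ, (QuotientGroup.mk' C g) ^ 2 ^ k = 1 := by
        have hcc : ∀ a b : G, Commute (QuotientGroup.mk' C a) (QuotientGroup.mk' C b) := by
          intro a b
          have h6 := hab a b
          rw [← QuotientGroup.eq_one_iff, ← QuotientGroup.mk'_apply, map_mul, map_mul, map_mul,
            map_inv, map_inv, mul_inv_eq_one, mul_inv_eq_iff_eq_mul] at h6
          exact h6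
        intro g hg
        induction hg using closure_induction with
        | mem s hs =>
          obtain ⟨k, hk⟩ := two_pow_of_orderOf hs
          exact ⟨k, by rw [← map_pow, hk, map_one]⟩
        | one => exact ⟨0, by rw [map_one, one_pow]⟩
        | mul a b _ _ ha hb =>
          obtain ⟨k, hk⟩ := ha
          obtain ⟨l, hl⟩ := hb
          refine ⟨k + l, ?_⟩
          rw [map_mul, (hcc a b).mul_pow, pow_add, pow_mul, hk, one_pow, one_mul,
            mul_comm (2 ^ k), pow_mul, hl, one_pow]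
        | inv a _ ha =>
          obtain ⟨k, hk⟩ := ha
          exact ⟨k, by rw [map_inv, inv_pow, hk, inv_one]⟩
      have hrC : r ∈ C := by
        obtain ⟨k, hk⟩ := h5 r hr
        rw [← QuotientGroup.eq_one_iff, ← QuotientGroup.mk'_apply]
        have h6 := orderOf_dvd_of_pow_eq_one hk
        have h7 : orderOf (QuotientGroup.mk' C r) ∣ p ^ l :=
          orderOf_dvd_of_pow_eq_one (by rw [← map_pow, hl', map_one])
        have h8 : (2 ^ k).Coprime (p ^ l) :=
          Nat.Coprime.pow _ _ ((Nat.coprime_primes Nat.prime_two hp).2 hp2.symm)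
        exact orderOf_eq_one_iff.1 (Nat.eq_one_of_dvd_coprimes h8 h6 h7)
      have hrN : r ∈ N := by
        have h6 := (N.subgroupOf C).pow_index_mem ⟨r, hrC⟩
        rw [mem_subgroupOf] at h6
        have h7 : r ^ (N.relIndex C) ∈ N := h6
        have h8 : (orderOf r).Coprime (N.relIndex C) := by
          have h9 : (p ^ l).Coprime (N.relIndex C) := by
            apply Nat.Coprime.pow_left
            rw [Nat.Prime.coprime_iff_not_dvd hp]
            exact fun hd => hpπ (hidx p hp hd)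
          exact h9.coprime_dvd_left (orderOf_dvd_of_pow_eq_one hl')
        exact (zpowers_le.2 h7) (Cfsg.Agent.H67.mem_zpowers_pow_of_coprime h8)
      have h6 : twoGen G ≤ (centralizer ({QuotientGroup.mk' O r} : Set (G ⧸ O))).comap
          (QuotientGroup.mk' O) := by
        apply twoGen_le
        intro t ht
        have h7 := hcomm t ht r hrN
        rw [mem_comap, mem_centralizer_singleton_iff]
        rw [← QuotientGroup.eq_one_iff, ← QuotientGroup.mk'_apply, map_mul, map_mul, map_mul,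
          map_inv, map_inv, mul_inv_eq_one, mul_inv_eq_iff_eq_mul] at h7
        exact h7
      rintro ⟨g, hg⟩
      rw [mem_subgroupOf]
      change g * r * g⁻¹ * r⁻¹ ∈ O
      have h7 := h6 hg
      rw [mem_comap, mem_centralizer_singleton_iff] at h7
      rw [← QuotientGroup.eq_one_iff, ← QuotientGroup.mk'_apply, map_mul, map_mul, map_mul,
        map_inv, map_inv, mul_inv_eq_one, mul_inv_eq_iff_eq_mul]
      exact h7

end RHyp

end Cfsg.Agent.H70
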