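import Mathlib
import Cfsg.Agent.H70.RealFinal

/-!
# Real class sizes: the disconnected graph. Owner: helper70.
-/

set_option autoImplicit false

namespace Cfsg.Agent.H70

open Subgroup Cfsg.Agent.H72

section

variable {G : Type*} [Group G] [Finite G]

omit [Finite G] in
theorem cs_sub (K : Subgroup G) (x : K) : (centralizer ({x} : Set K)).index =
    (centralizer ({(x : G)} : Set G)).relIndex K := by
  rw [relIndex]
  congr 1
  ext g
  rw [mem_subgroupOf, mem_centralizer_singleton_iff, mem_centralizer_singleton_iff]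
  constructor
  · intro h; exact congrArg Subtype.val h
  · intro h; exact Subtype.ext h

theorem cs_sub_dvd (K : Subgroup G) [K.Normal] (x : K) : (centralizer ({x} : Set K)).index ∣
    (centralizer ({(x : G)} : Set G)).index := by
  rw [cs_sub, Cfsg.Agent.Transfer.relIndex_eq_relIndex_sup]
  exact relIndex_dvd_index_of_le le_sup_left

/-- the conclusion for the subgroup generated by the 2-elements -/
theorem RHyp.twoGen_graph {π₁ π₂ : Set ℕ} (h : RHyp G π₁ π₂) {y₀ g₀ : G}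
    (hg₀ : g₀ * y₀ * g₀⁻¹ = y₀⁻¹)
    (hy₀ : PiN π₂ (centralizer ({y₀} : Set G)).index) (hy₀c : y₀ ∉ center G)
    (hb : ∃ b g : G, Odd (orderOf b) ∧ b ≠ 1 ∧ g * b * g⁻¹ = b⁻¹) :
    (∀ x g : twoGen G, g * x * g⁻¹ = x⁻¹ → Odd (centralizer ({x} : Set (twoGen G))).index ∨
      ∃ j : ℕ, (centralizer ({x} : Set (twoGen G))).index = 2 ^ j) ∧
    (∃ x g : twoGen G, g * x * g⁻¹ = x⁻¹ ∧ 2 ∣ (centralizer ({x} : Set (twoGen G))).index) ∧
    (∃ x g : twoGen G, g * x * g⁻¹ = x⁻¹ ∧ ∃ q : ℕ, q.Prime ∧ q ≠ 2 ∧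
      q ∣ (centralizer ({x} : Set (twoGen G))).index) := by
  have hKn : (twoGen G).Normal := twoGen_normal
  have hb' := hb
  obtain ⟨b, g, hbo, hb1, hg⟩ := hb'
  obtain ⟨t, -, ⟨k, hk⟩, ht⟩ := exists_two_inverts hg
  have htK : t ∈ twoGen G := mem_twoGen ⟨k, hk⟩
  have hbK : b ∈ twoGen G := by
    have h1 : t * (b * t⁻¹ * b⁻¹) ∈ twoGen G := by
      have h2 : b * t⁻¹ * b⁻¹ ∈ twoGen G := hKn.conj_mem _ (inv_mem htK) b
      exact mul_mem htK h2
    have e : t * (b * t⁻¹ * b⁻¹) = (b ^ 2)⁻¹ := by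
      have e1 : t * (b * t⁻¹ * b⁻¹) = (t * b * t⁻¹) * b⁻¹ := by group
      rw [e1, ht, pow_two, mul_inv_rev]
    rw [e, inv_mem_iff] at h1
    exact (zpowers_le.2 h1) (Cfsg.Agent.H67.mem_zpowers_pow_of_coprime
      (Nat.coprime_two_right.2 hbo))
  have hyy := h.sq_of_pi2 hg₀ hy₀
  refine ⟨?_, ⟨⟨b, hbK⟩, ⟨t, htK⟩, Subtype.ext ht, ?_⟩, ?_⟩
  · intro x g hx
    have hx' : (g : G) * x * (g : G)⁻¹ = (x : G)⁻¹ := congrArg Subtype.val hx
    by_cases ho : Odd (centralizer ({x} : Set (twoGen G))).index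
    · exact Or.inl ho
    right
    rw [Nat.not_odd_iff_even, even_iff_two_dvd] at ho
    have h1 := h.pi1_of_even hx' (ho.trans (cs_sub_dvd _ x))
    refine ⟨_, Nat.eq_prime_pow_of_unique_prime_dvd (p := 2) index_ne_zero_of_finite ?_⟩
    intro p hp hpd
    have h2 : p ∣ Nat.card (twoGen G) := hpd.trans (index_dvd_card _)
    rcases h.prime_dvd_twoGen hg₀ hy₀ hy₀c hb hp h2 with h3 | h3
    · exact h3
    · exact absurd h3 (Set.disjoint_left.1 h.disj (h1 p hp (hpd.trans (cs_sub_dvd _ x))))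
  · apply two_dvd_cs (g := ⟨t, htK⟩) (Subtype.ext ht)
    intro he
    exact hb1 (eq_one_of_odd_of_sq hbo (congrArg Subtype.val he))
  · have hyK : y₀ ∈ twoGen G := mem_twoGen ⟨1, by rw [pow_one, pow_two]; exact hyy⟩
    have hyi : y₀⁻¹ = y₀ := inv_eq_of_mul_eq_one_left hyy
    refine ⟨⟨y₀, hyK⟩, 1, Subtype.ext ?_, ?_⟩
    · change 1 * y₀ * 1⁻¹ = y₀⁻¹
      rw [hyi]; group
    · have hne : (centralizer ({(⟨y₀, hyK⟩ : twoGen G)} : Set (twoGen G))).index ≠ 1 := by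
        intro h1
        rw [index_eq_one] at h1
        have h2 : (⟨b, hbK⟩ : twoGen G) ∈
            centralizer ({(⟨y₀, hyK⟩ : twoGen G)} : Set (twoGen G)) := by
          rw [h1]; exact mem_top _
        rw [mem_centralizer_singleton_iff] at h2
        exact h.not_comm hbo hb1 hg hy₀ hyy hy₀c (congrArg Subtype.val h2)
      obtain ⟨q, hq, hqd⟩ := Nat.exists_prime_and_dvd hne
      refine ⟨q, hq, ?_, hqd⟩
      rintro rfl
      exact h.two (hy₀ 2 hq (hqd.trans (cs_sub_dvd _ _)))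

end

end Cfsg.Agent.H70
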